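import Cfsg.Agent.N2.Cl.RD.Lin
import Cfsg.Agent.H887.DS.Rep
import Cfsg.Agent.H920.NineField

/-!
# N2 (S3519), defining characteristic, `L₃`: eigenfunctions of the elements of the torus `s² + s + 1` (helper38)

* `Ex u f μ` : the right translates of `f` are combinations of eigenfunctions of `u` with the eigenvalues `μ`;
* `Dz`, `exists_dz` : the element;  `dm_sym`, `dm_nine`, `le_eight`, `ev_sym`, `ev_ad` : the bounds.
-/

set_option autoImplicit false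
set_option linter.unusedSectionVars false

namespace Cfsg.Agent.N2C.RD.A2

open Matrix Module Cfsg.Agent.H887.DS
open Cfsg.Agent.H905.Md (acRep)
open Cfsg.Agent.H911 (lin)
open scoped MatrixGroups

section ex

variable {Y k : Type} [Group Y] [Field k] {u : Y} {f f' : Y → k} {A B : Type} [Fintype A] [Fintype B] {μ : A → k} {ν : B → k}

/-- the translates of `f` are combinations of eigenfunctions -/
def Ex (u : Y) (f : Y → k) (μ : A → k) : Prop := ∃ F : A → Y → k,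
  (∀ y, ∃ c : A → k, ∀ g, f (g * y) = ∑ a, c a * F a g) ∧ ∀ a g, F a (g * u) = μ a * F a g

theorem Ex.congr (h : Ex u f μ) (e : ∀ g, f' g = f g) : Ex u f' μ := (funext e : f' = f) ▸ h

theorem Ex.mul (h : Ex u f μ) (h' : Ex u f' ν) : Ex u (fun g => f g * f' g) fun a : A × B => μ a.1 * ν a.2 := by
  obtain ⟨F, h1, h2⟩ := h
  obtain ⟨F', h3, h4⟩ := h'
  refine ⟨fun a g => F a.1 g * F' a.2 g, fun y => ?_, fun a g => ?_⟩
  · obtain ⟨c, hc⟩ := h1 y
    obtain ⟨c', hc'⟩ := h3 y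
    refine ⟨fun a => c a.1 * c' a.2, fun g => ?_⟩
    beta_reduce
    rw [hc, hc', Finset.sum_mul_sum, Fintype.sum_prod_type]
    exact Finset.sum_congr rfl fun _ _ => Finset.sum_congr rfl fun _ _ => mul_mul_mul_comm ..
  · beta_reduce
    rw [h2, h4, mul_mul_mul_comm]

theorem Ex.frob (h : Ex u f μ) (p : ℕ) [Fact p.Prime] [CharP k p] (i : ℕ) :
    Ex u (fun g => f g ^ p ^ i) fun a => μ a ^ p ^ i := by
  obtain ⟨F, h1, h2⟩ := h
  refine ⟨fun a g => F a g ^ p ^ i, fun y => ?_, fun a g => ?_⟩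
  · obtain ⟨c, hc⟩ := h1 y
    refine ⟨fun a => c a ^ p ^ i, fun g => ?_⟩
    beta_reduce
    rw [hc, sum_pow_char_pow]
    exact Finset.sum_congr rfl fun _ _ => mul_pow ..
  · beta_reduce
    rw [h2, mul_pow]

/-- the monomials of degree `r` -/
abbrev Mn (r : ℕ) : Type := ↥(Finset.piAntidiag (Finset.univ : Finset (Fin 3)) r)

theorem card_Mn (r : ℕ) : Fintype.card (Mn r) = (3 + r - 1).choose r := by
  rw [Fintype.card_coe, card_piAntidiag_univ]

theorem Ex.pow {μ : Fin 3 → k} (h : Ex u f μ) (r : ℕ) : Ex u (fun g => f g ^ r) fun e : Mn r => ∏ i, μ i ^ e.1 i := by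
  obtain ⟨F, h1, h2⟩ := h
  refine ⟨fun e g => ∏ i, F i g ^ e.1 i, fun y => ?_, fun e g => ?_⟩
  · obtain ⟨c, hc⟩ := h1 y
    refine ⟨fun e => Nat.multinomial Finset.univ e.1 * ∏ i, c i ^ e.1 i, fun g => ?_⟩
    beta_reduce
    rw [hc, Finset.sum_pow_eq_sum_piAntidiag, ← Finset.sum_coe_sort]
    exact Finset.sum_congr rfl fun e _ => by simp only [mul_pow, Finset.prod_mul_distrib, mul_assoc]
  · simp only [h2, mul_pow, Finset.prod_mul_distrib]

end ex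

section cr

variable {Y K : Type} [Group Y] [Field K] {n : ℕ} {φ : Y →* GL (Fin n) K}
  (hirr : ∀ L : Submodule (AlgebraicClosure K) (Fin n → AlgebraicClosure K), (∀ g, ∀ w ∈ L, lin (acRep φ) g w ∈ L) →
    L = ⊥ ∨ L = ⊤) {v : Fin n → AlgebraicClosure K} {ψ : Dual (AlgebraicClosure K) (Fin n → AlgebraicClosure K)}
  (hv : v ≠ 0) (hψ : ψ ≠ 0) {u : Y} {A B : Type} [Fintype A] [Fintype B] {μ : A → AlgebraicClosure K}
  (h : Ex u (fun g => ψ (lin (acRep φ) g v)) μ)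
include hirr hv hψ h

theorem Ex.dim : n ≤ Fintype.card A := by
  classical
  obtain ⟨F, h1, h2⟩ := h
  exact cr_dim (emb_of (G := ⊤) (fun L hL => hirr L fun g => hL g trivial) hψ hv F (fun y _ => (h1 y).imp fun _ h g _ => h g)
    (Subgroup.mem_top u) μ fun a g _ => h2 a g)

theorem Ex.ev (t : A → B) (ht : ∀ a a', μ a = 1 → μ a' = 1 → t a = t a' → a = a') : ev (φ u) 1 ≤ Fintype.card B := by
  classical
  obtain ⟨F, h1, h2⟩ := h
  exact (cr_ev (emb_of (G := ⊤) (fun L hL => hirr L fun g => hL g trivial) hψ hv F (fun y _ => (h1 y).imp fun _ h g _ => h g)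
    (Subgroup.mem_top u) μ fun a g _ => h2 a g)).trans (Finset.card_le_card_of_injOn t (fun _ _ => Finset.mem_univ _)
      fun a ha a' ha' => ht a a' (Finset.mem_filter.1 ha).2 (Finset.mem_filter.1 ha').2)

theorem Ex.dm (t : A → B) (ht : ∀ a a', μ a = μ a' → t a = t a' → a = a') : dm (φ u) ≤ Fintype.card B * n := by
  classical
  obtain ⟨F, h1, h2⟩ := h
  exact cr_dm (emb_of (G := ⊤) (fun L hL => hirr L fun g => hL g trivial) hψ hv F (fun y _ => (h1 y).imp fun _ h g _ => h g)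
    (Subgroup.mem_top u) μ fun a g _ => h2 a g) fun z => Finset.card_le_card_of_injOn t (fun _ _ => Finset.mem_univ _)
      fun a ha a' ha' => ht a a' ((Finset.mem_filter.1 ha).2.trans (Finset.mem_filter.1 ha').2.symm)

end cr

variable {E k : Type} [Field E] [Finite E] [Field k]

/-- an element of the torus of order `s² + s + 1` -/
structure Dz (ι : E →+* k) (m : ℕ) (u : SL(3, E)) (ζ : k) : Prop where
  prim : IsPrimitiveRoot ζ m
  dvd : m ∣ Nat.card E ^ 2 + Nat.card E + 1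
  cop : m.Coprime 3
  lt : 4 < m
  pow : u ^ m = 1
  diag : ∃ C C' : Matrix (Fin 3) (Fin 3) k, C * C' = 1 ∧ u.1.map ι * C = C * diagonal fun i : Fin 3 => ζ ^ Nat.card E ^ i.1

theorem map_mul' (ι : E →+* k) (g y : SL(3, E)) : (g * y).1.map ι = g.1.map ι * y.1.map ι := Matrix.map_mul

/-- the norm form -/
theorem exp_inj {m s r : ℕ} (hd : m ∣ s ^ 2 + s + 1) (h3 : m.Coprime 3) (hr : r ^ 2 < m) {a b c a' b' c' : ℕ} (e : a + b + c = r)
    (e' : a' + b' + c' = r) (h : a + s * b + s ^ 2 * c ≡ a' + s * b' + s ^ 2 * c' [MOD m]) : a = a' ∧ b = b' ∧ c = c' := by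
  have h1 : (m : ℤ) ∣ _ := h.dvd
  have h2 : (m : ℤ) ∣ (s : ℤ) ^ 2 + s + 1 := by exact_mod_cast hd
  push_cast at h1
  zify at e e' hr
  obtain ⟨x, hx⟩ : ∃ x : ℤ, x = a' - a := ⟨_, rfl⟩
  obtain ⟨y, hy⟩ : ∃ y : ℤ, y = b' - b := ⟨_, rfl⟩
  have h4 : (m : ℤ) ∣ 3 * (x ^ 2 + x * y + y ^ 2) := by
    have k := (h1.mul_right (2 * x + y + (x + 2 * y) * s ^ 2)).add (h2.mul_right
      ((x + y) * (2 * x + y + (x + 2 * y) * s ^ 2) - (2 * x + y) * (x + 2 * y) - (x + 2 * y) ^ 2 * (s - 1)))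
    refine k.trans (dvd_of_eq ?_)
    rw [show (c' : ℤ) = c - x - y by linarith, show (a' : ℤ) = a + x by linarith, show (b' : ℤ) = b + y by linarith]
    ring
  have h5 : (m : ℤ) ∣ x ^ 2 + x * y + y ^ 2 := (Nat.isCoprime_iff_coprime.2 h3).dvd_of_dvd_mul_left h4
  have h6 : x ^ 2 + x * y + y ^ 2 ≤ (r : ℤ) ^ 2 := by
    have k1 : (a : ℤ) ^ 2 + b ^ 2 + c ^ 2 ≤ r ^ 2 := by rw [← e]; nlinarith [mul_nonneg (Nat.cast_nonneg a : (0 : ℤ) ≤ a) (Nat.cast_nonneg b), mul_nonneg (Nat.cast_nonneg a : (0 : ℤ) ≤ a) (Nat.cast_nonneg c), mul_nonneg (Nat.cast_nonneg b : (0 : ℤ) ≤ b) (Nat.cast_nonneg c)]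
    have k2 : (a' : ℤ) ^ 2 + b' ^ 2 + c' ^ 2 ≤ r ^ 2 := by rw [← e']; nlinarith [mul_nonneg (Nat.cast_nonneg a' : (0 : ℤ) ≤ a') (Nat.cast_nonneg b'), mul_nonneg (Nat.cast_nonneg a' : (0 : ℤ) ≤ a') (Nat.cast_nonneg c'), mul_nonneg (Nat.cast_nonneg b' : (0 : ℤ) ≤ b') (Nat.cast_nonneg c')]
    have k3 : 2 * (x ^ 2 + x * y + y ^ 2) = (a' - a) ^ 2 + (b' - b) ^ 2 + ((c' : ℤ) - c) ^ 2 := by
      rw [show (c' : ℤ) = c - x - y by linarith, ← hx, ← hy]; ring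
    nlinarith [mul_nonneg (Nat.cast_nonneg a : (0 : ℤ) ≤ a) (Nat.cast_nonneg a'), mul_nonneg (Nat.cast_nonneg b : (0 : ℤ) ≤ b) (Nat.cast_nonneg b'),
      mul_nonneg (Nat.cast_nonneg c : (0 : ℤ) ≤ c) (Nat.cast_nonneg c')]
  have h7 : x ^ 2 + x * y + y ^ 2 = 0 :=
    Int.eq_zero_of_dvd_of_nonneg_of_lt (by nlinarith [sq_nonneg (2 * x + y), sq_nonneg y]) (h6.trans_lt hr) h5
  have h8 : y = 0 := by nlinarith [sq_nonneg (2 * x + y), sq_nonneg y]
  have h9 : x = 0 := by rw [h8] at h7; nlinarith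
  omega

theorem exists_dz [IsAlgClosed k] (ι : E →+* k) (p : ℕ) [hp : Fact p.Prime] [CharP E p] [CharP k p] {m : ℕ} (h4 : 4 < m)
    (h3 : m.Coprime 3) (hd : m ∣ Nat.card E ^ 2 + Nat.card E + 1) : ∃ u ζ, Dz ι m u ζ := by
  have := Fintype.ofFinite E
  obtain ⟨a, -, ha⟩ := FiniteField.card E p
  rw [← Nat.card_eq_fintype_card] at ha
  have : NeZero m := ⟨by omega⟩
  have : NeZero (m : k) := ⟨fun e => hp.out.one_lt.ne' (Nat.dvd_one.1 ((Nat.dvd_add_right (by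
    rw [ha]; exact Nat.dvd_add (dvd_pow (dvd_pow_self p a.ne_zero) two_ne_zero) (dvd_pow_self p a.ne_zero))).1
      (((CharP.cast_eq_zero_iff k p m).1 e).trans hd)))⟩
  obtain ⟨x, hx⟩ := HasEnoughRootsOfUnity.exists_primitiveRoot k m
  obtain ⟨σ, hσ⟩ : ∃ σ : k →+* k, ∀ w, σ w = w ^ Nat.card E := ⟨iterateFrobenius k p a, fun w => by rw [ha]; rfl⟩
  obtain ⟨y, hy⟩ : ∃ y, σ x = y := ⟨_, rfl⟩
  obtain ⟨z, hz⟩ : ∃ z, σ y = z := ⟨_, rfl⟩
  have h1 : x * y * z = 1 := by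
    rw [← hz, ← hy, hσ, hσ, ← pow_mul, ← (hx.pow_eq_one_iff_dvd _).2 hd]
    ring
  have h5 : σ z = x := by
    have k := congrArg σ h1
    rw [map_mul, map_mul, hy, hz, map_one] at k
    linear_combination x * k - σ z * h1
  have xy : x ≠ y := fun e => absurd (Nat.le_of_dvd three_pos ((hx.pow_eq_one_iff_dvd 3).1 (by
    rw [← h1, ← hz, ← e, hy, ← e]
    ring))) (by omega)
  have yz : y ≠ z := fun e => xy (σ.injective (by rw [hy, hz, e]))
  have zx : z ≠ x := fun e => yz (σ.injective (by rw [hz, h5, e]))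
  obtain ⟨α, hα⟩ := H920.Nine.mem_range_of_pow ι (x := x + y + z) (by
    rw [← hσ, map_add, map_add, hy, hz, h5]
    ring)
  obtain ⟨β, hβ⟩ := H920.Nine.mem_range_of_pow ι (x := x * y + y * z + z * x) (by
    simp only [← hσ, map_add, map_mul, hy, hz, h5]
    ring)
  let C : Matrix (Fin 3) (Fin 3) k := !![1, 1, 1; x, y, z; x * x, y * y, z * z]
  have hC : IsUnit C.det := by
    rw [isUnit_iff_ne_zero, show C.det = (y - x) * (z - y) * (z - x) by
      simp [C, det_fin_three]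
      ring]
    exact mul_ne_zero (mul_ne_zero (sub_ne_zero.2 xy.symm) (sub_ne_zero.2 yz.symm)) (sub_ne_zero.2 zx)
  let u : SL(3, E) := ⟨!![0, 1, 0; 0, 0, 1; 1, -β, α], by simp [det_fin_three]⟩
  have hu : u.1.map ι * C = C * diagonal ![x, y, z] := by
    ext i j
    rw [mul_diagonal, mul_apply, Fin.sum_univ_three]
    fin_cases i <;> fin_cases j <;> simp [u, C, hα, hβ] <;> grind
  refine ⟨u, x, hx, hd, h3, h4, Subtype.ext (map_injective ι.injective ?_), C, C⁻¹, mul_nonsing_inv C hC, hu.trans ?_⟩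
  · have k : ∀ i, (u ^ i).1.map ι * C = C * diagonal (![x, y, z] ^ i) := fun i => by
      induction i with
      | zero => simp [diagonal_one']
      | succ i ih => rw [pow_succ, map_mul', mul_assoc, hu, ← mul_assoc, ih, mul_assoc,
          diagonal_mul_diagonal, pow_succ]; rfl
    have hy' : y ^ m = 1 := by rw [← hy, ← map_pow, hx.pow_eq_one, map_one]
    have hz' : z ^ m = 1 := by rw [← hz, ← map_pow, hy', map_one]
    have k' := congrArg (· * C⁻¹) (k m)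
    rw [show ![x, y, z] ^ m = 1 from funext fun i => by fin_cases i <;> simp [hx.pow_eq_one, hy', hz']] at k'
    simpa [mul_assoc, mul_nonsing_inv C hC, diagonal_one'] using k'
  · congr 2
    funext i
    fin_cases i <;> simp [← hz, ← hy, hσ, ← pow_mul, pow_two]

/-- the eigenvalues -/
noncomputable def lm (E : Type) (ζ : k) (i : Fin 3) : k := ζ ^ Nat.card E ^ i.1

/-- the pairs other than `(2, 2)` -/
def pa : Fin 2 ⊕ Fin 6 → Fin 3 × Fin 3 :=
  Sum.elim ![(0, 0), (1, 1)] ![(0, 1), (0, 2), (1, 0), (1, 2), (2, 0), (2, 1)]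

section dz

variable {ι : E →+* k} {m : ℕ} {u : SL(3, E)} {ζ : k} (D : Dz ι m u ζ)
include D

theorem Dz.ne (i : Fin 3) : lm E ζ i ≠ 0 := pow_ne_zero _ (D.prim.ne_zero (by have := D.lt; omega))

theorem Dz.inj {r : ℕ} (hr : r ^ 2 < m) : Function.Injective fun e : Mn r => ∏ i, lm E ζ i ^ e.1 i := fun e e' h => by
  have h1 := (Finset.mem_piAntidiag.1 e.2).1
  have h2 := (Finset.mem_piAntidiag.1 e'.2).1
  simp only [Fin.prod_univ_three, Fin.sum_univ_three, lm, ← pow_mul, ← pow_add] at h h1 h2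
  have h3 := D.prim.eq_orderOf ▸ (isOfFinOrder_iff_pow_eq_one.2 ⟨m, by omega, D.prim.pow_eq_one⟩).pow_eq_pow_iff_modEq.1 h
  obtain ⟨k1, k2, k3⟩ := exp_inj D.dvd D.cop hr h1 h2 (by simpa using h3)
  exact Subtype.ext (funext fun i => by fin_cases i <;> assumption)

theorem Dz.inj' {r : ℕ} (hr : r ^ 2 < m) : Function.Injective fun e : Mn r => ∏ i, (lm E ζ i)⁻¹ ^ e.1 i := fun e e' h =>
  D.inj hr (inv_injective (by simpa only [inv_pow, Finset.prod_inv_distrib] using h))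

theorem Dz.two {i j i' j' : Fin 3} (h : lm E ζ i * lm E ζ j = lm E ζ i' * lm E ζ j') : i = i' ∧ j = j' ∨ i = j' ∧ j = i' := by
  have key : ∀ i j : Fin 3, Pi.single i 1 + Pi.single j 1 ∈ Finset.piAntidiag (Finset.univ : Finset (Fin 3)) 2 := by decide
  have k2 : ∀ i j : Fin 3, ∏ l, lm E ζ l ^ (Pi.single i 1 + Pi.single j 1 : Fin 3 → ℕ) l = lm E ζ i * lm E ζ j := fun i j => by
    simp only [Pi.add_apply, pow_add, Finset.prod_mul_distrib]
    simp [Pi.single_apply]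
  have k3 : ∀ i j i' j' : Fin 3, (Pi.single i 1 + Pi.single j 1 : Fin 3 → ℕ) = Pi.single i' 1 + Pi.single j' 1 →
    i = i' ∧ j = j' ∨ i = j' ∧ j = i' := by decide
  exact k3 _ _ _ _ (congrArg Subtype.val (D.inj (r := 2) D.lt (a₁ := ⟨_, key i j⟩) (a₂ := ⟨_, key i' j'⟩)
    ((k2 i j).trans (h.trans (k2 i' j').symm))))

theorem Dz.noncentral : u ∉ Subgroup.center SL(3, E) := fun h => by
  obtain ⟨r, -, hr⟩ := Matrix.SpecialLinearGroup.mem_center_iff.1 h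
  obtain ⟨C, C', h1, h2⟩ := D.diag
  have h3 : ∀ i, lm E ζ i = ι r := fun i => by
    have k : C' * (u.1.map ι * C) = C' * (C * diagonal (lm E ζ)) := congrArg (C' * ·) h2
    rw [← hr, ← mul_assoc C' C, mul_eq_one_comm.1 h1, one_mul, scalar_apply, diagonal_map (map_zero ι),
      ← smul_one_eq_diagonal, smul_mul_assoc, mul_smul_comm, one_mul, mul_eq_one_comm.1 h1] at k
    simpa using (congrFun (congrFun k i) i).symm
  exact absurd (D.two (i := 0) (j := 0) (i' := 1) (j' := 1) (by simp only [h3])) (by decide)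

theorem Dz.exs : Ex u (fun g => ι (g.1 0 0)) (lm E ζ) ∧ Ex u (fun g => ι ((g⁻¹).1 2 2)) (fun i => (lm E ζ i)⁻¹) ∧
    Ex u (fun g => ι (g.1 0 0) * ι ((g⁻¹).1 2 2)) fun a => lm E ζ (pa a).1 * (lm E ζ (pa a).2)⁻¹ := by
  obtain ⟨C, C', h1, h2⟩ := D.diag
  have sp : ∀ g y : SL(3, E), (g * y).1.map ι = g.1.map ι * C * (C' * y.1.map ι) := fun g y => by
    rw [map_mul', mul_assoc, ← mul_assoc C, h1, one_mul]
  have rt : ∀ (g : SL(3, E)) i, ((g * u).1.map ι * C) 0 i = lm E ζ i * (g.1.map ι * C) 0 i := fun g i => by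
    rw [map_mul', mul_assoc, h2, ← mul_assoc, mul_diagonal, mul_comm]; rfl
  have lf : ∀ (g : SL(3, E)) i, (C' * ((g * u)⁻¹).1.map ι) i 2 = (lm E ζ i)⁻¹ * (C' * (g⁻¹).1.map ι) i 2 := fun g i => by
    have k : (C' * (u * (g * u)⁻¹).1.map ι) i 2 = lm E ζ i * (C' * ((g * u)⁻¹).1.map ι) i 2 := by
      rw [sp, h2, ← mul_assoc, ← mul_assoc C', mul_eq_one_comm.1 h1, one_mul, diagonal_mul]; rfl
    rw [show u * (g * u)⁻¹ = g⁻¹ by group] at k
    rw [k, inv_mul_cancel_left₀ (D.ne _)]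
  have e1 : ∀ g y : SL(3, E), ι ((g * y).1 0 0) = ∑ i, (C' * y.1.map ι) i 0 * (g.1.map ι * C) 0 i := fun g y => by
    change (g * y).1.map ι 0 0 = _
    rw [sp, mul_apply]
    exact Finset.sum_congr rfl fun _ _ => mul_comm ..
  have e2 : ∀ g y : SL(3, E), ι (((g * y)⁻¹).1 2 2) = ∑ i, ((y⁻¹).1.map ι * C) 2 i * (C' * (g⁻¹).1.map ι) i 2 := fun g y => by
    rw [_root_.mul_inv_rev]
    change (y⁻¹ * g⁻¹).1.map ι 2 2 = _
    rw [sp, mul_apply]
  refine ⟨⟨fun i g => (g.1.map ι * C) 0 i, fun y => ⟨_, fun g => e1 g y⟩, fun i g => rt g i⟩,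
    ⟨fun i g => (C' * (g⁻¹).1.map ι) i 2, fun y => ⟨_, fun g => e2 g y⟩, fun i g => lf g i⟩,
    fun a g => (g.1.map ι * C) 0 (pa a).1 * (C' * (g⁻¹).1.map ι) (pa a).2 2, fun y => ⟨fun a =>
      (C' * y.1.map ι) (pa a).1 0 * ((y⁻¹).1.map ι * C) 2 (pa a).2 -
        if (pa a).1 = (pa a).2 then (C' * y.1.map ι) 2 0 * ((y⁻¹).1.map ι * C) 2 2 else 0, fun g => ?_⟩, fun a g => ?_⟩
  · have k : ∑ i, (g.1.map ι * C) 0 i * (C' * (g⁻¹).1.map ι) i 2 = 0 := by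
      rw [← mul_apply, ← sp, mul_inv_cancel]
      exact map_zero ι
    rw [Fin.sum_univ_three] at k
    simp only [e1, e2]
    generalize (g.1.map ι * C) 0 = L at k ⊢
    generalize C' * (g⁻¹).1.map ι = L' at k ⊢
    generalize C' * y.1.map ι = c
    generalize ((y⁻¹).1.map ι * C) 2 = c'
    simp [Fin.sum_univ_three, Fin.sum_univ_six, pa]
    linear_combination c 2 0 * c' 2 * k
  · simp only [rt, lf]
    ring

theorem Dz.ad : ∃ ν : Fin 2 ⊕ Fin 6 → k, Ex u (fun g => ι (g.1 0 0) * ι ((g⁻¹).1 2 2)) ν ∧ (∀ a, ν a ≠ 0) ∧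
    (∀ a, ν (.inl a) = 1) ∧ ∀ a b, ν a = ν (.inr b) → a = .inr b := by
  have key : ∀ a b, ((pa a).1 = (pa (.inr b)).1 ∧ (pa (.inr b)).2 = (pa a).2 ∨ (pa a).1 = (pa a).2 ∧ (pa (.inr b)).2 = (pa (.inr b)).1) →
    a = .inr b := by decide
  refine ⟨_, D.exs.2.2, fun a => mul_ne_zero (D.ne _) (inv_ne_zero (D.ne _)), fun a => ?_, fun a b e => key a b (D.two ?_)⟩
  · fin_cases a <;> exact mul_inv_cancel₀ (D.ne _)
  · rwa [← div_eq_mul_inv, ← div_eq_mul_inv, div_eq_div_iff (D.ne _) (D.ne _)] at e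

end dz

theorem fr_inj (p : ℕ) [Fact p.Prime] [CharP k p] (l : ℕ) {x y : k} (e : x ^ p ^ l = y ^ p ^ l) : x = y :=
  (iterateFrobenius k p l).injective e

variable {K : Type} [Field K] {n m : ℕ} {u : SL(3, E)} {φ : SL(3, E) →* GL (Fin n) K} {ι : E →+* AlgebraicClosure K}
  (hirr : ∀ L : Submodule (AlgebraicClosure K) (Fin n → AlgebraicClosure K), (∀ g, ∀ w ∈ L, lin (acRep φ) g w ∈ L) →
    L = ⊥ ∨ L = ⊤) {v : Fin n → AlgebraicClosure K} {ψ : Dual (AlgebraicClosure K) (Fin n → AlgebraicClosure K)}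
  (hv : v ≠ 0) (hψ : ψ ≠ 0) {ζ : AlgebraicClosure K} (D : Dz ι m u ζ) (p : ℕ) [hp : Fact p.Prime] [CharP (AlgebraicClosure K) p]
  {a b : ℕ} (hf : ∀ g, ψ (lin (acRep φ) g v) = xi (l := 2) ι a b g)
include hirr hv hψ D hp hf

/-- symmetric powers -/
theorem dm_sym {r i : ℕ} (hr : r ^ 2 < m) (h : a = r * p ^ i ∧ b = 0 ∨ a = 0 ∧ b = r * p ^ i) : dm (φ u) ≤ n := by
  rcases h with ⟨rfl, rfl⟩ | ⟨rfl, rfl⟩
  · refine (Ex.dm hirr hv hψ (((D.exs.1.pow r).frob p i).congr fun g => ?_) (fun _ => ()) fun e e' k _ =>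
      D.inj hr (fr_inj p i k)).trans (by simp)
    rw [hf, xi, pow_zero, mul_one, pow_mul]
  · refine (Ex.dm hirr hv hψ (((D.exs.2.1.pow r).frob p i).congr fun g => ?_) (fun _ => ()) fun e e' k _ =>
      D.inj' hr (fr_inj p i k)).trans (by simp)
    rw [hf, xi, pow_zero, one_mul, pow_mul]; rfl

/-- `L₃(4) < L₉(2)` -/
theorem dm_nine (hE : Nat.card E = 4) (hm : m = 7) (h2 : p = 2) (h : a = 3 ∧ b = 0 ∨ a = 0 ∧ b = 3) : dm (φ u) ≤ 2 * n := by
  subst hm h2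
  have key : ∀ x y : Fin 3 × Fin 3, 4 ^ x.1.1 + 4 ^ x.2.1 * 2 ≡ 4 ^ y.1.1 + 4 ^ y.2.1 * 2 [MOD 7] → decide (x.1 < x.2 + 2) = decide (y.1 < y.2 + 2) →
    x = y := by decide
  have k1 : ∀ x y : Fin 3 × Fin 3, lm E ζ x.1 * lm E ζ x.2 ^ 2 ^ 1 = lm E ζ y.1 * lm E ζ y.2 ^ 2 ^ 1 →
      decide (x.1 < x.2 + 2) = decide (y.1 < y.2 + 2) → x = y := fun x y k => key x y (by
    simp only [lm, hE, pow_one, ← pow_mul, ← pow_add] at k
    exact D.prim.eq_orderOf ▸ (isOfFinOrder_iff_pow_eq_one.2 ⟨7, by omega, D.prim.pow_eq_one⟩).pow_eq_pow_iff_modEq.1 k)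
  rcases h with ⟨rfl, rfl⟩ | ⟨rfl, rfl⟩
  · refine (Ex.dm hirr hv hψ ((D.exs.1.mul (D.exs.1.frob 2 1)).congr fun g => ?_) _ k1).trans (by simp)
    rw [hf, xi]; ring
  · refine (Ex.dm hirr hv hψ ((D.exs.2.1.mul (D.exs.2.1.frob 2 1)).congr fun g => ?_) _ fun x y k => k1 x y
      (inv_injective (by simpa only [inv_pow, mul_inv] using k))).trans (by simp)
    rw [hf, xi, pow_zero, one_mul, pow_one, ← pow_succ']; rfl

theorem le_eight {i : ℕ} (ha : a = p ^ i) (hb : b = a) : n ≤ 8 := by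
  subst hb ha
  refine (Ex.dim hirr hv hψ ((D.exs.2.2.frob p i).congr fun g => ?_)).trans (by simp)
  rw [hf, xi, mul_pow]; rfl

theorem ev_sym {r i : ℕ} (hr : r ^ 2 < m) (ha : a = r * p ^ i) (hb : b = a) : ev (φ u) 1 ≤ (3 + r - 1).choose r := by
  subst hb ha
  refine (Ex.ev hirr hv hψ ((((D.exs.1.pow r).mul (D.exs.2.1.pow r)).frob p i).congr fun g => ?_) Prod.fst
    fun e e' k k' k1 => Prod.ext k1 (D.inj' hr ?_)).trans (card_Mn r).le
  · rw [hf, xi, mul_pow, pow_mul, pow_mul]; rfl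
  · have k2 := fr_inj p i (k.trans k'.symm)
    rw [k1] at k2
    exact mul_left_cancel₀ (Finset.prod_ne_zero_iff.2 fun l _ => pow_ne_zero _ (D.ne l)) k2

theorem ev_ad {i j : ℕ} (ha : a = p ^ i + p ^ j) (hb : b = a) : ev (φ u) 1 ≤ 10 := by
  subst hb ha
  obtain ⟨ν, hν, n0, n1, n2⟩ := D.ad
  have n3 : ∀ a b, ν (.inl a) ^ p ^ i * ν (.inr b) ^ p ^ j ≠ 1 := fun a b e => by
    rw [n1, one_pow, one_mul] at e
    exact absurd (n2 (.inl a) b ((n1 a).trans (fr_inj p j ((one_pow _).trans e.symm)))) Sum.inl_ne_inr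
  have n4 : ∀ a b, ν (.inr a) ^ p ^ i * ν (.inl b) ^ p ^ j ≠ 1 := fun a b e => by
    rw [n1, one_pow, mul_one] at e
    exact absurd (n2 (.inl b) a ((n1 b).trans (fr_inj p i ((one_pow _).trans e.symm)))) Sum.inl_ne_inr
  refine (Ex.ev (B := (Fin 2 × Fin 2) ⊕ Fin 6) hirr hv hψ (((hν.frob p i).mul (hν.frob p j)).congr fun g => ?_)
    (fun x => x.1.elim (fun a => x.2.elim (fun b => .inl (a, b)) .inr) .inr) ?_).trans (by simp)
  · rw [hf, xi, mul_pow, mul_pow, pow_add, pow_add, mul_mul_mul_comm]; rfl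
  rintro ⟨a | a, b | b⟩ ⟨a' | a', b' | b'⟩ k k' e
  all_goals first | exact absurd k (n3 _ _) | exact absurd k (n4 _ _) | exact absurd k' (n3 _ _) | exact absurd k' (n4 _ _) | skip
  · simpa using e
  · simp at e
  · simp at e
  · obtain rfl : a = a' := by simpa using e
    exact Prod.ext rfl (n2 _ _ (fr_inj p j (mul_left_cancel₀ (pow_ne_zero _ (n0 _)) (k.trans k'.symm))))

end Cfsg.Agent.N2C.RD.A2
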