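import Cfsg.Agent.N2.Cl.RD.CbRow
import Cfsg.Agent.N2.Cl.RD.Num
import Cfsg.Agent.N2.Cl.RD.Mn3

/-!
# N2 (S3519), defining characteristic: `PSp_6`, `Ω_7`, all modules but those with the support at the last node and an edge of
dimension two (helper92)

* **`Cb.rest3`**.
-/

set_option autoImplicit false
set_option linter.unusedSectionVars false
set_option linter.style.longLine false

namespace Cfsg.Agent.N2C.RD.Cb

open Cfsg Cfsg.Geo Cfsg.Agent.H902 Cfsg.Agent.N2C.Cyc Cfsg.Agent.N2C.RX Cfsg.Agent.H915.LD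
open CoxeterSystem Cfsg.Agent.ChevalleyStructure.CoxeterGeom Cfsg.Agent.Tits.Roots Cfsg.Agent.Tits.Core
  Cfsg.Agent.Nodes Cfsg.Agent.Omega.CR Cfsg.Agent.Omega.FOne.Lift.Sd Cfsg.Agent.H911 Cfsg.Agent.H905.Md

namespace R3

theorem ev_one {n : ℕ} {K : Type} [Field K] : ev (1 : GL (Fin n) K) 1 = n := by
  have h : Module.End.eigenspace (Matrix.toLin' ((1 : GL (Fin n) K) : Matrix (Fin n) (Fin n) K)) 1 = ⊤ :=
    eq_top_iff.2 fun v _ => by rw [Module.End.mem_eigenspace_iff, Units.val_one, Matrix.toLin'_one, one_smul, LinearMap.id_apply]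
  rw [ev, h, finrank_top, Module.finrank_fin_fun]

/-- a prime modulo which `s` has order three -/
theorem exists_three {p a : ℕ} (hp : p.Prime) (ha : 1 ≤ a) : ∃ r, r.Prime ∧ 2 < r ∧ r ≠ p ∧ orderOf ((p ^ a : ℕ) : ZMod r) = 3 := by
  by_cases h : p = 2 ∧ a * 3 = 6
  · obtain ⟨rfl, h⟩ := h
    obtain rfl : a = 2 := by omega
    have := Fact.mk Nat.prime_three
    exact ⟨7, by norm_num, by norm_num, by norm_num, orderOf_eq_prime (by decide) (by decide)⟩
  · obtain ⟨r, hr, ho, h1, h2⟩ := H370.Rg.exists_rk (f := a) (k := 3) hp (by omega) h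
    exact ⟨r, hr, by omega, fun e => h2 (e ▸ dvd_rfl), H370.Rg.ord_q ho (by omega)⟩

theorem dvd_iff {r s : ℕ} (hs : 1 ≤ s) (d : ℕ) : r ∣ s ^ d - 1 ↔ orderOf ((s : ℕ) : ZMod r) ∣ d := by
  rw [orderOf_dvd_iff_pow_eq_one, ← ZMod.natCast_eq_zero_iff, Nat.cast_sub (Nat.one_le_pow _ _ hs), Nat.cast_pow, Nat.cast_one,
    sub_eq_zero]

theorem chk : ∀ n < 25, allK (fun t => Nat.beq (kb t) 1 || !dimB t n || chkP t n (.s 1 21) 6 3 fun m _ => Nat.blt n (9 + m)) = true := by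
  decide +kernel

variable {t : Kd} {n q p T₀ b : ℕ} {K : Type} [Field K] [Fintype K] {P : Subgroup (GL (Fin n) K)} {G : Prop} {c f : P → ℕ}
  {E : Type} [Field E] [Fintype E] [hp : Fact p.Prime] [hKp : CharP K p] [hEp : CharP E p] {Z : Prop} {Y : Type} [Group Y]
  [Finite Y] {T : Subgroup Y} {a j : ℕ} {nn : Fin 3 → Y} {X : (Fin 3 → ℤ) → Subgroup Y} {φ : Y →* GL (Fin n) K}

/-- an element of the Levi subgroup of type `A₂` -/
theorem pl (B : Fb 3 p E P Z T nn X φ j) (hC : Core P) (hi : (1 : Fin 3) ∉ JJ 3 X φ) (hE : Fintype.card E = p ^ a)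
    (hK : Fintype.card K = p ^ a) {r : ℕ} (hr : r.Prime) (hrp : r ≠ p) (ho : orderOf ((p ^ a : ℕ) : ZMod r) = 3) :
    ∃ u : P, u ^ r = 1 ∧ 9 + ev (u : GL (Fin n) K) 1 ≤ n := by
  have hWf : Finite (CoxeterMatrix.B 3).Group := TypeC.finite_W (cB 3)
  have h0 : 1 ≤ p ^ a := pow_pos hp.out.pos a
  have hd := fun d => (dvd_iff (r := r) h0 d).trans (by rw [ho])
  have hX : ∀ i, Nat.card (X (sr i)) = p ^ a := fun i => by rw [B.card_X, Nat.card_eq_fintype_card, hE]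
  have h1 : ¬ r ∣ 1 + p ^ a := fun h => absurd ((hd 2).1 (by
    rw [show (p ^ a) ^ 2 - 1 = (p ^ a) ^ 2 - 1 ^ 2 by rw [one_pow], Nat.sq_sub_sq, add_comm]
    exact h.mul_right _)) (by norm_num)
  have h3 : ¬ r ∣ p ^ a - 1 := fun h => absurd ((hd 1).1 (by rwa [pow_one])) (by norm_num)
  have h2 : r ∣ 1 + p ^ a + (p ^ a) ^ 2 := by
    have h4 := (hd 3).2 dvd_rfl
    obtain ⟨x, hx⟩ := Nat.exists_eq_add_of_le' h0
    rw [hx] at h4 h3 ⊢
    rw [show (x + 1) ^ 3 - 1 = (x + 1 - 1) * (1 + (x + 1) + (x + 1) ^ 2) by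
      rw [Nat.add_sub_cancel, Nat.sub_eq_iff_eq_add (Nat.one_le_pow _ _ (by omega))]; ring] at h4
    exact (hr.dvd_mul.1 h4).resolve_left h3
  obtain ⟨s, hs, hel⟩ := Rg.exists_el2 B.rgd hr hrp (B.not_dvd_T hr (by rwa [Nat.card_eq_fintype_card, hE])) (i := 0) (j := 1) (by
    rw [Rg.card_A2 B.rgd (by decide) (by decide) (by decide) (hX 0) (hX 1)]
    exact (h2.mul_left _).mul_right _) (by rwa [hX]) (by rwa [hX])
  have hsr : s ^ r = 1 := hs ▸ pow_orderOf_eq_one s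
  refine ⟨⟨φ s, B.range ▸ ⟨s, rfl⟩⟩, Subtype.ext (by rw [Subgroup.coe_pow, ← map_pow, hsr, map_one]; rfl), ?_⟩
  exact Rg.levi_ev B.rgd hC B.gg B.comm B.range (Mn.ind_zero hi) [0, 1] (s := s)
    (by rwa [show {j : Fin 3 | j ∈ [0, 1]} = {0, 1} by ext; simp]) hr hrp hsr [[], [1, 2], [1, 0, 2, 1, 2]] [![2, 4, 3]]
    (by decide +kernel) (by decide +kernel) (by decide +kernel) (by decide +kernel) (e := 3) fun d h4 h5 =>
      Nat.le_of_dvd h4 ((hd d).1 (by rwa [Nat.card_eq_fintype_card, hK] at h5))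

/-- the middle node -/
theorem mid (M : Md t q p T₀ b P G c f) (B : Fb 3 p E P Z T nn X φ j) (N : Nd (.C 3) p a (Soc P)) (hE : Fintype.card E = p ^ a)
    (hK : Fintype.card K = p ^ a) (hi : (1 : Fin 3) ∉ JJ 3 X φ) (hn : n < 25) : G := by
  obtain ⟨r, hr, h2, hrp, ho⟩ := exists_three hp.out N.real.hf
  have := Fact.mk hr
  obtain ⟨u, hu, h1⟩ := pl B M.core hi hE hK hr hrp ho
  have h3 : orderOf u = r := orderOf_eq_prime hu fun e => by
    rw [e, OneMemClass.coe_one, ev_one] at h1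
    omega
  have h4 := allK_sound (chk n hn) t
  have h5 := M.frm
  have h6 := M.card
  have key : kb t = 2 → (fr t q : ℤ) = (q : ℕ) → kq t q = q → G := fun k1 k2 k3 => by
    have hq : q = p ^ a := by rw [← k3, ← h6, hK]
    rw [k1, dimB_of M.dim] at h4
    refine M.of_P hr hrp h2 h3 (e := 3) (k := 6) (by rw [k2, Int.cast_natCast, hq, ho]) (by norm_num) (by norm_num)
      (fun s k4 k5 _ => by rw [k1] at k5; omega) (by rw [← Bool.not_eq_true, Nat.blt_eq]; omega) (M.cq u) (HB.s rfl ?_) h4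
    exact M.bnd (w := 1) (v := 1) (g := 1) (k := 1) N (by rw [hq]) one_pos le_rfl le_rfl le_rfl
  cases t
  exacts [absurd B.sd h5, absurd B.sd h5.2, key rfl rfl rfl, key rfl rfl rfl, key rfl rfl rfl, key rfl rfl rfl]

end R3

variable {t : Kd} {n q p T₀ b : ℕ} {K : Type} [Field K] [Fintype K] {P : Subgroup (GL (Fin n) K)} {G : Prop} {c f : P → ℕ}
  {E : Type} [Field E] [Fintype E] [hp : Fact p.Prime] [hKp : CharP K p] [hEp : CharP E p] {Z : Prop} {Y : Type} [Group Y]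
  [Finite Y] {T : Subgroup Y} {a j : ℕ} {nn : Fin 3 → Y} {X : (Fin 3 → ℤ) → Subgroup Y} {φ : Y →* GL (Fin n) K}

/-- **rank three** -/
theorem rest3 (M : Md t q p T₀ b P G c f) (B : Fb 3 p E P Z T nn X φ j) (N : Nd (.C 3) p a (Soc P))
    (hE : Fintype.card E = p ^ a) (hZ : ¬ Z) (sp : (∀ i, i ∉ JJ 3 X φ → i = 2) → dd T X φ 2 ≤ 2 → G) : G := by
  have hWf : Finite (CoxeterMatrix.B 3).Group := TypeC.finite_W (cB 3)
  have hC := M.core
  have hj := B.pos
  have hs : Fintype.card K ^ j = p ^ a := by rw [← Nat.card_eq_fintype_card, B.card, Nat.card_eq_fintype_card, hE]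
  have hk := gk (m := 3) le_rfl p
  have hd : ∀ i, i ∉ JJ 3 X φ → 2 * j ≤ dd T X φ i := fun i hi => by
    obtain ⟨d, h1, h2⟩ := B.edge hC hi
    rw [h2]
    exact two_mul_le h1 j
  have h3 : ∀ i : Fin 3, i = 0 ∨ i = 1 ∨ i = 2 := by decide
  rcases hj.eq_or_lt with rfl | hj2
  swap
  · obtain ⟨i, hi⟩ := B.node
    have h1 := hd i hi
    have h2 : 24 * j ≤ n + 18 := by
      rcases h3 i with rfl | rfl | rfl
      · obtain ⟨ε, h4, h5⟩ := B.first hC (by norm_num) rfl hi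
        omega
      · have h4 : 12 * dd T X φ 1 ≤ 2 * n := B.all hC hi
        have hne := hC.nonempty
        have hchar : CharP (AlgebraicClosure K) p := charP_of_injective_algebraMap (algebraMap K _).injective p
        have hirr := ac_irr B.rgd B.gg B.comm B.range hC.absIrred
        have h5 := H948.Ppd.dim_ge_mid B.rgd hirr hi
        have h6 := finrank_Io B.rgd hirr (1 : Fin 3)
        rw [finrank_D B.rgd hirr B.comm] at h5 h6
        rw [Module.finrank_fin_fun] at h5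
        have h7 := h1.trans h6
        omega
      · obtain ⟨ε, h4, h5⟩ := B.last hC rfl hi
        omega
    refine M.ct_sc N hs.ge hk ?_
    show _ + 2 * (j * (21 + 1)) + _ ≤ _
    obtain ⟨x, rfl⟩ := Nat.exists_eq_add_of_le' (show 2 ≤ j from hj2)
    obtain ⟨y, rfl⟩ := Nat.exists_eq_add_of_le (show 24 * x + 30 ≤ n by omega)
    have h4 : 16 * (24 * x + 30 + y) + 28 + 8 * ((x + 2) * (21 + 1)) ≤ (24 * x + 30 + y) ^ 2 := by
      ring_nf
      omega
    omega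
  rcases Nat.lt_or_ge n 25 with hn | hn
  swap
  · refine M.ct_sc N hs.ge hk ?_
    show _ + 2 * (1 * (21 + 1)) + _ ≤ _
    have h4 : 25 * n ≤ n ^ 2 := by rw [sq]; exact Nat.mul_le_mul_right _ hn
    omega
  by_cases h1 : (1 : Fin 3) ∈ JJ 3 X φ
  swap
  · exact R3.mid M B N hE (by rw [← hs, pow_one]) h1 hn
  by_cases h0 : (0 : Fin 3) ∈ JJ 3 X φ
  · have h4 : ∀ i, i ∉ JJ 3 X φ → i = 2 := fun i hi => by
      rcases h3 i with rfl | rfl | rfl
      exacts [absurd h0 hi, absurd h1 hi, rfl]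
    rcases Nat.lt_or_ge 2 (dd T X φ 2) with h5 | h5
    swap
    · exact sp h4 h5
    obtain ⟨i, hi⟩ := B.node
    obtain ⟨h6, u, hu⟩ := Mn.w32 B.rgd hC B.gg B.comm B.range (h4 i hi ▸ hi) h5
    refine M.ct_dm N hs.ge hk u hu ?_
    show _ + 2 * (1 * (21 + 1)) + _ ≤ _
    clear hu
    interval_cases n <;> norm_num
  by_cases h2 : (2 : Fin 3) ∈ JJ 3 X φ
  · have h5 : ¬ dd T X φ 0 ≤ 2 := fun h => hZ (B.nat 0 rfl (fun i hi => by
      rcases h3 i with rfl | rfl | rfl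
      exacts [rfl, absurd h1 hi, absurd h2 hi]) h)
    obtain ⟨h6, u, hu⟩ := Mn.w30 B.rgd hC B.gg B.comm B.range h0 (not_le.1 h5)
    refine M.ct_dm N hs.ge hk u hu ?_
    show _ + 2 * (1 * (21 + 1)) + _ ≤ _
    clear hu
    interval_cases n <;> norm_num
  obtain ⟨h6, u, hu⟩ := Rg.exists_dm_le B.rgd hC B.gg B.comm B.range (c := Pi.single 0 1 + Pi.single 2 1) (fun s hs => by
      rw [Pi.add_apply, Mn.ind_zero h0 s hs, Mn.ind_zero h2 s hs, add_zero]) [0, 1, 2]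
    [([], 6), ([0], 6), ([0, 1], 6), ([2, 1], 6)] [] [] [] (fun e he => absurd he (by simp))
    (by decide +kernel) List.nodup_nil (o := 4) (o' := 0) (m := 24) (m' := 0) rfl rfl rfl rfl
  refine M.ct_dm N hs.ge hk u hu ?_
  show _ + 2 * (1 * (21 + 1)) + _ ≤ _
  obtain rfl : n = 24 := by omega
  norm_num

end Cfsg.Agent.N2C.RD.Cb
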