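import Cfsg.Agent.H425.OF.Singer
import Cfsg.Agent.H150.SpForm
import Cfsg.Agent.H182.PGOrth
import Cfsg.Agent.H376.Odd8Orth

/-!
# N2 (S3519): elements of order `(q ^ 3 - 1) / (2, q - 1)` in `PSp₆(q)` and `Ω₇(q)` (helper36)
-/

set_option autoImplicit false
set_option linter.unusedSectionVars false

namespace Cfsg.Agent.N2C.RD.C3

open Cfsg Matrix QuadraticMap Cfsg.Agent.LieClassical.OrthForms Cfsg.Agent.ClassicalGeometry.SympBasic

variable {E : Type} [Field E]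

/-- the Levi subgroup -/
noncomputable def bl : GL (Fin 3) E →* Matrix (Fin 3 ⊕ Fin 3) (Fin 3 ⊕ Fin 3) E where
  toFun A := fromBlocks (A : Matrix (Fin 3) (Fin 3) E) 0 0 ((A⁻¹ : GL (Fin 3) E) : Matrix (Fin 3) (Fin 3) E)ᵀ
  map_one' := by rw [inv_one, Units.val_one, transpose_one, fromBlocks_one]
  map_mul' A B := by
    rw [fromBlocks_multiply, _root_.mul_inv_rev, Units.val_mul, Units.val_mul, transpose_mul]
    simp only [Matrix.mul_zero, Matrix.zero_mul, add_zero, zero_add]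

theorem bl_dot (A : GL (Fin 3) E) (u v : Fin 3 ⊕ Fin 3 → E) :
    ∑ i, (bl A *ᵥ u) (.inl i) * (bl A *ᵥ v) (.inr i) = ∑ i, u (.inl i) * v (.inr i) := by
  have h : ∀ w : Fin 3 ⊕ Fin 3 → E, bl A *ᵥ w = Sum.elim ((A : Matrix (Fin 3) (Fin 3) E) *ᵥ (w ∘ Sum.inl))
      (((A⁻¹ : GL (Fin 3) E) : Matrix (Fin 3) (Fin 3) E)ᵀ *ᵥ (w ∘ Sum.inr)) := fun w => by
    change fromBlocks _ _ _ _ *ᵥ w = _
    rw [fromBlocks_mulVec, zero_mulVec, zero_mulVec, add_zero, zero_add]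
  rw [h, h]
  change ((A : Matrix (Fin 3) (Fin 3) E) *ᵥ (u ∘ Sum.inl)) ⬝ᵥ (_ *ᵥ (v ∘ Sum.inr)) = (u ∘ Sum.inl) ⬝ᵥ (v ∘ Sum.inr)
  rw [dotProduct_mulVec, vecMul_transpose, mulVec_mulVec, ← Units.val_mul, inv_mul_cancel, Units.val_one, one_mulVec]

theorem bl_11 (A : GL (Fin 3) E) : (bl A).toBlocks₁₁ = A := toBlocks_fromBlocks₁₁ _ _ _ _

variable [Fintype E] (p : ℕ) [hp : Fact p.Prime] {a : ℕ} (hE : Fintype.card E = p ^ a)
include hE

theorem exists_psp : ∃ g : PSp 3 E, Fintype.card E ^ 3 - 1 ∣ Nat.gcd 2 (Fintype.card E - 1) * orderOf g := by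
  obtain ⟨A, hA⟩ := H425.OF.exists_singer_one hE
  let X : symplecticGroup (Fin 3) E := ⟨bl A, mem_symplecticGroup_iff.2 fun u v => by
    rw [sympForm_eq_sum, sympForm_eq_sum, Finset.sum_sub_distrib, Finset.sum_sub_distrib, bl_dot,
      Finset.sum_congr rfl fun _ _ => mul_comm _ _, bl_dot, Finset.sum_congr rfl fun _ _ => mul_comm _ _]⟩
  refine ⟨QuotientGroup.mk X, ?_⟩
  have h := (H150.mk_psp_pow_eq_one_iff (by norm_num) X _).1 (pow_orderOf_eq_one (QuotientGroup.mk X : PSp 3 E))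
  generalize orderOf (QuotientGroup.mk X : PSp 3 E) = j at h ⊢
  change bl A ^ j = 1 ∨ bl A ^ j = -1 at h
  rw [← map_pow] at h
  rw [← hA, orderOf_dvd_iff_pow_eq_one, mul_comm, pow_mul]
  have h1 : ∀ B : GL (Fin 3) E, bl B = 1 → B = 1 := fun B h => Units.ext (by
    rw [← bl_11, h, ← fromBlocks_one, toBlocks_fromBlocks₁₁, Units.val_one])
  rcases h with h | h
  · rw [h1 _ h, one_pow]
  rcases Nat.even_or_odd' (Fintype.card E) with ⟨k, hk | hk⟩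
  · have : CharP E 2 := ringChar.of_eq (FiniteField.even_card_iff_char_two.2 (by omega))
    rw [h1 _ (h.trans (by ext i k; exact CharTwo.neg_eq _)), one_pow]
  · rw [hk, Nat.add_sub_cancel, Nat.gcd_mul_right_right]
    exact h1 _ (by rw [map_pow, h, neg_one_sq])

theorem exists_po (h2 : (2 : E) ≠ 0) :
    ∃ g : POmega E (quadFormOdd 3 E), Fintype.card E ^ 3 - 1 ∣ 2 * orderOf g := by
  obtain ⟨A, hA⟩ := H425.OF.exists_singer_one hE
  rw [← coe_oddForm 3 E]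
  have hQ : (polarBilin (oddForm 3 E)).Nondegenerate :=
    LieClassical.OmegaReindex.nondegenerate_of_left _ (fun x hx => nondeg_oddForm 3 E h2 x hx)
  let θ : GL (Fin 3) E →* Matrix (Unit ⊕ (Fin 3 ⊕ Fin 3)) (Unit ⊕ (Fin 3 ⊕ Fin 3)) E :=
    { toFun := fun B => fromBlocks 1 0 0 (bl B)
      map_one' := by rw [map_one, fromBlocks_one]
      map_mul' := fun B C => by
        rw [fromBlocks_multiply, map_mul]
        simp only [Matrix.mul_zero, Matrix.zero_mul, add_zero, zero_add, Matrix.mul_one] }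
  have hθ : ∀ B w, θ B *ᵥ w = Sum.elim (w ∘ Sum.inl) (bl B *ᵥ (w ∘ Sum.inr)) := fun B w => by
    change fromBlocks _ _ _ _ *ᵥ w = _
    rw [fromBlocks_mulVec, zero_mulVec, zero_mulVec, add_zero, zero_add, one_mulVec]
  let x : isometryGroup E ⇑(oddForm 3 E) := ⟨θ.toHomUnits A, fun u _ => by
    change oddForm 3 E (θ A *ᵥ u) = _
    rw [coe_oddForm, hθ]
    exact congrArg (u (.inl ()) ^ 2 + ·) (bl_dot A _ _)⟩
  obtain ⟨y, hy⟩ := H376.Odd8.transfer h2 _ hQ (by simp) ⟨Pi.single (.inr (.inl 0)) 1, by simp, by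
      rw [coe_oddForm, quadFormOdd]
      simp⟩ (x ^ 2) (H182.Orth.sq_mem_Omega _ hQ (by simp) x) (Pi.single (.inl ()) 1) (by simp)
    (H376.Odd8.act_pow x (by
      change θ A *ᵥ _ = _
      rw [hθ, show (Pi.single (.inl ()) 1 : Unit ⊕ (Fin 3 ⊕ Fin 3) → E) ∘ Sum.inr = 0 by ext; simp, mulVec_zero]
      ext (_ | _) <;> simp) 2)
  refine ⟨y, ?_⟩
  have h1 := congrArg (fun z : isometryGroup E ⇑(oddForm 3 E) => z.1.1.toBlocks₂₂.toBlocks₁₁) (pow_orderOf_eq_one (x ^ 2))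
  rw [← pow_mul, ← hy] at h1
  rw [← hA, orderOf_dvd_iff_pow_eq_one]
  refine Units.ext ?_
  change (θ.toHomUnits A ^ (2 * orderOf y)).1.toBlocks₂₂.toBlocks₁₁ =
    (1 : Matrix (Unit ⊕ (Fin 3 ⊕ Fin 3)) (Unit ⊕ (Fin 3 ⊕ Fin 3)) E).toBlocks₂₂.toBlocks₁₁ at h1
  rw [← map_pow, ← fromBlocks_one, toBlocks_fromBlocks₂₂, ← fromBlocks_one, toBlocks_fromBlocks₁₁] at h1
  exact (bl_11 _).symm.trans h1

end Cfsg.Agent.N2C.RD.C3
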