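import Mathlib

/-!
# N2 (S3519), defining characteristic: linear algebra for commutants and eigenspaces (helper38)

* `dE T`, `eE T a` : dimensions of the commutant and of an eigenspace;
* `dE_le_perm`, `dE_le_orb`, `dE_le_lines` : an endomorphism which permutes independent subspaces (W);
* `Dg T Z` : diagonalisable with eigenvalues in `Z`; `Emb`, `Emb.dg`, `Emb.eE_le`; `emb_of` (CR).
-/

set_option autoImplicit false
set_option linter.unusedSectionVars false

namespace Cfsg.Agent.N2C.RD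

open Module LinearMap

variable {k V : Type*} [Field k] [AddCommGroup V] [Module k V] [FiniteDimensional k V] {T : End k V}

/-- the dimension of the commutant -/
noncomputable def dE (T : End k V) : ℕ := finrank k (Subalgebra.centralizer k {T})

/-- the dimension of an eigenspace -/
noncomputable def eE (T : End k V) (a : k) : ℕ := finrank k (T.eigenspace a)

theorem mem_cen {X : End k V} : X ∈ Subalgebra.centralizer k {T} ↔ T * X = X * T := by
  simp [Subalgebra.mem_centralizer_iff]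

theorem dE_le_of_inj {B : Type*} [AddCommGroup B] [Module k B] [FiniteDimensional k B] (Φ : End k V →ₗ[k] B)
    (h : ∀ X, T * X = X * T → Φ X = 0 → X = 0) : dE T ≤ finrank k B :=
  LinearMap.finrank_le_finrank_of_injective (f := Φ ∘ₗ (Subalgebra.centralizer k {T}).val.toLinearMap)
    ((injective_iff_map_eq_zero _).2 fun X hX => Subtype.ext (h X (mem_cen.1 X.2) hX))

/-- a block of an endomorphism -/
def cp {A B : Type*} [AddCommGroup A] [Module k A] [AddCommGroup B] [Module k B] (p : V →ₗ[k] B) (i : A →ₗ[k] V) :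
    End k V →ₗ[k] (A →ₗ[k] B) where
  toFun X := p ∘ₗ X ∘ₗ i
  map_add' X Y := by ext; simp
  map_smul' c X := by ext; simp

section W

variable {X : Type*} {E : X → Submodule k V}

theorem exists_proj (hE : iSupIndep E) (y : X) : ∃ π : V →ₗ[k] E y, (∀ v : E y, π v = v) ∧
    ∀ x, x ≠ y → ∀ v ∈ E x, π v = 0 := by
  obtain ⟨W, h1, h2⟩ := (hE y).symm.exists_isCompl
  exact ⟨(E y).projectionOnto W h2.symm, fun v => Submodule.projectionOnto_apply_left h2.symm v, fun x hx v hv =>
    Submodule.projectionOnto_apply_right h2.symm ⟨v, h1 (le_iSup₂_of_le (f := fun j (_ : j ≠ y) => E j) x hx le_rfl hv)⟩⟩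

theorem finrank_iSup [Fintype X] (hE : iSupIndep E) : finrank k (⨆ x, E x : Submodule k V) = ∑ x, finrank k (E x) := by
  classical
  rw [← finrank_directSum, ← (LinearMap.finrank_range_of_inj (f := DirectSum.coeLinearMap E) hE.dfinsupp_lsum_injective),
    DirectSum.range_coeLinearMap]

theorem pow_inj (hT : Function.Injective T) (j : ℕ) : Function.Injective (T ^ j) := by
  induction j with
  | zero => exact fun _ _ h => h
  | succ j ih => rw [pow_succ]; exact ih.comp hT

theorem mem_of_map {U : Submodule k V} (hT : Function.Injective T) (hU : ∀ v ∈ U, T v ∈ U) {v : V} (hv : T v ∈ U) : v ∈ U := by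
  obtain ⟨w, hw⟩ := (injective_iff_surjective (f := T.restrict hU)).1 (fun a b e => Subtype.ext (hT (congrArg Subtype.val e)))
    ⟨_, hv⟩
  rw [← hT (show T w = T v from congrArg Subtype.val hw)]
  exact w.2

/-- **(W)** `T` permutes independent subspaces; `R` meets every orbit on pairs, `S` meets every orbit -/
theorem dE_le_perm [Fintype X] (hE : iSupIndep E) (σ : Equiv.Perm X) (hT : Function.Injective T)
    (hσ : ∀ x, ∀ v ∈ E x, T v ∈ E (σ x)) (R : Finset (X × X)) (hR : ∀ x y, ∃ j : ℕ, ((σ ^ j) x, (σ ^ j) y) ∈ R)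
    (S : Finset X) (hS : ∀ x, ∃ j : ℕ, (σ ^ j) x ∈ S) {ρ : ℕ} (hρ : ∑ x, finrank k (E x) + ρ = finrank k V) :
    dE T ≤ ∑ r ∈ R, finrank k (E r.1) * finrank k (E r.2) + 2 * ρ * ∑ x ∈ S, finrank k (E x) + ρ ^ 2 := by
  classical
  choose π π1 π2 using exists_proj hE
  set U := ⨆ x, E x with hU
  obtain ⟨U', hU'⟩ := U.exists_isCompl
  have dU : finrank k U = ∑ x, finrank k (E x) := finrank_iSup hE
  have d1 : finrank k U' = ρ := by have := Submodule.finrank_add_eq_of_isCompl hU'; omega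
  have d2 : finrank k (V ⧸ U) = ρ := by have := U.finrank_quotient_add_finrank; omega
  have p1 : ∀ (j : ℕ) x, ∀ v ∈ E x, (T ^ j) v ∈ E ((σ ^ j) x) := fun j => by
    induction j with
    | zero => exact fun x v hv => hv
    | succ j ih => exact fun x v hv => by rw [pow_succ', pow_succ']; exact hσ _ _ (ih x v hv)
  have hTU : ∀ v ∈ U, T v ∈ U := fun v hv => Submodule.iSup_induction E (motive := fun v => T v ∈ U) hv
    (fun x v hv => le_iSup E _ (hσ x v hv)) (by rw [map_zero]; exact U.zero_mem)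
    fun a b ha hb => by rw [map_add]; exact U.add_mem ha hb
  have p2 : ∀ (j : ℕ) v, (T ^ j) v ∈ U → v ∈ U := fun j => by
    induction j with
    | zero => exact fun v hv => hv
    | succ j ih => exact fun v hv => by rw [pow_succ] at hv; exact mem_of_map hT hTU (ih _ hv)
  have p3 : ∀ (j : ℕ) y, ∀ v ∈ U, (π ((σ ^ j) y) ((T ^ j) v) : V) = (T ^ j) (π y v) := fun j y v hv =>
    Submodule.iSup_induction E (motive := fun v => (π ((σ ^ j) y) ((T ^ j) v) : V) = (T ^ j) (π y v)) hv
      (fun x v hv => by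
        by_cases e : x = y
        · subst e
          rw [π1 _ ⟨_, p1 j x v hv⟩, π1 _ ⟨_, hv⟩]
        · rw [π2 _ _ (fun e' => e ((σ ^ j).injective e')) _ (p1 j x v hv), π2 _ _ e _ hv]
          simp) (by simp) fun a b ha hb => by simp only [map_add, Submodule.coe_add, ha, hb]
  have p4 : ∀ v ∈ U, v = ∑ y, (π y v : V) := fun v hv =>
    Submodule.iSup_induction E (motive := fun v => v = ∑ y, (π y v : V)) hv
      (fun x v hv => by
        rw [Finset.sum_eq_single x (fun y _ e => by rw [π2 _ _ e.symm _ hv]; rfl) (by simp), π1 _ ⟨_, hv⟩]) (by simp)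
      fun a b ha hb => by simp only [map_add, Submodule.coe_add, Finset.sum_add_distrib, ← ha, ← hb]
  refine (dE_le_of_inj ((LinearMap.pi fun r : R => cp (π r.1.2) (E r.1.1).subtype).prod
    ((LinearMap.pi fun x : S => cp U.mkQ (E x).subtype).prod
      ((LinearMap.pi fun y : S => cp (π y) U'.subtype).prod (cp U.mkQ U'.subtype)))) fun Y hY h0 => ?_).trans_eq ?_
  · have c1 : ∀ (j : ℕ) v, Y ((T ^ j) v) = (T ^ j) (Y v) := fun j v =>
      LinearMap.congr_fun (Commute.pow_right (show Commute Y T from hY.symm) j).eq v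
    have a1 : ∀ r ∈ R, ∀ v ∈ E r.1, π r.2 (Y v) = 0 := fun r hr v hv =>
      LinearMap.congr_fun (congrFun (congrArg Prod.fst h0) ⟨r, hr⟩) ⟨v, hv⟩
    have a2 : ∀ x ∈ S, ∀ v ∈ E x, Y v ∈ U := fun x hx v hv => by
      have e := congrArg (fun z => z.2.1 ⟨x, hx⟩ ⟨v, hv⟩) h0
      exact (Submodule.Quotient.mk_eq_zero U).1 e
    have a3 : ∀ y ∈ S, ∀ v ∈ U', π y (Y v) = 0 := fun y hy v hv =>
      congrArg (fun z => z.2.2.1 ⟨y, hy⟩ ⟨v, hv⟩) h0
    have a4 : ∀ v ∈ U', Y v ∈ U := fun v hv => (Submodule.Quotient.mk_eq_zero U).1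
      (LinearMap.congr_fun (congrArg (fun z => z.2.2.2) h0) ⟨v, hv⟩)
    have b1 : ∀ x, ∀ v ∈ E x, Y v = 0 := fun x v hv => by
      have h1 : Y v ∈ U := by
        obtain ⟨j, hj⟩ := hS x
        exact p2 j _ (by rw [← c1]; exact a2 _ hj _ (p1 j x v hv))
      rw [p4 _ h1]
      refine Finset.sum_eq_zero fun y _ => ?_
      obtain ⟨j, hj⟩ := hR x y
      refine pow_inj hT j ?_
      rw [← p3 j y _ h1, ← c1, a1 _ hj _ (p1 j x v hv), map_zero]
      rfl
    have b2 : ∀ v ∈ U, Y v = 0 := fun v hv => Submodule.iSup_induction E (motive := fun v => Y v = 0) hv b1 (map_zero _)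
      fun a b ha hb => by rw [map_add, ha, hb, add_zero]
    have b3 : ∀ v, ∃ w ∈ U', Y v = Y w := fun v => by
      obtain ⟨a, ha, b, hb, rfl⟩ := Submodule.mem_sup.1 (hU'.sup_eq_top.ge (Submodule.mem_top (x := v)))
      exact ⟨b, hb, by rw [map_add, b2 a ha, zero_add]⟩
    refine LinearMap.ext fun v => ?_
    have h1 : Y v ∈ U := by
      obtain ⟨w, hw, e⟩ := b3 v
      rw [e]; exact a4 w hw
    rw [p4 _ h1]
    refine Finset.sum_eq_zero fun y _ => ?_
    obtain ⟨j, hj⟩ := hS y
    obtain ⟨w, hw, e⟩ := b3 ((T ^ j) v)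
    refine pow_inj hT j ?_
    rw [← p3 j y _ h1, ← c1, e, a3 _ hj w hw, map_zero]
    rfl
  · simp only [finrank_prod, finrank_pi_fintype, finrank_linearMap, d1, d2]
    rw [Finset.sum_coe_sort R fun r => finrank k (E r.1) * finrank k (E r.2),
      Finset.sum_coe_sort S fun x => finrank k (E x) * ρ, Finset.sum_coe_sort S fun x => ρ * finrank k (E x),
      ← Finset.sum_mul, ← Finset.mul_sum]
    ring

/-- **(W)** only orbit representatives: `o (n + ρ) + ρ²` -/
theorem dE_le_orb [Fintype X] (hE : iSupIndep E) (σ : Equiv.Perm X) (hT : Function.Injective T)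
    (hσ : ∀ x, ∀ v ∈ E x, T v ∈ E (σ x)) (S : Finset X) (hS : ∀ x, ∃ j : ℕ, (σ ^ j) x ∈ S) {ρ : ℕ}
    (hρ : ∑ x, finrank k (E x) + ρ = finrank k V) :
    dE T ≤ (∑ x ∈ S, finrank k (E x)) * (finrank k V + ρ) + ρ ^ 2 := by
  refine (dE_le_perm hE σ hT hσ (S ×ˢ Finset.univ) (fun x y => ?_) S hS hρ).trans_eq ?_
  · obtain ⟨j, hj⟩ := hS x
    exact ⟨j, Finset.mem_product.2 ⟨hj, Finset.mem_univ _⟩⟩
  · rw [Finset.sum_product' (f := fun x y => finrank k (E x) * finrank k (E y)), ← Finset.sum_mul_sum, ← hρ]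
    ring

/-- a set of representatives if all orbits are long -/
theorem exists_reps [Fintype X] (σ : Equiv.Perm X) {h : ℕ} (hh : ∀ x j, 0 < j → j < h → (σ ^ j) x ≠ x) :
    ∃ S : Finset X, (∀ x, ∃ j : ℕ, (σ ^ j) x ∈ S) ∧ h * S.card ≤ Fintype.card X := by
  classical
  let r : X → X := fun x => (Quotient.mk (Equiv.Perm.SameCycle.setoid σ) x).out
  have hr : ∀ x, σ.SameCycle x (r x) := fun x => (Quotient.mk_out (s := Equiv.Perm.SameCycle.setoid σ) x).symm
  refine ⟨Finset.univ.image r, fun x => ?_, ?_⟩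
  · obtain ⟨j, -, hj⟩ := (hr x).exists_pow_eq'
    exact ⟨j, by rw [hj]; exact Finset.mem_image_of_mem _ (Finset.mem_univ _)⟩
  · rw [← Fintype.card_coe, ← Fintype.card_fin h, ← Fintype.card_prod]
    refine Fintype.card_le_of_injective (fun z => (σ ^ (z.1 : ℕ)) z.2) ?_
    rintro ⟨i, _, hx⟩ ⟨j, _, hy⟩ e
    obtain ⟨x, -, rfl⟩ := Finset.mem_image.1 hx
    obtain ⟨y, -, rfl⟩ := Finset.mem_image.1 hy
    have e0 : (σ ^ (i : ℕ)) (r x) = (σ ^ (j : ℕ)) (r y) := e
    have e1 : σ.SameCycle (r x) (r y) := by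
      have h1 : σ.SameCycle (r x) ((σ ^ (i : ℕ)) (r x)) := ⟨i, by rw [zpow_natCast]⟩
      have h2 : σ.SameCycle (r y) ((σ ^ (j : ℕ)) (r y)) := ⟨j, by rw [zpow_natCast]⟩
      exact h1.trans (e0 ▸ h2.symm)
    have e2 : r x = r y := congrArg Quotient.out (Quotient.sound (((hr x).trans e1).trans (hr y).symm))
    have key : ∀ a b : Fin h, (σ ^ (a : ℕ)) (r y) = (σ ^ (b : ℕ)) (r y) → ¬ a < b := fun a b e l => by
      obtain ⟨c, hc⟩ := Nat.exists_eq_add_of_lt (show (a : ℕ) < b from l)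
      rw [hc, add_assoc, pow_add, Equiv.Perm.mul_apply] at e
      exact hh _ (c + 1) (by omega) (by omega) ((σ ^ (a : ℕ)).injective e).symm
    rw [e2] at e0
    exact Prod.ext (le_antisymm (not_lt.1 (key j i e0.symm)) (not_lt.1 (key i j e0))) (Subtype.ext e2)

/-- **(W)** lines, all orbits have at least `h` elements -/
theorem dE_le_long [Fintype X] (hE : iSupIndep E) (h1 : ∀ x, finrank k (E x) = 1) (σ : Equiv.Perm X) (hT : Function.Injective T)
    (hσ : ∀ x, ∀ v ∈ E x, T v ∈ E (σ x)) {h : ℕ} (hh : ∀ x j, 0 < j → j < h → (σ ^ j) x ≠ x) {ρ : ℕ}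
    (hρ : Fintype.card X + ρ = finrank k V) : h * dE T ≤ Fintype.card X * (finrank k V + ρ) + h * ρ ^ 2 := by
  obtain ⟨S, hS, h2⟩ := exists_reps σ hh
  have h3 := dE_le_orb hE σ hT hσ S hS (ρ := ρ) (by simpa [h1] using hρ)
  simp only [h1, Finset.sum_const, smul_eq_mul, mul_one] at h3
  calc h * dE T ≤ h * (S.card * (finrank k V + ρ) + ρ ^ 2) := Nat.mul_le_mul_left _ h3
    _ = h * S.card * (finrank k V + ρ) + h * ρ ^ 2 := by ring
    _ ≤ _ := Nat.add_le_add_right (Nat.mul_le_mul_right _ h2) _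

theorem rot_pow {m : ℕ} (a : Fin (m + 1)) (j : ℕ) : (((finRotate (m + 1) ^ j) a : Fin (m + 1)) : ℕ) = (a + j) % (m + 1) := by
  induction j with
  | zero => simp [Nat.mod_eq_of_lt a.2]
  | succ j ih => rw [pow_succ', Equiv.Perm.mul_apply, finRotate_apply, Fin.val_add, ih, Fin.val_one', ← Nat.add_mod,
      add_assoc]

/-- **(W)** the vectors `T ^ a (v i)`, `a ≤ l i`, are independent and `T ^ (l i + 1) (v i)` is a multiple of `v i` -/
theorem dE_le_lines {I : Type*} [Fintype I] (hT : Function.Injective T) (v : I → V) (l : I → ℕ)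
    (hv : LinearIndependent k fun x : Σ i, Fin (l i + 1) => (T ^ (x.2 : ℕ)) (v x.1))
    (hl : ∀ i, ∃ c : k, (T ^ (l i + 1)) (v i) = c • v i) {ρ : ℕ} (hρ : ∑ i, (l i + 1) + ρ = finrank k V) :
    dE T ≤ ∑ i, ∑ j, (min (l i) (l j) + 1) + 2 * ρ * Fintype.card I + ρ ^ 2 := by
  classical
  let σ : Equiv.Perm (Σ i, Fin (l i + 1)) := Equiv.sigmaCongrRight fun i => finRotate (l i + 1)
  have hσ : ∀ (j : ℕ) i (a : Fin (l i + 1)), (σ ^ j) ⟨i, a⟩ = ⟨i, (finRotate (l i + 1) ^ j) a⟩ := fun j i a => by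
    induction j with
    | zero => rfl
    | succ j ih => rw [pow_succ', pow_succ', Equiv.Perm.mul_apply, ih]; rfl
  have h0 : ∀ i (a : Fin (l i + 1)), (σ ^ (l i + 1 - a)) ⟨i, a⟩ = ⟨i, 0⟩ := fun i a => by
    rw [hσ]
    congr 1
    exact Fin.ext (by rw [rot_pow, Nat.add_sub_cancel' a.2.le, Nat.mod_self]; rfl)
  have h1 : ∀ x : Σ i, Fin (l i + 1), finrank k (k ∙ (T ^ (x.2 : ℕ)) (v x.1)) = 1 := fun x =>
    finrank_span_singleton (hv.ne_zero x)
  let g : (Σ z : I × I, Fin (min (l z.1) (l z.2) + 1)) → (Σ i, Fin (l i + 1)) × Σ i, Fin (l i + 1) := fun z =>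
    if l z.1.1 ≤ l z.1.2 then (⟨z.1.1, z.2.castLE (by omega)⟩, ⟨z.1.2, 0⟩) else (⟨z.1.1, 0⟩, ⟨z.1.2, z.2.castLE (by omega)⟩)
  refine (dE_le_perm hv.iSupIndep_span_singleton σ hT ?_ (Finset.univ.image g) ?_
    (Finset.univ.image fun i => ⟨i, 0⟩) ?_ (ρ := ρ) (by simpa [h1] using hρ)).trans ?_
  · rintro ⟨i, a⟩ w hw
    obtain ⟨c, rfl⟩ := Submodule.mem_span_singleton.1 hw
    rw [map_smul, ← End.mul_apply, ← pow_succ']
    refine Submodule.smul_mem _ _ ?_
    show _ ∈ k ∙ (T ^ ((finRotate (l i + 1) a : Fin (l i + 1)) : ℕ)) (v i)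
    have e := rot_pow a 1
    rw [pow_one] at e
    rw [e]
    rcases Nat.lt_or_ge (a + 1) (l i + 1) with h | h
    · rw [Nat.mod_eq_of_lt h]
      exact Submodule.mem_span_singleton_self _
    · obtain ⟨d, hd⟩ := hl i
      rw [show (a : ℕ) + 1 = l i + 1 by omega, Nat.mod_self, hd]
      exact Submodule.smul_mem _ _ (Submodule.mem_span_singleton_self _)
  · rintro ⟨i, a⟩ ⟨j, b⟩
    by_cases h : l i ≤ l j
    · refine ⟨l j + 1 - b, Finset.mem_image.2 ⟨⟨(i, j), ((finRotate (l i + 1) ^ (l j + 1 - b)) a).castLE (by simp [h])⟩,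
        Finset.mem_univ _, ?_⟩⟩
      rw [h0, hσ]
      exact if_pos h
    · refine ⟨l i + 1 - a, Finset.mem_image.2 ⟨⟨(i, j), ((finRotate (l j + 1) ^ (l i + 1 - a)) b).castLE (by
        simp; omega)⟩, Finset.mem_univ _, ?_⟩⟩
      rw [h0, hσ]
      exact if_neg h
  · rintro ⟨i, a⟩
    exact ⟨_, by rw [h0]; exact Finset.mem_image_of_mem _ (Finset.mem_univ _)⟩
  · simp only [h1, Finset.sum_const, smul_eq_mul, mul_one]
    refine Nat.add_le_add_right (Nat.add_le_add (Finset.card_image_le.trans_eq ?_)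
      (Nat.mul_le_mul_left _ Finset.card_image_le)) _
    rw [Finset.card_univ, Fintype.card_sigma, Fintype.sum_prod_type]
    simp

end W

section Dg

/-- diagonalisable with eigenvalues in `Z` -/
def Dg (T : End k V) (Z : Finset k) : Prop := ⨆ z : Z, T.eigenspace z = ⊤

variable {Z : Finset k}

theorem indep (T : End k V) (Z : Finset k) : iSupIndep fun z : Z => T.eigenspace z :=
  T.eigenspaces_iSupIndep.comp Subtype.val_injective

theorem sum_eE_le (T : End k V) (Z : Finset k) : ∑ z ∈ Z, eE T z ≤ finrank k V := by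
  rw [← Finset.sum_coe_sort Z]
  exact (finrank_iSup (indep T Z)).symm.trans_le (Submodule.finrank_le _)

theorem Dg.sum (h : Dg T Z) : ∑ z ∈ Z, eE T z = finrank k V := by
  rw [← Finset.sum_coe_sort Z, ← finrank_top k V, ← show _ = ⊤ from h]
  exact (finrank_iSup (indep T Z)).symm

theorem Dg.dE_le (h : Dg T Z) : dE T ≤ ∑ z ∈ Z, eE T z ^ 2 := by
  choose π π1 _ using exists_proj (indep T Z)
  refine (dE_le_of_inj (LinearMap.pi fun z : Z => cp (π z) (T.eigenspace z).subtype) fun Y hY h0 => ?_).trans_eq ?_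
  · refine LinearMap.ext fun v => Submodule.iSup_induction (fun z : Z => T.eigenspace z) (motive := fun v => Y v = 0)
      (h.ge Submodule.mem_top) (fun z v hv => ?_) (map_zero _) fun a b ha hb => by rw [map_add, ha, hb, add_zero]
    have h1 : Y v ∈ T.eigenspace z := End.mem_eigenspace_iff.2 (by
      rw [← End.mul_apply, hY, End.mul_apply, End.mem_eigenspace_iff.1 hv, map_smul])
    have h2 : π z (Y v) = 0 := congrArg (fun f => f z ⟨v, hv⟩) h0
    exact congrArg Subtype.val ((π1 z ⟨_, h1⟩).symm.trans h2)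
  · simp only [finrank_pi_fintype, finrank_linearMap, ← pow_two]
    exact Finset.sum_coe_sort Z fun z => eE T z ^ 2

/-- all multiplicities are at most `M` -/
theorem Dg.dE_le_mul (h : Dg T Z) {M : ℕ} (hM : ∀ z ∈ Z, eE T z ≤ M) : dE T ≤ M * finrank k V := by
  rw [← h.sum, Finset.mul_sum]
  exact h.dE_le.trans (Finset.sum_le_sum fun z hz => by rw [pow_two]; exact Nat.mul_le_mul_right _ (hM z hz))

/-- the multiplicities other than that of `a` are at most `M` -/
theorem Dg.dE_le_one (h : Dg T Z) (a : k) {M : ℕ} (hM : ∀ z ∈ Z, z ≠ a → eE T z ≤ M) :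
    dE T ≤ eE T a ^ 2 + M * (finrank k V - eE T a) := by
  classical
  have h1 := sum_eE_le T (insert a (Z.erase a))
  rw [Finset.sum_insert (Finset.notMem_erase a Z)] at h1
  have h2 : ∑ z ∈ Z, eE T z ^ 2 ≤ eE T a ^ 2 + ∑ z ∈ Z.erase a, eE T z ^ 2 := by
    rw [← Finset.sum_insert (f := fun z => eE T z ^ 2) (Finset.notMem_erase a Z)]
    exact Finset.sum_le_sum_of_subset (Finset.subset_insert_iff.2 le_rfl)
  refine h.dE_le.trans (h2.trans (Nat.add_le_add_left (le_trans ?_ (Nat.mul_le_mul_left M (Nat.le_sub_of_add_le' h1))) _))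
  rw [Finset.mul_sum]
  exact Finset.sum_le_sum fun z hz => by
    rw [pow_two]; exact Nat.mul_le_mul_right _ (hM z (Finset.mem_of_mem_erase hz) (Finset.ne_of_mem_erase hz))

/-- simple spectrum -/
theorem Dg.le_natDegree (h : Dg T Z) (h1 : ∀ z ∈ Z, eE T z ≤ 1) {f : Polynomial k} (h0 : f ≠ 0) (hf : Polynomial.aeval T f = 0) :
    finrank k V ≤ f.natDegree := by
  classical
  rw [← h.sum, ← Finset.sum_filter_ne_zero]
  refine (Finset.sum_le_card_nsmul _ _ 1 fun z hz => h1 z (Finset.mem_filter.1 hz).1).trans ?_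
  rw [smul_eq_mul, mul_one]
  refine Polynomial.card_le_degree_of_subset_roots fun z hz => (Polynomial.mem_roots h0).2 ?_
  obtain ⟨v, hv, hv0⟩ := (Submodule.ne_bot_iff (T.eigenspace z)).1 fun e => (Finset.mem_filter.1 hz).2 (by
    rw [eE, e, finrank_bot])
  have h2 := End.aeval_apply_of_hasEigenvector (p := f) (show T.HasEigenvector z v from ⟨hv, hv0⟩)
  rw [hf, LinearMap.zero_apply] at h2
  exact (smul_eq_zero.1 h2.symm).resolve_right hv0

/-- `T` is a restriction of a map with a spanning family of eigenvectors -/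
structure Emb {M A : Type*} [AddCommGroup M] [Module k M] (T : End k V) (Θ : V →ₗ[k] M) (S : End k M) (F : A → M)
    (lam : A → k) : Prop where
  inj : Function.Injective Θ
  comm : ∀ v, Θ (T v) = S (Θ v)
  eig : ∀ a, S (F a) = lam a • F a
  span : ∀ v, Θ v ∈ Submodule.span k (Set.range F)

variable {M A : Type*} [AddCommGroup M] [Module k M] {Θ : V →ₗ[k] M} {S : End k M} {F : A → M} {lam : A → k}

theorem finrank_le_of_span (W : Submodule k V) (hΘ : Function.Injective Θ) {B : Type*} [Fintype B] (G : B → M)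
    (h : ∀ v ∈ W, Θ v ∈ Submodule.span k (Set.range G)) : finrank k W ≤ Fintype.card B := by
  have := FiniteDimensional.span_of_finite k (Set.finite_range G)
  refine le_trans (LinearMap.finrank_le_finrank_of_injective
    (f := (Θ.domRestrict W).codRestrict (Submodule.span k (Set.range G)) fun v => h v v.2) fun a b e => ?_)
    (finrank_range_le_card G)
  exact Subtype.ext (hΘ (congrArg Subtype.val e))

theorem Emb.finrank_le [Fintype A] (h : Emb T Θ S F lam) : finrank k V ≤ Fintype.card A :=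
  (finrank_top k V).symm.trans_le (finrank_le_of_span ⊤ h.inj F fun v _ => h.span v)

theorem Emb.aeval (h : Emb T Θ S F lam) (f : Polynomial k) (v : V) : Θ (Polynomial.aeval T f v) = Polynomial.aeval S f (Θ v) := by
  induction f using Polynomial.induction_on' with
  | add f g hf hg => simp only [map_add, LinearMap.add_apply, hf, hg]
  | monomial j c =>
    have h1 : ∀ j : ℕ, Θ ((T ^ j) v) = (S ^ j) (Θ v) := fun j => by
      induction j with
      | zero => rfl
      | succ j ih => rw [pow_succ', pow_succ', End.mul_apply, End.mul_apply, h.comm, ih]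
    simp only [Polynomial.aeval_monomial, End.mul_apply, Module.algebraMap_end_apply, map_smul, h1]

theorem aeval_eig {m : M} {c : k} (h : S m = c • m) (f : Polynomial k) : Polynomial.aeval S f m = f.eval c • m := by
  by_cases h0 : m = 0
  · rw [h0, map_zero, smul_zero]
  · exact End.aeval_apply_of_hasEigenvector ⟨End.mem_eigenspace_iff.2 h, h0⟩

/-- **(CR)** the multiplicity of an eigenvalue -/
theorem Emb.eE_le [Fintype A] [DecidableEq k] (h : Emb T Θ S F lam) (z : k) :
    eE T z ≤ (Finset.univ.filter fun a => lam a = z).card := by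
  rw [← Fintype.card_coe]
  refine finrank_le_of_span _ h.inj (fun a : Finset.univ.filter fun a => lam a = z => F a) fun v hv => ?_
  let f : Polynomial k := ∏ y ∈ (Finset.univ.image lam).erase z, (Polynomial.X - Polynomial.C y)
  have h1 : f.eval z ≠ 0 := by
    rw [Polynomial.eval_prod]
    exact Finset.prod_ne_zero_iff.2 fun y hy => by simpa using sub_ne_zero.2 (Finset.ne_of_mem_erase hy).symm
  have h2 := h.aeval f v
  rw [aeval_eig (End.mem_eigenspace_iff.1 hv), map_smul] at h2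
  rw [← Submodule.smul_mem_iff _ h1, h2]
  refine Submodule.mem_comap.1 (Submodule.span_le.2 ?_ (h.span v))
  rintro _ ⟨a, rfl⟩
  refine Submodule.mem_comap.2 ?_
  rw [aeval_eig (h.eig a)]
  by_cases e : lam a = z
  · exact Submodule.smul_mem _ _ (Submodule.subset_span ⟨⟨a, Finset.mem_filter.2 ⟨Finset.mem_univ _, e⟩⟩, rfl⟩)
  · rw [Polynomial.eval_prod, Finset.prod_eq_zero (Finset.mem_erase.2 ⟨e, Finset.mem_image_of_mem _ (Finset.mem_univ a)⟩)
      (by simp), zero_smul]
    exact Submodule.zero_mem _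

theorem mem_iSup_of (T : End k V) (Z : Finset k) : ∀ v, Polynomial.aeval T (∏ y ∈ Z, (Polynomial.X - Polynomial.C y)) v = 0 →
    v ∈ ⨆ z ∈ Z, T.eigenspace z := by
  classical
  induction Z using Finset.induction_on with
  | empty => intro v hv; simpa using hv
  | insert a Z ha ih =>
    intro v hv
    rw [Finset.prod_insert ha, mul_comm, map_mul, End.mul_apply] at hv
    have h1 : ∀ w ∈ ⨆ z ∈ Z, T.eigenspace z, ∃ u ∈ ⨆ z ∈ Z, T.eigenspace z, T u - a • u = w := fun w hw => by
      rw [iSup_subtype'] at hw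
      refine Submodule.iSup_induction _ (motive := fun w => ∃ u ∈ ⨆ z ∈ Z, T.eigenspace z, T u - a • u = w) hw
        (fun z w hw => ⟨((z : k) - a)⁻¹ • w, Submodule.smul_mem _ _ (Submodule.mem_iSup_of_mem z.1
          (Submodule.mem_iSup_of_mem z.2 hw)), ?_⟩) ⟨0, Submodule.zero_mem _, by simp⟩ ?_
      · rw [map_smul, End.mem_eigenspace_iff.1 hw, smul_comm a, ← smul_sub, ← sub_smul, smul_smul,
          inv_mul_cancel₀ (sub_ne_zero.2 fun e : (z : k) = a => ha (e ▸ z.2)), one_smul]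
      · rintro _ _ ⟨u, hu, rfl⟩ ⟨u', hu', rfl⟩
        exact ⟨u + u', Submodule.add_mem _ hu hu', by rw [map_add, smul_add]; abel⟩
    obtain ⟨u, hu, e⟩ := h1 _ (ih _ hv)
    rw [Finset.iSup_insert, ← sub_add_cancel v u]
    refine Submodule.add_mem_sup (End.mem_eigenspace_iff.2 ?_) hu
    simp only [map_sub, Polynomial.aeval_X, Polynomial.aeval_C, LinearMap.sub_apply, Module.algebraMap_end_apply] at e
    rw [map_sub, smul_sub]
    linear_combination (norm := module) -e

theorem dg_of_aeval (h : Polynomial.aeval T (∏ y ∈ Z, (Polynomial.X - Polynomial.C y)) = 0) : Dg T Z :=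
  eq_top_iff.2 fun v _ => by
    have h1 := mem_iSup_of T Z v (by rw [h, LinearMap.zero_apply])
    rwa [iSup_subtype'] at h1

/-- **(CR)** diagonalisable -/
theorem Emb.dg [Fintype A] [DecidableEq k] (h : Emb T Θ S F lam) : Dg T (Finset.univ.image lam) :=
  dg_of_aeval (LinearMap.ext fun v => h.inj (by
    rw [h.aeval, LinearMap.zero_apply, map_zero]
    refine (Submodule.span_le (p := ker _)).2 ?_ (h.span v)
    rintro _ ⟨a, rfl⟩
    show Polynomial.aeval S _ (F a) = 0
    rw [aeval_eig (h.eig a), Polynomial.eval_prod, Finset.prod_eq_zero (Finset.mem_image_of_mem _ (Finset.mem_univ a))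
      (by simp), zero_smul]))

end Dg

section CR

variable {Y A : Type*} [Group Y] {ρ : Y →* End k V} {G : Subgroup Y}

/-- the functions on `G` attached to the vectors -/
def coef (ρ : Y →* End k V) (G : Subgroup Y) (ψ : Dual k V) : V →ₗ[k] (G → k) := LinearMap.pi fun g => ψ ∘ₗ ρ g

/-- right translation -/
def trl (k : Type*) [Field k] {G : Subgroup Y} (s : G) : End k (G → k) := LinearMap.funLeft k k (· * s)

/-- **(CR)** the right translates of the coefficient `g ↦ ψ (ρ g v)` are combinations of eigenfunctions `F a` of `s` -/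
theorem emb_of [Fintype A] (hirr : ∀ L : Submodule k V, (∀ t ∈ G, ∀ v ∈ L, ρ t v ∈ L) → L = ⊥ ∨ L = ⊤) {ψ : Dual k V}
    (hψ : ψ ≠ 0) {v : V} (hv : v ≠ 0) (F : A → Y → k)
    (hF : ∀ y ∈ G, ∃ c : A → k, ∀ g ∈ G, ψ (ρ (g * y) v) = ∑ a, c a * F a g) {s : Y} (hs : s ∈ G) (lam : A → k)
    (hl : ∀ a, ∀ g ∈ G, F a (g * s) = lam a * F a g) :
    Emb (ρ s) (coef ρ G ψ) (trl k ⟨s, hs⟩) (fun a g => F a g) lam := by
  refine ⟨ker_eq_bot.1 ((hirr _ fun t ht w hw => funext fun g => ?_).resolve_right fun e => hψ (LinearMap.ext fun w => ?_)),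
    fun w => funext fun g => ?_, fun a => funext fun g => hl a g g.2, fun w => ?_⟩
  · show ψ (ρ g (ρ t w)) = 0
    rw [← End.mul_apply, ← map_mul]
    exact congrFun hw ⟨_, G.mul_mem g.2 ht⟩
  · have h1 : ψ (ρ 1 w) = 0 := congrFun (e.ge (Submodule.mem_top (x := w))) 1
    rwa [map_one] at h1
  · show ψ (ρ g (ρ s w)) = ψ (ρ (g * s) w)
    rw [map_mul, End.mul_apply]
  · have h1 := (hirr (Submodule.span k (Set.range fun g : G => ρ g v)) fun t ht w hw =>
      Submodule.mem_comap.1 (Submodule.span_le.2 (by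
        rintro _ ⟨g, rfl⟩
        exact Submodule.mem_comap.2 (Submodule.subset_span ⟨⟨_, G.mul_mem ht g.2⟩, by simp⟩)) hw)).resolve_left fun e => hv (by
      have h2 : ρ (1 : G) v ∈ Submodule.span k (Set.range fun g : G => ρ g v) := Submodule.subset_span ⟨1, rfl⟩
      simpa [e] using h2)
    refine Submodule.mem_comap.1 (Submodule.span_le.2 ?_ (h1.ge (Submodule.mem_top (x := w))))
    rintro _ ⟨y, rfl⟩
    obtain ⟨c, hc⟩ := hF y y.2
    refine Submodule.mem_comap.2 ((Submodule.mem_span_range_iff_exists_fun k).2 ⟨c, funext fun g => ?_⟩)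
    show _ = ψ (ρ g (ρ y v))
    rw [← End.mul_apply, ← map_mul, hc g g.2]
    simp

end CR

end Cfsg.Agent.N2C.RD
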