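import Cfsg.Agent.N2.Cl.RD.A1
import Cfsg.Agent.N2.Cl.RD.G2A
import Cfsg.Agent.N2.Tri.Defs
import Cfsg.Agent.H708.ReeTw
import Cfsg.Agent.H963.ReeFive
import Cfsg.Agent.H905.MdO

/-!
# N2 (S3519), defining characteristic, the row `²G₂` (helper69)

The generators of the two tori of orders `s ∓ √(3 s) + 1` generate the group.
-/

set_option autoImplicit false
set_option linter.unusedSectionVars false

namespace Cfsg.Agent.N2C.RD.ReeR

open Cfsg Cfsg.Geo Subgroup Cfsg.Agent.H915.LD Cfsg.Agent.N2C.RX Cfsg.Agent.N2C.RD.A1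

theorem ar {m : ℕ} (hm : 1 ≤ m) : ∃ z w, 1 ≤ z ∧ 1 ≤ w ∧ 3 ^ (2 * m + 1) - 3 ^ (m + 1) + 1 = 6 * z * w + 1 ∧
    3 ^ (2 * m + 1) + 3 ^ (m + 1) + 1 = 6 * z * (w + 1) + 1 ∧
    (3 ^ (2 * m + 1)) ^ 2 - 3 ^ (2 * m + 1) + 1 = (6 * z * w + 1) * (6 * z * (w + 1) + 1) := by
  obtain ⟨w, hw⟩ : Odd (3 ^ m) := Odd.pow (by decide)
  have h1 : 3 ^ 1 ≤ 3 ^ m := Nat.pow_le_pow_right (by norm_num) hm
  have h2 : 3 ^ (2 * m + 1) = 3 * (2 * w + 1) ^ 2 := by rw [← hw]; ring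
  rw [h2, pow_succ' 3 m, hw]
  refine ⟨2 * w + 1, w, by omega, by omega, ?_, by ring, ?_⟩
  · exact congrArg (· + 1) (Nat.sub_eq_of_eq_add (by ring))
  · rw [← Nat.sub_add_comm (Nat.le_self_pow two_ne_zero _)]
    exact Nat.sub_eq_of_eq_add (by ring)

theorem cop (z w : ℕ) : Nat.Coprime (6 * z) (6 * z * w + 1) := by simp

/-- the two tori generate -/
theorem gen {E : Type} [Field E] [Fintype E] {m : ℕ} (hm : 1 ≤ m) (hE : Fintype.card E = 3 ^ (2 * m + 1)) :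
    ∃ x y : Lie.twistedG2 E (3 ^ m), closure ({x, y} : Set (Lie.twistedG2 E (3 ^ m))) = ⊤ ∧ ∀ g, g = x ∨ g = y →
      1 < orderOf g ∧ Nat.Coprime 6 (orderOf g) ∧ orderOf g ∣ (3 ^ (2 * m + 1)) ^ 2 - 3 ^ (2 * m + 1) + 1 := by
  have := H125.TwoRee.finite_ree hm hE
  have C := H963.ReeFive.ctx_of_equiv hm hE (MulEquiv.refl _)
  obtain ⟨A, a1, a2, -⟩ := C.torA
  obtain ⟨B, b1, b2, -⟩ := C.torB
  obtain ⟨x, rfl⟩ := (Subgroup.isCyclic_iff_exists_zpowers_eq_top A).1 a1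
  obtain ⟨y, rfl⟩ := (Subgroup.isCyclic_iff_exists_zpowers_eq_top B).1 b1
  obtain ⟨z, w, hz, hw, h1, h2, h3⟩ := ar hm
  rw [Nat.card_zpowers, h1] at a2
  rw [Nat.card_zpowers, h2] at b2
  have h4 : 6 * 1 * 1 ≤ 6 * z * w := by gcongr
  refine ⟨x, y, ?_, ?_⟩
  · by_contra h
    obtain ⟨r, hr⟩ := H125.ReeSub.exists_zs m
    have h5 := a2 ▸ orderOf_dvd_natCard (closure ({x, y} : Set (Lie.twistedG2 E (3 ^ m)))) (subset_closure (Or.inl rfl))
    have h6 := b2 ▸ orderOf_dvd_natCard (closure ({x, y} : Set (Lie.twistedG2 E (3 ^ m)))) (subset_closure (Or.inr rfl))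
    have h7 := Nat.Coprime.mul_dvd_of_dvd_of_dvd (by
      rw [mul_add, mul_one, add_right_comm, Nat.coprime_self_add_right]; exact (cop z w).symm) h5 h6
    have h8 := (Nat.le_of_dvd Nat.card_pos h7).trans (H125.TwoRee.card_le_of_dvd hm hE hr _ h ((h3 ▸ hr.dvd_Q).trans h7))
    rw [h2] at h8
    have := Nat.le_of_mul_le_mul_right h8 (Nat.succ_pos _)
    omega
  · rintro g (rfl | rfl)
    · rw [a2, h3]
      exact ⟨by omega, (cop z w).coprime_mul_right, dvd_mul_right _ _⟩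
    · rw [b2, h3]
      exact ⟨by rw [mul_add]; omega, (cop z _).coprime_mul_right, dvd_mul_left _ _⟩

def F1 (t : Kd) (n : ℕ) : Bool :=
  lu t || allR (fun m => Nat.blt n (2 * m) || !Nat.beq ((n - m) % 6) 0 ||
    chkD t n (.s 1 (7 * 1)) (m ^ 2 + (n - m) ^ 2 / 6)) (n + 1) 0

theorem r1 : rng (fun _ => .s 1 (7 * 1)) F1 14 = true := by decide +kernel

theorem r3 : rng (fun _ => .s 3 (7 * 3)) (fun t n => lu t || chkP t n (.s 3 (7 * 3)) (6 * 3) (6 * 3) fun _ _ => false) 5 = true := by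
  decide +kernel

theorem r7 : chkP .O 7 (.s 1 (7 * 1)) (6 * 1) (6 * 1) (fun _ _ => false) = true := by decide +kernel

end ReeR

open ReeR A1 Cfsg Cfsg.Geo Cfsg.Agent.H915.LD Cfsg.Agent.N2C.RX in
/-- **the row `²G₂`** -/
theorem rowRee : Row fRee := by
  rintro t n q p T b K _ _ P G c f M ⟨rfl, E, _, _, m, hm, hE, ⟨e⟩⟩
  have hp : Fact (Nat.Prime 3) := ⟨M.prime⟩
  have := M.char
  have hC := M.core
  have hSD : SD P := fun g hg => (H905.Md.ree_both hC.absIrred hC.perfect hm hE e hg).2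
  have hb : bil t := by
    have h := M.frm
    cases t
    exacts [absurd hSD h, absurd hSD h.2, trivial, trivial, trivial, trivial]
  have hl : lu t = false := by cases t <;> first | rfl | exact hb.elim
  have hof : ∀ x : ℕ, of t x = x := fun x => by cases t <;> first | rfl | exact hb.elim
  obtain ⟨j, hj, h1⟩ := H905.Md.card_pow_eq (F := K) 3 (a := 2 * m + 1) (by omega)
    (H905.Md.pow_eq_of_no_subfield hC.absIrred hC.no_subfield 3 _ fun g hg => by
      rw [← hE]; exact (H905.Md.ree_both hC.absIrred hC.perfect hm hE e hg).1)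
  rw [Nat.card_eq_fintype_card, G2.card_bil M.toMd0 hb] at h1
  obtain ⟨ha, hq⟩ := M.lg_spec
  have haj : lg q * j = 2 * m + 1 := Nat.pow_right_injective M.prime.two_le (by
    show 3 ^ (lg q * j) = 3 ^ (2 * m + 1)
    rw [pow_mul, ← hq, h1])
  have hodd : j % 2 = 1 := Nat.odd_iff.1 (Nat.odd_mul.1 (haj ▸ odd_two_mul_add_one m)).2
  have N := nd_Ree hC.simple hC.nonabelian hm hE e
  have hsq : (3 ^ (2 * m + 1)) ^ 1 = q ^ j := by rw [pow_one, h1]
  have hB : HB q b 1 (.s j (7 * j)) := .s rfl (by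
    have h := M.bnd (g := 1) (k := j) (d := 7 * j) N hsq one_pos le_rfl (by omega) (by show j * 7 ≤ _; omega)
    rwa [one_mul] at h)
  obtain ⟨r, u, k1, k2, -, k4, k5, k6, -⟩ := M.ppd N (k := 6) (Or.inr (Or.inr rfl)) (by omega) (by omega)
  have hP : chkP t n (.s j (7 * j)) (6 * j) (6 * j) (fun _ _ => false) = true → G :=
    M.of_P k1 k5 (by omega) k6 ((ord_fr (m := 6 * j) k1 (by omega) hq ha (by omega) (by rw [k2, ← haj]; ring)).trans (hof _))
      (by omega) (by omega) (fun s s1 _ _ => s1) rfl (M.cq u) hB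
  by_cases h2 : n < 6 * j
  · exact hP (by rw [chkP, chkQ, allS, Nat.div_eq_of_lt h2, allR])
  by_cases h5 : 5 ≤ j
  · exact M.gen_j (d := 7 * j) N hsq one_pos (by show j * 7 ≤ _; omega) (by nlinarith)
  obtain rfl | rfl : j = 3 ∨ j = 1 := by omega
  · exact M.sieve (five_le M.dim) hB (fun h => hP (by rwa [hl, Bool.false_or] at h)) r3
  by_cases h3 : n ≤ 13
  · obtain rfl : n = 7 := by
      simpa using H708.ReeSix.ree_eq_seven hC hm hE e (by rwa [Fintype.card_fin])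
    have h4 := M.dim
    cases t
    case O => exact hP r7
    all_goals first | exact hb.elim | (have := h4.2; omega)
  obtain ⟨φ, k7, k8⟩ := H708.ReeSix.exists_hom hC hm hE e
  let σ : P ≃* Soc P := MulEquiv.ofBijective _ ((Nat.bijective_iff_surjective_and_card _).2
    ⟨toSoc_surjective P, by rw [← k7, ← Nat.card_congr (MonoidHom.ofInjective k8).toEquiv, k7, Nat.card_congr e.toEquiv]⟩)
  have hσ : ∀ x, toSoc P (σ.symm x) = x := σ.apply_symm_apply
  obtain ⟨x, y, h6, h7⟩ := gen hm hE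
  have h8 := ev_add_le hC (x := σ.symm (e.symm x)) (y := σ.symm (e.symm y)) (by
    rw [hσ, hσ]; exact N2.Tg.closure_pair_map e.symm.toMonoidHom e.symm.surjective h6) 1 1
  obtain ⟨g, h9, h10⟩ : ∃ g, (g = x ∨ g = y) ∧ 2 * ev ((σ.symm (e.symm g) : P) : GL (Fin n) K) 1 ≤ n := by
    by_cases h : 2 * ev ((σ.symm (e.symm x) : P) : GL (Fin n) K) 1 ≤ n
    exacts [⟨x, Or.inl rfl, h⟩, ⟨y, Or.inr rfl, by omega⟩]
  obtain ⟨a1, a2, a3⟩ := h7 g h9
  obtain ⟨a4, a5⟩ := G2.six M.toMd0 hb (u := σ.symm (e.symm g)) a1 a2 (a2.symm.coprime_dvd_right (by norm_num))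
    (by rw [← map_pow, ← map_pow, pow_orderOf_eq_one, map_one, map_one]) (j := 1) (Or.inr (h1 ▸ a3))
  refine M.sieve (by omega) hB (fun h => ?_) r1
  rw [F1, hl, Bool.false_or] at h
  have a6 := allR_sound h (i := ev ((σ.symm (e.symm g) : P) : GL (Fin n) K) 1) (Nat.zero_le _) (by omega)
  simp only [Bool.or_eq_true, Nat.blt_eq, nbeq] at a6
  exact M.of_dm (σ.symm (e.symm g)) (by omega) hB (a6.resolve_left (by omega))

end Cfsg.Agent.N2C.RD
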