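import Cfsg.Agent.TwoF.DC.TA.I.SU
import Cfsg.Agent.TwoF.DC.TA.Lv
import Cfsg.Agent.TwoF.DC.Pow.Main
import Cfsg.Agent.TwoF.DC.St.W
import Cfsg.Agent.TwoF.DC.Mod.Can

/-!
# N2 (S3519), defining characteristic, `U₄`, `U₅` (1): the bridge to Steinberg's theorem (helper82)

* `Br` : the digits `pat a` of an irreducible module, its dimension and a matrix coefficient; `br_of` for any `Std`;
* `exists_std` : the unitary groups; `d_ge1`, `d_ge2` : lower bounds for restricted modules of type `A`.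
-/

set_option autoImplicit false
set_option maxHeartbeats 400000
set_option linter.unusedSectionVars false

namespace Cfsg.Agent.N2C.RD.U45

open Module Finset Cfsg.Agent.TwoF Cfsg.Agent.TwoF.DC

section gen

variable {p : ℕ} [hp : Fact p.Prime] {ι Φ k G : Type} [Fintype ι] [DecidableEq ι] [Fintype Φ] [DecidableEq Φ] [Field k]
  [Group G] {D : RDat p ι Φ k G} {T : Type} [Group T] {U : Type} [AddCommGroup U] [Module k U]

variable (D) in
/-- the digits of a module which is defined over the field of `p ^ c` elements -/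
structure Br (τ : ι → ι) (φ : T →* G) (ρ : T →* End k U) (f c : ℕ) (pat : ℕ → ι → ℕ) : Prop where
  lt : ∀ a i, pat a i < p
  per : ∀ a, pat (a + c) = pat a
  tw : ∀ a, pat (a + f) = pat a ∘ τ
  dim : finrank k U = ∏ a ∈ range f, dd D (pat a)
  coef : ∃ (v : U) (χ : Dual k U), χ v = 1 ∧ ∀ g, χ (ρ g v) = ∏ a ∈ range f, D.toFDat.cc (pat a) (φ g) ^ p ^ a

section std

variable [IsAlgClosed k] [CharP k p] [Finite T] {S : Type} [Group S] (M : Std D T S)

theorem cP_act (c : ℕ) (n : Fin M.f → ι → ℕ) (s : T) : M.cP (M.act 1 c n) (M.ΦT s) ^ p ^ c = M.cP n (M.ΦT s) := by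
  induction c with
  | zero => rw [M.act_one_zero, pow_zero, pow_one]
  | succ c ih => rw [← ih, ← M.cP_shift (M.act 1 c n), M.act_act (Commute.one_left _), mul_one, add_comm 1, pow_succ', pow_mul]

variable [FiniteDimensional k U] [Nontrivial U] {ρ : Representation k T U}

theorem br_of {C : Can D} (hF : C.Fa) (hirr : Irr ρ ⊤) {c : ℕ} (ω : k ≃+* k) (hω : ∀ x, ω x = x ^ p ^ c) (F : U →+ U)
    (h0 : Function.Surjective F) (h1 : ∀ a v, F (a • v) = ω.symm a • F v) (h2 : ∀ t v, F (ρ t v) = ρ t (F v)) :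
    ∃ pat, Br D (M.gι M.σ) M.φ ρ M.f c pat := by
  have hP := Pw.boxPow p ι Φ k G D T S M C
  obtain ⟨n, hn, h3⟩ := Std.exists_pat hF hP (ρ := ρ) (X := ⊤) (fun _ _ _ _ => trivial) top_ne_bot fun X _ => hirr X
  have h4 : M.act 1 c n = n := by
    have h4 := ((Std.cyc hF hP hn).semi (ρ := ρ) (Std.cyc hF hP (M.act_mem hn 1 c)) ω.symm.surjective (map_zero _) h1 h2
      fun β hβ => (Std.lc_eq_zero hF hP hn).2 fun t => by
        have h5 := congrArg ω ((Std.lc_eq_zero hF hP (M.act_mem hn 1 c)).1 hβ t)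
        rw [Finsupp.support_mapRange_of_injective _ _ ω.symm.injective, map_sum, map_zero] at h5
        rw [← h5]
        exact Finset.sum_congr rfl fun s _ => by
          rw [map_mul ω, Finsupp.mapRange_apply, RingEquiv.apply_symm_apply, hω, cP_act]).2
    by_contra h5
    have h6 := (Std.indep_Vc hF hP (ρ := ρ)).pairwiseDisjoint (i := ⟨_, M.act_mem hn 1 c⟩) (j := ⟨n, hn⟩)
      fun e => h5 (congrArg Subtype.val e)
    obtain ⟨v, hv⟩ := exists_ne (0 : U)
    obtain ⟨w, rfl⟩ := h0 v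
    exact hv (Submodule.disjoint_def.1 h6 _ (h4 w (h3 trivial)) (h3 trivial))
  obtain ⟨θ, hθ, h5⟩ : ∃ θ ∈ Hom (M.ρW n) ρ, θ ≠ 0 := by
    by_contra h5
    push Not at h5
    exact top_ne_bot (le_bot_iff.1 (h3.trans (iSup₂_le fun θ hθ => by rw [h5 θ hθ, LinearMap.range_zero])))
  let e := LinearEquiv.ofBijective θ ⟨(Std.cyc hF hP hn).inj M.hyp.Up hθ h5, LinearMap.range_eq_top.1
    ((hirr _ (inv_range hθ)).resolve_left fun e => h5 (LinearMap.range_eq_bot.1 e))⟩
  refine ⟨M.ext n, fun a i => M.mem_pats.1 hn _ _, fun a => ?_, fun a => ?_, ?_,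
    e (M.cW n), (LinearMap.proj 1 ∘ₗ (M.Wc n).subtype) ∘ₗ e.symm.toLinearMap, ?_, fun g => ?_⟩
  · have h6 := M.ext_act (Commute.one_left _) c n a
    rw [h4, inv_one, M.comp_gι_one] at h6
    exact h6.symm
  · simpa only [mul_one, pow_one] using M.ext_add_mul n a 1
  · rw [← e.finrank_eq, hP.dim n hn, Finset.prod_range]
    exact Finset.prod_congr rfl fun a _ => by rw [M.ext_val]
  · exact (congrArg (fun x : M.Wc n => x.1 1) (e.symm_apply_apply _)).trans (M.cP_one n)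
  · have h6 : ρ g (e (M.cW n)) = e (M.ρW n g (M.cW n)) := (hθ _ _).symm
    rw [h6]
    refine (congrArg (fun x : M.Wc n => x.1 1) (e.symm_apply_apply _)).trans ?_
    show M.cP n (1 * M.ΦT g) = _
    rw [one_mul, Finset.prod_range]
    refine Finset.prod_congr rfl fun a _ => ?_
    simp only [M.ext_val, H45.UniE.FDat.cc, M.ΦT_apply, M.Δ_iter, ← Finset.prod_pow, ← pow_mul, mul_comm]

end std

namespace Br

variable {τ : ι → ι} {φ : T →* G} {ρ : T →* End k U} {f c : ℕ} {pat : ℕ → ι → ℕ} (B : Br D τ φ ρ f c pat)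
include B

theorem per' (a i : ℕ) : pat (a + c * i) = pat a := by
  induction i with
  | zero => rfl
  | succ i ih => rw [Nat.mul_succ, ← add_assoc, B.per, ih]

theorem sym {j : ℕ} (h : f = c * j) (a : ℕ) (i : ι) : pat a (τ i) = pat a i := by
  have h1 := B.tw a
  rw [h, B.per'] at h1
  exact (congrFun h1 i).symm

theorem half {e j : ℕ} (hτ : Function.Surjective τ) (hc : c = 2 * e) (h : f = e * (2 * j + 1)) (a : ℕ) :
    pat (a + e) = 0 ↔ pat a = 0 := by
  rw [← B.per' _ j, show a + e + c * j = a + f by rw [h, hc]; ring, B.tw]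
  exact ⟨fun h => funext fun i => by obtain ⟨i, rfl⟩ := hτ i; exact congrFun h i, fun h => by rw [h]; rfl⟩

theorem pow_le {d : ℕ} (hd : ∀ a, pat a ≠ 0 → d ≤ dd D (pat a)) :
    d ^ ((range f).filter fun a => pat a ≠ 0).card ≤ finrank k U := by
  rw [B.dim, ← Finset.prod_filter_of_ne (p := fun a => pat a ≠ 0) fun a _ h e => h (by rw [e, dd_zero])]
  exact Finset.pow_card_le_prod _ _ _ fun a ha => hd a (Finset.mem_filter.1 ha).2

theorem ex (h : 2 ≤ finrank k U) : ∃ a < f, pat a ≠ 0 := by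
  by_contra h1
  push Not at h1
  rw [B.dim, Finset.prod_eq_one fun a ha => by rw [h1 a (Finset.mem_range.1 ha), dd_zero]] at h
  omega

/-- large fields -/
theorem big (h : 2 ≤ finrank k U) {d e j : ℕ} (h0 : 0 < d) (hd : ∀ a, pat a ≠ 0 → d ≤ dd D (pat a)) (hf : f = e * j)
    (he : ∀ a, pat (a + e) = 0 ↔ pat a = 0) : d ^ j ≤ finrank k U := by
  obtain ⟨a, ha, h1⟩ := B.ex h
  have h2 : ∀ a i, pat (a + e * i) = 0 ↔ pat a = 0 := fun a i => by
    induction i with
    | zero => rfl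
    | succ i ih => rw [Nat.mul_succ, ← add_assoc, he, ih]
  have h3 : 0 < e := Nat.pos_of_ne_zero fun e0 => by rw [hf, e0, zero_mul] at ha; omega
  refine le_trans (Nat.pow_le_pow_right h0 ?_) (B.pow_le hd)
  conv_lhs => rw [← Finset.card_range j]
  refine Finset.card_le_card_of_injOn (fun i => a % e + e * i) (fun i hi => Finset.mem_filter.2 ⟨Finset.mem_range.2 ?_, ?_⟩)
    fun i _ i' _ h4 => Nat.eq_of_mul_eq_mul_left h3 (Nat.add_left_cancel h4)
  · have h4 := Nat.mul_le_mul_left e (Nat.succ_le_of_lt (Finset.mem_range.1 hi))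
    have h5 := Nat.mod_lt a h3
    rw [Nat.mul_succ] at h4
    show a % e + e * i < f
    omega
  · rw [Ne, h2, ← h2 _ (a / e), Nat.mod_add_div]
    exact h1

/-- one factor -/
theorem one (h : 2 ≤ finrank k U) {d : ℕ} (h0 : 0 < d) (hd : ∀ a, pat a ≠ 0 → d ≤ dd D (pat a)) (h1 : finrank k U < d ^ 2) :
    ∃ a, pat a ≠ 0 ∧ finrank k U = dd D (pat a) ∧
      ∃ (v : U) (χ : Dual k U), χ v = 1 ∧ ∀ g, χ (ρ g v) = D.toFDat.cc (pat a) (φ g) ^ p ^ a := by
  obtain ⟨a, ha, h2⟩ := B.ex h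
  have h3 : ∀ b ∈ range f, b ≠ a → pat b = 0 := fun b hb hne => by
    by_contra h4
    refine h1.not_ge (le_trans (Nat.pow_le_pow_right h0 ?_) (B.pow_le hd))
    exact Finset.one_lt_card.2 ⟨b, Finset.mem_filter.2 ⟨hb, h4⟩, a, Finset.mem_filter.2 ⟨Finset.mem_range.2 ha, h2⟩, hne⟩
  obtain ⟨v, χ, h4, h5⟩ := B.coef
  refine ⟨a, h2, B.dim.trans (Finset.prod_eq_single_of_mem a (Finset.mem_range.2 ha) fun b hb hne => by
    rw [h3 b hb hne, dd_zero]), v, χ, h4, fun g => (h5 g).trans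
      (Finset.prod_eq_single_of_mem a (Finset.mem_range.2 ha) fun b hb hne => ?_)⟩
  simp [h3 b hb hne, H45.UniE.FDat.cc]

end Br

end gen

section su

open Matrix Cfsg.Agent.H45.UniE Cfsg.Agent.H356.TA Cfsg.Agent.TitsThree.KSideA
  Cfsg.Agent.Nodes.RGDTypeA Cfsg.Agent.H564.TWP Cfsg.Agent.LieClassical.HermBasic Cfsg.Agent.TwoF.DC.TA Cfsg.Agent.TwoF.DC.TA.I
open Cfsg.Agent.H356.TU (SJ UB exists_UB phi chi orb ee sysU fdE)

variable {p : ℕ} [hp : Fact p.Prime] {n : ℕ} {k : Type} [Field k] [IsAlgClosed k] [CharP k p]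

/-- the constructor -/
theorem std_of {ι : kˣ} (hι : (ι : k) ^ 2 = -1) {T : Type} [Group T] [Finite T] {f : ℕ} (hf : 0 < f)
    (φ : T →* SLn n k) (hinj : Function.Injective φ)
    (hφ : ∀ g, g ∈ φ.range ↔ grA hι (γ0 n) (mp (iterateFrobenius k p f) g) = g)
    {J : Type} [DecidableEq J] {C : J → Type} [∀ j, CommGroup (C j)] {E : TSys J C T} {χ : (j : J) → C j →* kˣ}
    {orb : Fin n → J} {e : Fin n → ℕ} (hyp : Hyp p E (fdA n k) φ χ orb e fun _ => p ^ f)
    (hwt : ∀ (W : Type) [AddCommGroup W] [Module k W], E.Wt k W)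
    (wt_le : ∀ l : Fin n → ℕ, (∀ i, l i < p ^ f) → ∀ j, TSys.wt orb e l j ≤ Nat.card (C j))
    (wt_inj : ∀ l l' : Fin n → ℕ, (∀ i, l i < p ^ f) → (∀ i, l' i < p ^ f) → TSys.wt orb e l = TSys.wt orb e l' → l = l')
    (hU : Nat.card E.U = (p ^ f) ^ Fintype.card (Pos n)) (syl : ¬ p ∣ E.U.index) (perfect : commutator T = ⊤) :
    ∃ M : Std (rdA p n k) T Unit, M.f = f ∧ M.φ = φ ∧ M.gι M.σ = Fin.revPerm := by
  have hΦ : ∀ γ : GrA n, (γ.1 = 1 ∧ hom2 (rev_sq n) (fl n) (fl_sq n) γ = 1) ∨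
      (γ.1 = Fin.revPerm ∧ hom2 (rev_sq n) (fl n) (fl_sq n) γ = fl n) := fun γ => by
    rcases GrA_cases γ with rfl | ⟨h, h'⟩
    · exact Or.inl ⟨rfl, map_one _⟩
    · exact Or.inr ⟨h', hom2_of_ne _ _ _ h⟩
  have hcf : ∀ (γ : GrA n) b i, cfA (hom2 (rev_sq n) (fl n) (fl_sq n) γ b) (γ.1 i) = cfA b i := fun γ b i => by
    rcases hΦ γ with ⟨h, h'⟩ | ⟨h, h'⟩ <;> rw [h, h']
    · rfl
    · have h1 := b.1.1.2
      have h2 := b.1.2.2
      have h3 := i.2
      simp only [cfA, fl_fst, fl_snd, Fin.revPerm_apply, Fin.val_rev]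
      congr 1
      exact propext (by omega)
  refine ⟨{ f := f, f_pos := hf, Fr := mp (frobenius k p), Fr_z := fun b t => mp_tv _ b.2.ne t
            Fr_y := fun i t => mp_tv _ (cs_ne i).symm t, Δ_Fr := fun i g => DA_mp _ i g
            Gr := GrA n, gr := grA hι, gι := Subgroup.subtype _, gΦ := hom2 (rev_sq n) (fl n) (fl_sq n)
            gι_inj := Subtype.val_injective, gr_x := grA_x hι, gr_y := grA_y hι, gr_z := fun γ b => ?_, cf_gr := hcf
            co_gr := hcf, C_gr := fun γ i j => ?_, ht_gr := fun γ b => ?_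
            Δ_gr := fun γ i g => Δ_map (rdA p n k) T_le (α := (grA hι γ).toMonoidHom) (grA_x hι γ) (grA_y hι γ) i g
            Gr_small := ?_, σ := γ0 n, φ := φ, φ_inj := hinj, φ_fix := fun s => ?_, φ_Fr := fun s => ?_
            φ_gr := fun γ hγ s => ?_, J := J, C := C, E := E, χ := χ, orb := orb, e := e, hyp := hyp, hwt := hwt
            wt_le := wt_le, wt_inj := wt_inj, card_U := hU, syl := syl, perfect := perfect, π := 1
            π_surj := fun _ => ⟨1, rfl⟩, cover := fun K _ _ hK _ e => ?_ }, rfl, rfl, rfl⟩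
  · rcases GrA_cases γ with rfl | ⟨h, -⟩
    · exact ⟨1, fun t => by rw [map_one, map_one, Units.val_one, one_mul]; rfl⟩
    · exact ⟨_, fun t => by rw [grA_ne hι h, hom2_of_ne _ _ _ h]; exact th1_z ι b t⟩
  · show CA (γ.1 i) (γ.1 j) = CA i j
    rcases hΦ γ with ⟨h, -⟩ | ⟨h, -⟩ <;> rw [h]
    · rfl
    · have h1 := i.2
      have h2 := j.2
      simp only [CA, Fin.revPerm_apply, Fin.val_rev]
      omega
  · rcases hΦ γ with ⟨-, h⟩ | ⟨-, h⟩ <;> rw [h]
    · rfl
    · have h1 := b.1.1.2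
      have h2 := b.1.2.2
      show 2 * (((fl n b).1.2 : ℕ) - (fl n b).1.1) = 2 * ((b.1.2 : ℕ) - b.1.1)
      rw [fl_fst, fl_snd]
      omega
  · rw [Nat.card_zpowers]
    exact (orderOf_dvd_of_pow_eq_one ((pow_two _).trans (rev_sq n))).trans ⟨3, rfl⟩
  · rw [Fr_iter]
    exact (hφ _).1 ⟨s, rfl⟩
  · refine (hφ _).2 ?_
    rw [mp_mp, show (iterateFrobenius k p f).comp (frobenius k p) = (frobenius k p).comp (iterateFrobenius k p f) from
      RingHom.ext fun x => by simp only [RingHom.comp_apply, frobenius_def, map_pow], ← mp_mp, grA_mp, (hφ _).1 ⟨s, rfl⟩]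
  · refine (hφ _).2 ?_
    rw [← grA_mp, ← MulAut.mul_apply, ← map_mul, ← hγ.eq, map_mul, MulAut.mul_apply, (hφ _).1 ⟨s, rfl⟩]
  · exact absurd e.toEquiv.subsingleton (not_subsingleton_iff_nontrivial.2 hK.2.toNontrivial)

/-- **the unitary groups** -/
theorem exists_std {F : Type} [Field F] [Fintype F] [CharP F p] [Algebra F k] {f : ℕ} (hf : 0 < f)
    (hF : Fintype.card F = (p ^ f) ^ 2) (hn : 3 ≤ n) : ∃ (M : Std (rdA p n k) (SJ hF n) Unit) (ι : kˣ), (ι : k) ^ 2 = -1 ∧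
      M.f = f ∧ M.gι M.σ = Fin.revPerm ∧ (∀ s, th1 ι (mp (iterateFrobenius k p f) (M.φ s)) = M.φ s) ∧
      Nonempty (SU (n + 1) F (p ^ f) ≃* SJ hF n) := by
  have hq := two_le hF
  replace hn : 2 ≤ n ∧ n ≠ 2 := by omega
  obtain ⟨hn, hs⟩ := hn
  obtain ⟨ι, hι⟩ := exists_ι (k := k)
  obtain ⟨μ, hμ⟩ : ∃ μ : kˣ, dlt n ι = dlt n μ * (mp (iterateFrobenius k p f) (dlt n μ))⁻¹ := by
    obtain ⟨c, hc⟩ := IsAlgClosed.exists_pow_nat_eq ((ι⁻¹ : kˣ) : k) (show 0 < p ^ f - 1 by omega)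
    have hc0 : c ≠ 0 := fun e => ι⁻¹.ne_zero (by rw [← hc, e, zero_pow (by omega)])
    refine ⟨Units.mk0 c hc0, ?_⟩
    rw [eq_mul_inv_iff_mul_eq, mp_dlt]
    refine ((gdA n k).δ_mul _ _).symm.trans (congrArg _ (Units.ext ?_))
    show ι * c ^ p ^ f = c
    rw [← Nat.sub_add_cancel (show 1 ≤ p ^ f by omega), pow_succ, hc, Units.mul_inv_cancel_left]
  obtain ⟨U⟩ := exists_UB hF n
  have : Finite (CoxeterMatrix.B ((n + 1) / 2)).Group := UB.finiteW
  let φ : SJ hF n →* SLn n k := (MulAut.conj ((fdA n k).δ μ)).toMonoidHom.comp (phi hF n k)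
  have hφ0 : ∀ s, φ s = dlt n μ * mp (algebraMap F k) s.1 * (dlt n μ)⁻¹ := fun _ => rfl
  have hφ : ∀ g : SLn n k, g ∈ φ.range ↔ grA hι (γ0 n) (mp (iterateFrobenius k p f) g) = g := fun g => by
    have h1 := mem_range_phi hF (Fq := iterateFrobenius k p f) (fun _ => rfl) ((dlt n μ)⁻¹ * g * dlt n μ)
    rw [map_mul, map_mul, map_mul, map_mul, map_inv, map_inv, ← mp_th0 _ (dlt n μ), th0_dlt] at h1
    rw [grA_γ0, th1_apply, hμ]
    refine Iff.trans ⟨?_, ?_⟩ (h1.trans ⟨fun h => ?_, fun h => ?_⟩)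
    · rintro ⟨s, rfl⟩
      exact ⟨s, by rw [hφ0, mul_assoc, mul_assoc, inv_mul_cancel, mul_one, inv_mul_cancel_left]; rfl⟩
    · rintro ⟨s, h⟩
      exact ⟨s, (congrArg (fun x => dlt n μ * x * (dlt n μ)⁻¹) h).trans (by group)⟩
    · exact Eq.trans (by group) ((congrArg (fun x => dlt n μ * x * (dlt n μ)⁻¹) h).trans (by group))
    · exact Eq.trans (by group) (congrArg (fun x => (dlt n μ)⁻¹ * x * dlt n μ) h)
  have hinj : Function.Injective φ :=
    (MulAut.conj _).injective.comp ((mp_inj (algebraMap F k)).comp Subtype.val_injective)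
  have hyp := hyp_tr (D := fdA n k) (H356.TU.hyp_sysU U (p := p) hn (D := fdE n k) (fun _ _ => rfl) (H356.TU.U_le_fdE n _)
    (H356.TU.Um_le_fdE n _) le_rfl (fun _ => rfl) (H356.TU.cov_U hF (H356.TU.phi_mX U hn) (H356.TU.phi_mZ U hn))
    (H379.SUD.sg0 (p := p) (U := U) (fun _ => rfl) (fun _ => rfl) (D := fdA n k) (fun _ _ => rfl)
      (H356.TU.map_sysU U hn (fun _ _ => rfl) le_rfl le_rfl le_rfl fun _ => rfl)) (H379.SUD.lam (fun _ => rfl) hF))
    (H356.TU.map_sysU U hn (fun _ _ => rfl) le_rfl le_rfl le_rfl fun _ => rfl) rfl rfl rfl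
    (fun b => ⟨H356.TU.eps k b, fun s => congrArg ((fdA n k).z b) (by rw [← mul_assoc, H356.TU.eps_mul, one_mul])⟩) μ
    (τ_range hι hφ)
  have syl : ¬ p ∣ (sysU U (p := p) hn).U.index := syl_of_rgd U.rgd (H356.TU.rin U (p := p) hn).gen
  have hT := LieClassical.HermPerfect.commutator_SU_eq_top (n := n + 1) hF (by omega) fun h => hs (by omega)
  have hadd : ∀ m, 0 < m → ¬ p ∣ (p ^ f) ^ m + 1 := fun m hm h =>
    hp.out.ne_one (Nat.dvd_one.1 ((Nat.dvd_add_right (dvd_pow (dvd_pow_self p hf.ne') hm.ne')).1 h))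
  suffices h : ∃ M : Std (rdA p n k) (SJ hF n) Unit, M.f = f ∧ M.φ = φ ∧ M.gι M.σ = Fin.revPerm from h.imp fun M h =>
    ⟨ι, hι, h.1, h.2.2, fun s => by rw [h.2.1]; exact (grA_γ0 hι _).symm.trans ((hφ _).1 ⟨s, rfl⟩), ⟨U.psi⟩⟩
  refine std_of hι hf φ hinj hφ hyp (fun W _ _ => H356.TU.wt_sysU U hn) (fun l hl j => ?_) (fun l l' hl hl' h => ?_) ?_ syl ?_
  · have h1 := card_Cs (n := n) hF j
    have h2 := hl ⟨j, by omega⟩
    have h3 := Nat.mul_le_mul_left (p ^ f) (hl ⟨n - 1 - j, by omega⟩)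
    rw [H379.SUD.wt_eq fun _ => rfl]
    rw [Nat.mul_succ, ← pow_two] at h3
    split_ifs at h1 ⊢ <;> omega
  · funext i
    have hi := i.2
    by_cases h1 : (i : ℕ) < (n + 1) / 2
    · have h2 := congrFun h ⟨i, h1⟩
      rw [H379.SUD.wt_eq fun _ => rfl, H379.SUD.wt_eq fun _ => rfl] at h2
      split_ifs at h2
      · exact h2
      · exact (digit (hl _) (hl' _) h2).1
    · have h2 := congrFun h ⟨n - 1 - i, by omega⟩
      rw [H379.SUD.wt_eq fun _ => rfl, H379.SUD.wt_eq fun _ => rfl, if_neg (by simp only; omega),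
        if_neg (by simp only; omega)] at h2
      have h3 := (digit (hl _) (hl' _) h2).2
      simp only [show n - 1 - (n - 1 - i) = i by omega] at h3
      exact h3
  · rw [← pow_mul]
    refine card_of_syl (isPGroup_U _ _) syl (a := p ^ f + 1) (pow_one (p ^ f) ▸ hadd 1 one_pos) (fun h => ?_)
      (by rw [← Nat.card_congr U.psi.toEquiv, S0278.result hF (n + 1) n.succ_pos, pow_mul, card_Pos])
    obtain ⟨i, -, hi⟩ := hp.out.prime.exists_mem_finset_dvd h
    split_ifs at hi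
    · exact hadd _ i.succ_pos hi
    · exact not_dvd_sub hf i.succ_pos hi
  · rw [_root_.commutator_def, ← Subgroup.map_top_of_surjective U.psi.toMonoidHom U.psi.surjective, ← Subgroup.map_commutator,
      ← _root_.commutator_def, hT]

/-! ### dimensions -/

/-- the number of rearrangements -/
def oc (v : Fin (n + 1) → ℤ) : Finset (Fin (n + 1) → ℤ) := univ.image fun π : Equiv.Perm (Fin (n + 1)) => v ∘ π

theorem oc_le {v w : Fin (n + 1) → ℤ} (hv : ∀ i, 0 ≤ tw v i) (h : ∀ i, tw v i = 0 → tw w i = 0) : (oc w).card ≤ (oc v).card := by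
  have h1 : Antitone v := Fin.antitone_iff_succ_le.2 fun i => sub_nonneg.1 (hv i)
  have h2 : ∀ j i, i ≤ j → v i = v j → w i = w j := fun j => by
    induction j using Fin.induction with
    | zero => exact fun i hi _ => by rw [Fin.le_zero_iff.1 hi]
    | succ j ih =>
      intro i hi e
      rcases hi.eq_or_lt with rfl | hi
      · rfl
      · have h3 := Fin.le_castSucc_iff.2 hi
        have h4 : v j.castSucc = v j.succ := le_antisymm (e ▸ h1 h3) (h1 Fin.castSucc_lt_succ.le)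
        exact (ih i h3 (e.trans h4.symm)).trans (sub_eq_zero.1 (h j (sub_eq_zero.2 h4)))
  obtain ⟨g, rfl⟩ : ∃ g : ℤ → ℤ, w = g ∘ v := by
    refine ⟨fun x => if h : ∃ i, v i = x then w h.choose else 0, funext fun i => ?_⟩
    have h3 : ∃ j, v j = v i := ⟨i, rfl⟩
    rw [Function.comp_apply, dif_pos h3]
    exact (le_total i h3.choose).elim (fun h4 => h2 _ _ h4 h3.choose_spec.symm) fun h4 => (h2 _ _ h4 h3.choose_spec).symm
  refine le_trans (le_of_eq (congrArg card ?_)) (card_image_le (s := oc v) (f := fun u => g ∘ u))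
  rw [oc, oc, Finset.image_image]
  rfl

variable {l : Fin n → ℕ} (hl : ∀ i, l i < p) (h0 : l ≠ 0)
include hl h0

theorem d_of : ∃ m : Fin (n + 1) → ℤ, (tw m = fun i => (l i : ℤ)) ∧ ∀ A : Finset (Fin (n + 1) → ℤ), (∀ u ∈ A, Gd m u) →
    A.card ≤ dd (rdA p n k) l := by
  obtain ⟨C⟩ := boxHW p _ _ k _ (rdA p n k)
  refine ⟨m0 (C.H l hl h0), (tw_m0 _).trans (funext fun i => congrArg _ (congrFun (C.lam l hl h0) i)), fun A hA => ?_⟩
  rw [← Finset.card_image_of_injOn (f := tw) fun u hu u' hu' e => tw_inj e ((hA u hu).sum.trans (hA u' hu').sum.symm)]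
  refine (C.H l hl h0).card_le_d _ fun μ hμ => ?_
  obtain ⟨u, hu, rfl⟩ := Finset.mem_image.1 hμ
  exact IsA.isWt_gd isA_RA _ (hA u hu)

/-- the extremal weights -/
theorem d_ge1 (w : Fin (n + 1) → ℤ) (h : ∀ i, l i = 0 → tw w i = 0) : (oc w).card ≤ dd (rdA p n k) l := by
  obtain ⟨m, h1, h2⟩ := d_of (k := k) hl h0
  refine (oc_le (fun i => by rw [h1]; exact Int.natCast_nonneg _) fun i hi => h i (by rw [h1] at hi; exact Int.natCast_eq_zero.1 hi)).trans
    (h2 _ fun u hu => ?_)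
  obtain ⟨π, -, rfl⟩ := Finset.mem_image.1 hu
  exact ⟨π, Or.inl rfl⟩

/-- the extremal weights and their neighbours -/
theorem d_ge2 (w w' : Fin (n + 1) → ℤ) (j : Fin n) (hj : 2 ≤ l j) (h : ∀ i, l i = 0 → tw w i = 0)
    (h' : ∀ i, l i = CA i j → tw w' i = 0) : (oc w).card + (oc w').card ≤ dd (rdA p n k) l := by
  obtain ⟨m, h1, h2⟩ := d_of (k := k) hl h0
  have h3 : m j.succ + 2 ≤ m j.castSucc := by
    have h3 : m j.castSucc - m j.succ = l j := congrFun h1 j
    omega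
  have h4 : ∀ i, tw (m - ev j.castSucc + ev j.succ) i = l i - CA i j := fun i => by
    rw [← tw_simple, ← show tw m i = l i from congrFun h1 i]
    simp only [tw, Pi.add_apply, Pi.sub_apply]
    ring
  refine (Nat.add_le_add (oc_le (v := m) (fun i => by rw [h1]; exact Int.natCast_nonneg _) fun i hi =>
    h i (by rw [h1] at hi; exact Int.natCast_eq_zero.1 hi)) (oc_le (v := m - ev j.castSucc + ev j.succ) (fun i => ?_) fun i hi =>
      h' i (sub_eq_zero.1 ((h4 i).symm.trans hi)))).trans ?_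
  · rw [h4, CA]
    split_ifs with h5
    · rw [Fin.ext h5]; omega
    all_goals omega
  rw [← Finset.card_union_of_disjoint (Finset.disjoint_left.2 fun u hu hu' => ?_)]
  · refine h2 _ fun u hu => ?_
    rcases Finset.mem_union.1 hu with hu | hu <;> obtain ⟨π, -, rfl⟩ := Finset.mem_image.1 hu
    exacts [⟨π, Or.inl rfl⟩, ⟨π, Or.inr ⟨_, _, by omega, rfl⟩⟩]
  · obtain ⟨π, -, rfl⟩ := Finset.mem_image.1 hu
    obtain ⟨π', -, e⟩ := Finset.mem_image.1 hu'
    exact not_perm h3 (π * π'⁻¹) (funext fun x => by simpa using congrFun e (π'⁻¹ x))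

end su

end Cfsg.Agent.N2C.RD.U45
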