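import Cfsg.Agent.N2.Cl.RD.UEig
import Cfsg.Agent.N2.Cl.RD.Aut
import Cfsg.Agent.H762.Ppd.Psu
import Cfsg.Agent.H61.LastEven
import Cfsg.Agent.H911.AdFrame

/-!
# N2 (S3519), defining characteristic, unitary socles: exterior powers (helper64)

* `re_su` : the frame;  `nd_long`, `nd_last` : the rank one groups and their minors;
* **`cr`** : one node, edge of dimension two: an element with `h * dm u ≤ n ^ 2`, `h ∣ n`.
-/

set_option autoImplicit false
set_option linter.unusedSectionVars false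
set_option linter.style.haveILetI false

namespace Cfsg.Agent.N2C.RD.UM

open CoxeterSystem Cfsg.Agent.ChevalleyStructure.CoxeterGeom Cfsg.Agent.Tits.Roots Cfsg.Agent.Tits.Core
  Cfsg.Agent.Nodes.Reps Cfsg.Agent.Nodes.BNOf Cfsg.Agent.Nodes.Bruhat Cfsg.Agent.Nodes.RGDLib
open Cfsg.Agent.Nodes Cfsg.Agent.Nodes.WittRoot Cfsg.Agent.Nodes.WittRGD Cfsg.Agent.Nodes.WittAll Cfsg.Agent.Nodes.WittU
open Cfsg.Agent.Nodes.TypeC (isCartan nx ng)
open Cfsg.Agent.LieClassical.HermBasic Cfsg.Agent.LieClassical.HermSiegel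
open Cfsg.Agent.TitsThree.Siegel Cfsg.Agent.TitsThree.SiegelGen Cfsg.Agent.TitsThree.WittFrame Cfsg.Agent.TitsThree.FrameCN
  Cfsg.Agent.TitsThree.WBridge Cfsg.Agent.TitsThree.KSideU Cfsg.Agent.TitsThree.KSideUDesc Cfsg.Agent.TitsThree
open Cfsg.Agent.H915.LD Cfsg.Agent.H911 Cfsg.Agent.H905.Md Cfsg.Agent.H925.Nat Cfsg.Agent.Nodes.RGDLift
open Cfsg.Agent.H156.Ppd (Cov lrep)
open Cfsg.Agent.Omega.CR Cfsg.Agent.Omega.FOne.Lift.Sd
open Cfsg.Agent.H948.Ppd (TB XB NB JB dB irr_B rgdB finite_GL exists_nd)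
open Cfsg.Agent.H61.SUCross
open Cfsg.Agent.H762.Ppd (exists_ndI)
open Cfsg.Agent.H62.FrameSL (phiS phiS_e phiS_apply linS_apply)
open Cfsg.Agent.H911.SLTwo (U Lo hh)
open Cfsg.Agent.Phan (fixedField)
open Cfsg.Agent.H61.LastEven (P2 R2 rel_up rel_lo adm_w adm_c exists_equiv)
open Cfsg Cfsg.Geo
open scoped MatrixGroups Matrix

theorem det_of {K : Type*} [Field K] {V : Type*} [AddCommGroup V] [Module K V] {H : HForm K V} {n : ℕ}
    {Fr : Frame H (Fin n)} {o : Fin n} {g : V ≃ₗ[K] V} {a t : K} {x : Fin n × Bool}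
    (h1 : ∀ i, i < o → g (Fr.b (i, true)) = Fr.b (i, true)) (h2 : g (Fr.b (o, true)) = a • Fr.b (o, true) + t • Fr.b x)
    (hx : ∀ i ≤ o, x ≠ (i, true)) : (Mx Fr o g).det = a := by
  have h3 : Mx Fr o g = Matrix.diagonal fun i => if i = ⟨o, le_rfl⟩ then a else 1 := by
    ext i j
    rw [Mx_apply, Matrix.diagonal_apply]
    rcases i.2.eq_or_lt with e | e
    · obtain rfl : i = ⟨o, le_rfl⟩ := Subtype.ext e
      rw [h2, H.add_left, H.smul_left, H.smul_left, h_bf x, if_neg (hx _ j.2), mul_zero, add_zero, if_pos rfl]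
      refine (congrArg (a * ·) (h_ef ⟨o, le_rfl⟩ j)).trans ?_
      rw [mul_ite, mul_one, mul_zero]
    · rw [h1 _ e, h_ef, if_neg (show i ≠ ⟨o, le_rfl⟩ from fun h => e.ne (congrArg Subtype.val h))]
  rw [h3, Matrix.det_diagonal, Finset.prod_ite_eq', if_pos (Finset.mem_univ _)]

theorem ord_neg_eq {r : ℕ} [Fact r.Prime] {x : ZMod r} {h : ℕ} (hh : h.Prime) (h2 : h ≠ 2) (ho : orderOf x = 2 * h) :
    orderOf (-x) = h := by
  have := Fact.mk hh
  have h3 := hh.two_le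
  have h1 : x ^ h = -1 := (sq_eq_one_iff.1 (by rw [← pow_mul, mul_comm, ← ho, pow_orderOf_eq_one])).resolve_left
    (pow_ne_one_of_lt_orderOf hh.ne_zero (by omega))
  refine orderOf_eq_prime (by rw [(hh.odd_of_ne_two h2).neg_pow, h1, _root_.neg_neg]) fun e => ?_
  exact pow_ne_one_of_lt_orderOf (x := x) two_ne_zero (by omega) (by rw [← neg_sq, e, one_pow])

variable {K : Type} [Field K] [Fintype K] {q N r : ℕ} {hK : Fintype.card K = q ^ 2} {hN : 3 ≤ N} {W : WFrame (PU hK N) r}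
  {F : Type} [Field F] [Fintype F] {n : ℕ} {P : Subgroup (GL (Fin n) F)}
  {p : ℕ} [hp : Fact p.Prime] [hFp : CharP F p] [hKp : CharP K p]
  {hA : AmbT (toFrame W) p (modelSU hK hN W).I} {p0 : (toFrame W).Adm} (hp0 : p0.c ≠ 0)
  {φ : (modelSU hK hN W).I →* GL (Fin n) F}
  (C : Cov (CoxeterMatrix.B r).toCoxeterSystem (isCartan r) p (TB (modelSU hK hN W)) (NB hA p0)
        (XB (modelSU hK hN W)) P (MonoidHom.id (modelSU hK hN W).I) φ (NB hA p0))
include hp0 C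

theorem re_su : Re (toFrame W) ((TB (modelSU hK hN W)).comap (MonoidHom.id (modelSU hK hN W).I)) (NB hA p0)
    (fun x => RGDLift.lft p (MonoidHom.id (modelSU hK hN W).I) (XB (modelSU hK hN W) x)) (modelSU hK hN W).I.subtype where
  iso y := hA.iso _ y.2
  tor _ ht := ht.2
  mono i := mono_nn hp0 i
  root x y hy := map_lft_le p _ (XB (modelSU hK hN W) x) ⟨y, hy, rfl⟩
  sup i := by
    have := finite_GL (K := K) (ν := Fin N)
    have hWf : Finite (CoxeterMatrix.B r).Group := TypeC.finite_W (CoxeterMatrix.B r).toCoxeterSystem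
    have R := rgdB hA hp0 (CoxeterMatrix.B r).toCoxeterSystem (M := modelSU hK hN W)
    have h1 := map_lft C.ker C.cop C.surj (R.pgrp i)
    have h2 := map_lft C.ker C.cop C.surj (R.pgrp' (isRoot_sr _ _ i).neg)
    rw [Subgroup.map_id] at h1 h2
    rw [h1, h2, ← Subgroup.subgroupOf_sup (hA.rg_le _) (hA.rg_le _)]
    exact nn_mem_sup p0 i

theorem nd_long {i : Fin r} (hi : (i : ℕ) + 1 < r) : ∃ σ : SL(2, K) →* (modelSU hK hN W).I,
    H650.Ppd.Nd ((TB (modelSU hK hN W)).comap (MonoidHom.id (modelSU hK hN W).I))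
      (fun x => RGDLift.lft p (MonoidHom.id (modelSU hK hN W).I) (XB (modelSU hK hN W) x)) i σ ∧
    ∀ A, (Mx (toFrame W) i ((modelSU hK hN W).I.subtype (σ A))).det = RingHom.id K (A.1 0 0) := by
  have hij : i ≠ ⟨i + 1, hi⟩ := fun e => by
    have := congrArg Fin.val e
    simp only at this
    omega
  obtain ⟨σ, hσ, N₁, -⟩ := exists_ndI hp0 C hi hij
  refine ⟨σ, N₁, fun A => ?_⟩
  rw [Subgroup.coe_subtype, hσ]
  refine det_of (fun m hm => ?_) (phiS_e _ hij A) fun m hm e => ?_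
  · have h1 : m ≠ ⟨i + 1, hi⟩ := fun e => by
      have h2 := congrArg Fin.val e
      have h3 : (m : ℕ) < i := hm
      simp only at h2
      omega
    rw [phiS_apply, linS_apply]
    simp only [H62.FrameSL.hn _ hm.ne, H62.FrameSL.hn _ h1, mul_zero, add_zero, sub_zero, zero_smul]
  · have h2 := congrArg (fun x : Fin r × Bool => (x.1 : ℕ)) e
    have h3 : (m : ℕ) ≤ i := hm
    simp only at h2
    omega

theorem nd_last (hV0 : W.V0 = ⊥) {i : Fin r} (hi : ¬ (i : ℕ) + 1 < r) : ∃ σ : SL(2, fixedField hK) →* (modelSU hK hN W).I,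
    H650.Ppd.Nd ((TB (modelSU hK hN W)).comap (MonoidHom.id (modelSU hK hN W).I))
      (fun x => RGDLift.lft p (MonoidHom.id (modelSU hK hN W).I) (XB (modelSU hK hN W) x)) i σ ∧
    ∀ A, (Mx (toFrame W) i ((modelSU hK hN W).I.subtype (σ A))).det = (fixedField hK).subtype (A.1 0 0) := by
  have := finite_GL (K := K) (ν := Fin N)
  have hWf : Finite (CoxeterMatrix.B r).Group := TypeC.finite_W (CoxeterMatrix.B r).toCoxeterSystem
  obtain ⟨δ, hδ, hδ0⟩ := exists_delta hK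
  have h4 : nx i = (i, true) := dif_neg hi
  have r1 : rg (toFrame W) (sr i) = ZG (toFrame W) (i, true) := by rw [rg_sr, h4, PG_self]
  have r2 : rg (toFrame W) (-sr i) = ZG (toFrame W) (i, false) := by
    rw [rg_neg_sr, h4]
    exact PG_self _ _
  obtain ⟨e, he⟩ := exists_equiv (i := i) hV0 hδ hδ0
  let f : SL(2, fixedField hK) →* ((Fin N → K) ≃ₗ[K] (Fin N → K)) := (P2 W i).subtype.comp e.symm.toMonoidHom
  have hfR : ∀ A, R2 W i δ (f A) A := fun A => by
    have h1 := he (e.symm A)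
    rwa [e.apply_symm_apply] at h1
  have hfe : ∀ {g}, g ∈ P2 W i → ∀ {A}, R2 W i δ g A → f A = g := by
    intro g hg A hA
    have h1 : e ⟨g, hg⟩ = A := (he ⟨g, hg⟩).unique (H61.LastEven.indep hδ0) hA
    rw [← h1]
    exact congrArg Subtype.val (e.symm_apply_apply _)
  have h2 : ∀ A, f A ((toFrame W).b (i, true)) = (A 0 0 : K) • (toFrame W).b (i, true) +
      (δ⁻¹ * (A 1 0 : K)) • (toFrame W).b (i, false) := fun A => by
    have h3 := (hfR A).fst
    rw [map_smul] at h3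
    have h5 : f A (W.e i) = δ⁻¹ • ((A 0 0 : K) • δ • W.e i + (A 1 0 : K) • W.f i) := by
      rw [← h3, inv_smul_smul₀ hδ0]
    change f A (W.e i) = (A 0 0 : K) • W.e i + (δ⁻¹ * (A 1 0 : K)) • W.f i
    rw [h5, smul_add, smul_comm δ⁻¹ (A 0 0 : K), inv_smul_smul₀ hδ0, smul_smul]
  have h3 : ∀ A m s, m ≠ i → f A ((toFrame W).b (m, s)) = (toFrame W).b (m, s) := fun A m s hm =>
    (hfR A).fix _ ⟨H62.FrameSL.hn (toFrame W) hm s true, H62.FrameSL.hn (toFrame W) hm s false⟩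
  obtain ⟨σ, hσ, N'⟩ := exists_nd hA.rg_le (i := i) f (fun y => by
    rw [r1]
    constructor
    · rintro ⟨a, rfl⟩
      have hk : (a.c * δ⁻¹) ^ q = a.c * δ⁻¹ := by
        rw [mul_pow, inv_pow, hδ, adm_c hV0 a]
        field_simp
      exact ⟨⟨a.c * δ⁻¹, hk⟩, hfe ((le_sup_left : ZG (toFrame W) (i, true) ≤ P2 W i) ⟨a, rfl⟩)
        (rel_up (adm_w hV0 a) (inv_mul_cancel_right₀ hδ0 _).symm)⟩
    · rintro ⟨t, rfl⟩
      have ht : (t : K) ^ q = t := t.2
      let a : (toFrame W).Adm := ⟨0, t * δ, W.V0.zero_mem, by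
        rw [ok_iff, herm_zero_left, mul_pow, hδ, ht]; ring⟩
      exact ⟨a, hfe ((le_sup_left : ZG (toFrame W) (i, true) ≤ P2 W i) ⟨a, rfl⟩) (rel_up rfl rfl)⟩) (fun y => by
    rw [r2]
    constructor
    · rintro ⟨a, rfl⟩
      have hk : (δ * a.c) ^ q = δ * a.c := by
        rw [mul_pow, hδ, adm_c hV0 a]
        ring
      exact ⟨⟨δ * a.c, hk⟩, hfe ((le_sup_right : ZG (toFrame W) (i, false) ≤ P2 W i) ⟨a, rfl⟩) (rel_lo (adm_w hV0 a) rfl)⟩
    · rintro ⟨t, rfl⟩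
      have ht : (t : K) ^ q = t := t.2
      let a : (toFrame W).Adm := ⟨0, δ⁻¹ * t, W.V0.zero_mem, by
        rw [ok_iff, herm_zero_left, mul_pow, inv_pow, hδ, ht, inv_neg]; ring⟩
      exact ⟨a, hfe ((le_sup_right : ZG (toFrame W) (i, false) ≤ P2 W i) ⟨a, rfl⟩)
        (rel_lo rfl (mul_inv_cancel_left₀ hδ0 _))⟩) (fun s => by
    rintro ⟨m, b⟩
    by_cases hm : m = i
    · subst hm
      cases b
      · have h5 := (hfR (hh s)).snd
        rw [show (hh s) 0 1 = 0 from rfl, ZeroMemClass.coe_zero, zero_smul, zero_add] at h5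
        exact ⟨_, fun h0 => (s⁻¹).ne_zero (Subtype.ext h0), h5⟩
      · have h5 := h2 (hh s)
        rw [show (hh s) 1 0 = 0 from rfl, ZeroMemClass.coe_zero, mul_zero, zero_smul, add_zero] at h5
        exact ⟨_, fun h0 => s.ne_zero (Subtype.ext h0), h5⟩
    · exact ⟨1, one_ne_zero, by rw [one_smul]; exact h3 _ m b hm⟩)
  have N₁ := N'.lift C.ker C.cop (rgdB hA hp0 (CoxeterMatrix.B r).toCoxeterSystem) (σ := σ) (fun _ => rfl)
  refine ⟨σ, ⟨N₁.up, N₁.lo, N₁.tor⟩, fun A => ?_⟩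
  rw [Subgroup.coe_subtype, hσ]
  exact det_of (fun m hm => h3 A m true hm.ne) (h2 A) fun m _ e => absurd (congrArg Prod.snd e) (by simp)

/-- **exterior powers** -/
theorem cr (hC : Core P) (hT : ∀ s ∈ (TB (modelSU hK hN W)).comap (MonoidHom.id (modelSU hK hN W).I),
      ∀ t ∈ (TB (modelSU hK hN W)).comap (MonoidHom.id (modelSU hK hN W).I), s * t = t * s) {o : Fin r}
    (ho : o ∉ JB (modelSU hK hN W) p (MonoidHom.id (modelSU hK hN W).I) φ)
    (hJ : ∀ i, i ∉ JB (modelSU hK hN W) p (MonoidHom.id (modelSU hK hN W).I) φ → i = o)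
    (hd : dB (modelSU hK hN W) p (MonoidHom.id (modelSU hK hN W).I) φ o = 2)
    {E : Type} [Field E] [Fintype E] [CharP E p] {σ : SL(2, E) →* (modelSU hK hN W).I}
    (N₁ : H650.Ppd.Nd ((TB (modelSU hK hN W)).comap (MonoidHom.id (modelSU hK hN W).I))
      (fun x => RGDLift.lft p (MonoidHom.id (modelSU hK hN W).I) (XB (modelSU hK hN W) x)) o σ) (ι : E →+* K)
    (hΔ : ∀ A, (Mx (toFrame W) o ((modelSU hK hN W).I.subtype (σ A))).det = ι (A.1 0 0))
    {f : ℕ} (hf : 1 ≤ f) (hq : q = p ^ f) (hcj : Cj P (p ^ f)) (D : Nd (.U N) p f (Soc P)) {h : ℕ}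
    (hc : (h = 5 ∧ N = 6 ∧ ((o : ℕ) = 1 ∨ (o : ℕ) = 2)) ∨ (h = 7 ∧ N = 7 ∧ (o : ℕ) = 1)) :
    h ∣ n ∧ ∃ u : P, h * dm (u : GL (Fin n) F) ≤ n ^ 2 := by
  have := finite_GL (K := K) (ν := Fin N)
  have hWf : Finite (CoxeterMatrix.B r).Group := TypeC.finite_W (CoxeterMatrix.B r).toCoxeterSystem
  have hne := hC.nonempty
  have hchar : CharP (AlgebraicClosure F) p := charP_of_injective_algebraMap (algebraMap F _).injective p
  obtain ⟨hirr, hD⟩ := irr_B hC C hT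
  obtain ⟨j₀⟩ := H875.Psl2.exists_emb F K p
  obtain ⟨c, hc1, hc0, χ, hχ⟩ := exists_chi C.rgd hirr hT
  obtain ⟨ψ, hψ, h1⟩ := H911.Ad.exists_phi C.rgd hirr hc1 hc0
  obtain ⟨a, Φ, hM, ha⟩ := H650.Ppd.exists_edge_model C.rgd hirr hD N₁ ho (j₀.comp ι) hc1 hc0 hχ
  obtain ⟨t, rfl⟩ := H875.Psl2.eq_pow_of_card_two p ((hM.finrank p).symm.trans hd)
  have hco := (re_su hp0 C).coef C.rgd hirr hT C.gen (o := o)
    (fun i => ⟨fun hi e => ho (e ▸ hi), fun hi => by_contra fun e => hi (hJ i e)⟩) N₁ ι hΔ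
    ((iterateFrobenius (AlgebraicClosure F) p t).comp j₀) one_ne_zero hc1 hχ (fun s => by rw [ha, pow_one]; rfl) hψ h1
  simp only [pow_one] at hco
  have hh : h.Prime ∧ h ≠ 2 ∧ PdX (.U N) (2 * h) ∧ 5 ≤ h := by
    rcases hc with ⟨rfl, rfl, -⟩ | ⟨rfl, rfl, -⟩
    · exact ⟨by decide, by decide, ⟨by decide, by decide, by decide⟩, by decide⟩
    · exact ⟨by decide, by decide, ⟨by decide, by decide, by decide⟩, by decide⟩
  have h10 : 1 * (2 * h) ≤ f * (2 * h) := Nat.mul_le_mul_right _ hf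
  obtain ⟨l, hl, ho1, -, h5, hlp, hdv, -⟩ := D.ppd hh.2.2.1 (by omega) (by omega)
  have := Fact.mk hl
  have ho2 : orderOf (-(q : ZMod l)) = h := by
    refine ord_neg_eq hh.1 hh.2.1 ?_
    rw [hq, ord_pow ho1 (by omega), Nat.gcd_eq_right (Dvd.intro _ rfl), Nat.mul_div_cancel_left _ hf]
  obtain ⟨y, hy⟩ := exists_prime_orderOf_dvd_card' (G := (modelSU hK hN W).I) l
    ((hdv.trans (Subgroup.card_dvd_of_surjective _ (toSoc_surjective P))).trans (by
      rw [← C.range]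
      exact Subgroup.card_dvd_of_surjective _ φ.rangeRestrict_surjective))
  have hy1 : y ^ l = 1 := hy ▸ pow_orderOf_eq_one y
  have hcop : l.Coprime p := (Nat.coprime_primes hl hp.out).2 hlp
  have h0 : ev (φ y) 1 = 0 := by
    rw [ev_ac_one]
    refine no_fix (r := l) _ (fun L hL => hirr L (by rw [C.hGG]; exact hL)) h1 hco
      (iterateFrobenius (AlgebraicClosure F) p f) (s := q) (fun x => by rw [hq]; rfl) (fun _ _ => rfl)
      (Nat.card_eq_fintype_card.trans hK) (hA.iso _ y.2)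
      (fun e => hlp ((Nat.prime_dvd_prime_iff_eq hp.out hl).1 ((CharP.cast_eq_zero_iff _ p l).1 e)).symm) (by omega)
      (by rw [← map_pow, hy1, map_one]) (fun e => hl.ne_one (by rw [← hy, orderOf_eq_one_iff]; exact Subtype.ext e)) ho2
      (by rw [Fintype.card_fin]; exact hc)
  have : NeZero l := ⟨hl.ne_zero⟩
  obtain ⟨μ, hμ⟩ := exists_muD hC hp.out (u := ⟨φ y, by rw [← C.range]; exact ⟨y, rfl⟩⟩) hcop
    (Subtype.ext (by rw [Subgroup.coe_pow, ← map_pow, hy1, map_one, Subgroup.coe_one]))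
  have hx : -(q : ZMod l) ≠ 0 := fun e => by
    rw [e, orderOf_zero] at ho2
    omega
  have h6 := hμ.free (Γ := Subgroup.zpowers (Units.mk0 _ hx)) (Subgroup.zpowers_le.2 fun i => by
    rw [Units.val_mk0, neg_mul, hq]
    exact hμ.cj f hcj i) fun g _ i hi _ e => Units.ext (mul_right_cancel₀ hi (e.trans (one_mul i).symm))
  rw [Nat.card_zpowers, ← orderOf_units, Units.val_mk0, ho2, h0, Nat.sub_zero] at h6
  rw [zero_pow two_ne_zero, mul_zero, zero_add] at h6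
  exact ⟨h6.2, _, h6.1⟩

end Cfsg.Agent.N2C.RD.UM
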