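import Cfsg.Agent.N2.Cl.RD.Crit
import Cfsg.Agent.H762.Ppd.Arith

/-!
# N2 (S3519), defining characteristic, unitary socles: the numerical criterion (helper64)

`|K| ^ j = s ^ 2`, socle `U_m(s)`, `D` the dimension of a commutant.

* `Ok n m j D`, **`crit`** : the criterion;  `Bg r j n`, `ok_of_bg` : large degrees;  `bg_first`, `bg_mid`, `bg_last`.
-/

set_option autoImplicit false
set_option linter.unusedSectionVars false

namespace Cfsg.Agent.N2C.RD.UM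

open Cfsg Cfsg.Geo Cfsg.Agent.H902 Cfsg.Agent.N2C.Cyc Cfsg.Agent.N2C.RX Cfsg.Agent.H915.LD

/-- the criterion -/
def Ok (n m j D : ℕ) : Prop :=
  (j = 1 → 15 * D + 9 * n + 5 * (j * m ^ 2) + 15 ≤ 5 * n ^ 2) ∧ (j ≠ 1 → 3 * D + 4 * n + j * m ^ 2 + 4 ≤ n ^ 2)

theorem Ok.mono {n m j D D' : ℕ} (h : Ok n m j D) (h' : D' ≤ D) : Ok n m j D' :=
  ⟨fun e => by have := h.1 e; omega, fun e => by have := h.2 e; omega⟩

theorem low2 {t : Kd} {n T : ℕ} (hb : bil t) (hd : dimOk t n 2) (ho : oD t n 2 * T = oI t n 2) :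
    2 ^ (n * (n - 1)) ≤ 4 * T ^ 2 := by
  have key : ∀ a b : ℕ, b ≤ 2 * a → 2 ^ a ≤ 2 * T → 2 ^ b ≤ 4 * T ^ 2 := fun a b h1 h2 =>
    calc 2 ^ b ≤ (2 ^ a) ^ 2 := by rw [← pow_mul]; exact Nat.pow_le_pow_right two_pos (by omega)
      _ ≤ (2 * T) ^ 2 := Nat.pow_le_pow_left h2 2
      _ = _ := by ring
  have g4 : ∀ x, x % 2 = 1 → Nat.gcd 4 x = 1 := fun x hx =>
    Nat.Coprime.pow_left 2 ((Nat.coprime_two_left).2 (Nat.odd_iff.2 hx))
  cases t with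
  | L => exact hb.elim
  | U => exact hb.elim
  | S =>
    obtain ⟨k, rfl⟩ : ∃ k, n = 2 * k := ⟨n / 2, by have := hd.2; omega⟩
    have h1 := oSp_ge' le_rfl k
    have h2 : 1 * T = oSp (2 * k / 2) 2 := ho
    rw [Nat.mul_div_cancel_left _ two_pos] at h2
    refine key (2 * k ^ 2 + k) _ ((Nat.mul_le_mul_left _ (Nat.sub_le _ _)).trans (by nlinarith)) (by omega)
  | O => exact absurd hd.2.2 (by decide)
  | P =>
    obtain ⟨k, rfl⟩ : ∃ k, n = 2 * (k + 1) := ⟨n / 2 - 1, by have := hd.1; have := hd.2; omega⟩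
    have h1 := oP_ge le_rfl (m := k) (by have := hd.1; omega)
    have h2 : Nat.gcd 4 (2 ^ (2 * (k + 1) / 2) - 1) * T = oP (2 * (k + 1) / 2) 2 := ho
    have h3 : 0 < 2 ^ k := by positivity
    rw [Nat.mul_div_cancel_left _ two_pos, g4 _ (by rw [pow_succ]; omega)] at h2
    exact key (2 * k ^ 2 + 3 * k + 1) _ (by rw [show 2 * (k + 1) - 1 = 2 * k + 1 by omega]; nlinarith) (by omega)
  | M =>
    obtain ⟨k, rfl⟩ : ∃ k, n = 2 * (k + 1) := ⟨n / 2 - 1, by have := hd.1; have := hd.2; omega⟩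
    have h1 := oM_ge le_rfl k
    have h2 : Nat.gcd 4 (2 ^ (2 * (k + 1) / 2) + 1) * T = oM (2 * (k + 1) / 2) 2 := ho
    rw [Nat.mul_div_cancel_left _ two_pos, g4 _ (by rw [pow_succ]; omega)] at h2
    exact key (2 * k ^ 2 + 3 * k + 1) _ (by rw [show 2 * (k + 1) - 1 = 2 * k + 1 by omega]; nlinarith) (by omega)

theorem succ_pow_five {q : ℕ} (hq : 2 ≤ q) : (q + 1) ^ 5 ≤ q ^ 8 := by
  have h1 : (2 * (q + 1)) ^ 5 ≤ (3 * q) ^ 5 := Nat.pow_le_pow_left (by omega) 5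
  have h2 : 2 ^ 3 ≤ q ^ 3 := Nat.pow_le_pow_left hq 3
  have h3 : 2 ^ 3 * q ^ 5 ≤ q ^ 3 * q ^ 5 := Nat.mul_le_mul_right _ h2
  rw [mul_pow, mul_pow] at h1
  have h4 : q ^ 3 * q ^ 5 = q ^ 8 := by ring
  omega

variable {t : Kd} {n q p T b : ℕ} {K : Type} [Field K] [Fintype K] {P : Subgroup (GL (Fin n) K)} {G : Prop} {c f : P → ℕ}

theorem crit_U (M : Md .U q p T b P G c f) {e : ℕ} (hb : b ≤ q ^ e) (u : P)
    (h : 15 * dm (u : GL (Fin n) K) + 9 * n + 5 * e + 15 ≤ 5 * n ^ 2) : G := by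
  have hq := M.q_ge
  have h5 : 5 ≤ n := M.dim
  have hg : Nat.gcd n (q + 1) ≤ q + 1 := Nat.gcd_le_right _ (by omega)
  have h1 : c u * (q + 1) * q ^ n ≤ Nat.gcd n (q + 1) * 1 * q ^ dm (u : GL (Fin n) K) * (q + 1) ^ n := M.ss u (Or.inl rfl)
  have h2 : c u * q ^ n ≤ q ^ dm (u : GL (Fin n) K) * (q + 1) ^ n := by
    refine Nat.le_of_mul_le_mul_left ?_ (show 0 < q + 1 by omega)
    calc _ = c u * (q + 1) * q ^ n := by ring
      _ ≤ (q + 1) * 1 * q ^ dm (u : GL (Fin n) K) * (q + 1) ^ n := h1.trans (by gcongr)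
      _ = _ := by ring
  have h3 : c u ^ 5 ≤ q ^ (5 * dm (u : GL (Fin n) K) + 3 * n) := by
    refine Nat.le_of_mul_le_mul_right ?_ (show 0 < (q ^ n) ^ 5 by positivity)
    calc _ = (c u * q ^ n) ^ 5 := by ring
      _ ≤ (q ^ dm (u : GL (Fin n) K) * (q + 1) ^ n) ^ 5 := Nat.pow_le_pow_left h2 5
      _ = q ^ (5 * dm (u : GL (Fin n) K)) * ((q + 1) ^ 5) ^ n := by
        rw [mul_pow, ← pow_mul, ← pow_mul, ← pow_mul, mul_comm 5, mul_comm 5]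
      _ ≤ q ^ (5 * dm (u : GL (Fin n) K)) * (q ^ 8) ^ n := Nat.mul_le_mul_left _ (Nat.pow_le_pow_left (succ_pow_five hq) n)
      _ = _ := by ring
  have h4 : q ^ (n ^ 2 - 3) ≤ T := by
    have h6 := oGU_ge hq (show 2 ≤ n by omega)
    have h7 : Nat.gcd n (q + 1) * (q + 1) * T = oGU n q := M.ord
    have h8 : q + 1 ≤ q ^ 2 - 1 := by
      have : q * 2 ≤ q * q := Nat.mul_le_mul_left q hq
      rw [sq]; omega
    refine Nat.le_of_mul_le_mul_left ?_ (show 0 < (q + 1) * (q + 1) by positivity)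
    calc _ ≤ (q + 1) * (q ^ 2 - 1) * q ^ (n ^ 2 - 3) := by gcongr
      _ ≤ Nat.gcd n (q + 1) * (q + 1) * T := h7 ▸ h6
      _ ≤ _ := by gcongr
  refine M.good u ((Nat.pow_le_pow_iff_left (show 5 ≠ 0 by decide)).1 ?_)
  calc (f u ^ 3 * b) ^ 5 = (f u ^ 5) ^ 3 * b ^ 5 := by ring
    _ ≤ (q ^ (5 * dm (u : GL (Fin n) K) + 3 * n)) ^ 3 * (q ^ e) ^ 5 := by
      have h6 := (Nat.pow_le_pow_left (M.fc u) 5).trans h3
      gcongr
    _ = q ^ (15 * dm (u : GL (Fin n) K) + 9 * n + 5 * e) := by ring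
    _ ≤ (q ^ (n ^ 2 - 3)) ^ 5 := by rw [← pow_mul]; exact Nat.pow_le_pow_right (by omega) (by omega)
    _ ≤ T ^ 5 := Nat.pow_le_pow_left h4 5

theorem crit_B (M : Md0 t q p T b P G c f) (ht : bil t) {e : ℕ} (hb : b ^ 2 ≤ q ^ e) (u : P)
    (h : 3 * dm (u : GL (Fin n) K) + 4 * n + e + 4 ≤ n ^ 2) : G := by
  have hq := M.q_ge
  have h1 : n * (n - 1) + n = n ^ 2 := by
    obtain ⟨m, rfl⟩ : ∃ m, n = m + 1 := ⟨n - 1, by have := five_le M.dim; omega⟩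
    rw [Nat.add_sub_cancel]
    ring
  have h2 : ec t n (dm (u : GL (Fin n) K)) = dm (u : GL (Fin n) K) + n ∧ Gn.mm t n = n * (n - 1) := by
    cases t
    exacts [ht.elim, ht.elim, ⟨rfl, rfl⟩, ⟨rfl, rfl⟩, ⟨rfl, rfl⟩, ⟨rfl, rfl⟩]
  obtain ⟨C, h3, h4, h5⟩ : ∃ C, 0 < C ∧ C ≤ q ^ 4 ∧ q ^ (n * (n - 1)) ≤ C * T ^ 2 := by
    rcases hq.eq_or_lt with rfl | h3
    · exact ⟨4, by decide, by decide, low2 ht M.dim M.ord⟩
    · exact ⟨64, by decide, le_trans (by decide) (Nat.pow_le_pow_left h3 4), h2.2 ▸ Gn.low hq M.dim M.ord⟩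
  refine M.good u ((Nat.pow_le_pow_iff_left two_ne_zero).1 (Nat.le_of_mul_le_mul_left ?_ h3))
  calc C * (f u ^ 3 * b) ^ 2 = C * b ^ 2 * (f u ^ 2) ^ 3 := by ring
    _ ≤ q ^ 4 * q ^ e * (q ^ (dm (u : GL (Fin n) K) + n)) ^ 3 := by
      have h6 := (Nat.pow_le_pow_left (M.fc u) 2).trans (h2.1 ▸ M.ct_sq u)
      gcongr
    _ = q ^ (3 * dm (u : GL (Fin n) K) + 3 * n + e + 4) := by ring
    _ ≤ _ := (Nat.pow_le_pow_right (by omega) (by omega)).trans h5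

/-- **the criterion** -/
theorem crit (M : Md t q p T b P G c f) {m a j : ℕ} (N : Nd (.U m) p a (Soc P)) (hm : 3 ≤ m)
    (hj : Fintype.card K ^ j = (p ^ a) ^ 2) (hb : bil t → j ≠ 1) (u : P) (h : Ok n m j (dm (u : GL (Fin n) K))) : G := by
  have hq := M.q_ge
  have h5 := five_le M.dim
  have h9 : 3 ^ 2 ≤ m ^ 2 := Nat.pow_le_pow_left hm 2
  have h1 : b ≤ (p ^ a) ^ m ^ 2 := by
    refine (M.b_le N).trans ?_
    show 2 * a * (p ^ a) ^ (m ^ 2 - 1) ≤ _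
    calc _ ≤ p ^ a * (p ^ a) ^ (m ^ 2 - 1) := Nat.mul_le_mul_right _ (two_mul_le M.prime.two_le a)
      _ = _ := by rw [← pow_succ', Nat.sub_add_cancel (by omega)]
  have h2 : b ^ 2 ≤ kq t q ^ (j * m ^ 2) := by
    rw [← M.card, pow_mul, hj, ← pow_mul, mul_comm 2, pow_mul]
    exact Nat.pow_le_pow_left h1 2
  have h3 : 15 * dm (u : GL (Fin n) K) + 9 * n + 5 * (j * m ^ 2) + 15 ≤ 5 * n ^ 2 := by
    by_cases e : j = 1
    · exact h.1 e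
    · have := h.2 e
      omega
  have hB : bil t → kq t q = q → G := fun ht e => crit_B M.toMd0 ht (e ▸ h2) u (h.2 (hb ht))
  cases t
  · refine M.ct_B u le_rfl le_rfl ?_
    calc 64 * b ^ 2 * q ^ (3 * (2 * dm (u : GL (Fin n) K))) ≤
          q ^ 6 * q ^ (j * m ^ 2) * q ^ (3 * (2 * dm (u : GL (Fin n) K))) :=
          Nat.mul_le_mul_right _ (Nat.mul_le_mul (Nat.pow_le_pow_left hq 6) h2)
      _ = q ^ (6 + j * m ^ 2 + 6 * dm (u : GL (Fin n) K)) := by ring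
      _ ≤ q ^ (2 * n ^ 2 - 6) := Nat.pow_le_pow_right (by omega) (by omega)
  · refine crit_U M (e := j * m ^ 2) ((Nat.pow_le_pow_iff_left two_ne_zero).1 ?_) u h3
    rw [← pow_mul, mul_comm _ 2, pow_mul]
    exact h2
  all_goals exact hB trivial rfl

/-! ### large degrees -/

/-- the degree is large -/
def Bg (r j n : ℕ) : Prop := (j = 1 → 6 * r ≤ n ∧ (r = 3 → 19 ≤ n)) ∧ (j = 2 → 10 * r ≤ n) ∧ (3 ≤ j → 4 * (r * j) ≤ n)

variable {r j m D : ℕ}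

theorem ok_of_bg (hr : 3 ≤ r) (hm : m ≤ 2 * r + 1) (hj : 1 ≤ j) (hD : D ≤ n ^ 2 / 4 + 1) (h : Bg r j n) : Ok n m j D := by
  have h1 : m ^ 2 ≤ (2 * r + 1) ^ 2 := Nat.pow_le_pow_left hm 2
  have h2 : 4 * D ≤ n ^ 2 + 4 := by omega
  refine ⟨fun e => ?_, fun e => ?_⟩
  · subst e
    obtain ⟨h3, h4⟩ := h.1 rfl
    have h5 : 36 * n + 20 * (2 * r + 1) ^ 2 + 120 ≤ 5 * n ^ 2 := by
      rcases hr.eq_or_lt with rfl | h5
      · obtain ⟨x, rfl⟩ := Nat.exists_eq_add_of_le (h4 rfl)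
        nlinarith
      · obtain ⟨x, rfl⟩ := Nat.exists_eq_add_of_le h3
        obtain ⟨y, rfl⟩ := Nat.exists_eq_add_of_le (show 4 ≤ r from h5)
        nlinarith
    omega
  · have h5 : 16 * n + 4 * (j * (2 * r + 1) ^ 2) + 28 ≤ n ^ 2 := by
      rcases (show 2 ≤ j by omega).eq_or_lt with rfl | h5
      · obtain ⟨x, rfl⟩ := Nat.exists_eq_add_of_le (h.2.1 rfl)
        obtain ⟨y, rfl⟩ := Nat.exists_eq_add_of_le hr
        nlinarith
      · obtain ⟨x, rfl⟩ := Nat.exists_eq_add_of_le (h.2.2 h5)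
        obtain ⟨y, rfl⟩ := Nat.exists_eq_add_of_le hr
        obtain ⟨z, rfl⟩ := Nat.exists_eq_add_of_le (show 3 ≤ j from h5)
        have e1 : (4 * ((3 + y) * (3 + z)) + x) ^ 2 = 16 * (4 * ((3 + y) * (3 + z)) + x) +
            4 * ((3 + z) * (2 * (3 + y) + 1) ^ 2) + 28 + (x ^ 2 + 8 * x * y * z + 24 * x * y + 24 * x * z + 56 * x +
              16 * y ^ 2 * z ^ 2 + 80 * y ^ 2 * z + 96 * y ^ 2 + 96 * y * z ^ 2 + 400 * y * z + 336 * y + 144 * z ^ 2 +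
              476 * z + 104) := by ring
        omega
    have h6 := Nat.mul_le_mul_left j h1
    omega

theorem two_mul_le' {d : ℕ} (hd : 2 ≤ d) (j : ℕ) : 2 * j ≤ d ^ j := two_mul_le hd j

theorem bg_first {d ε : ℕ} (hr : 3 ≤ r) (hd : 2 ≤ d) (h1 : d ^ j ≤ ε + 2) (h2 : 2 * r + 2 * r * (r - 1) * ε ≤ n) (h3 : 1 ≤ ε)
    (h4 : j = 1 → r = 3 → 19 ≤ n) : Bg r j n := by
  have h5 := two_mul_le' hd j
  have h6 : 2 * r * 2 * ε ≤ 2 * r * (r - 1) * ε := by gcongr; omega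
  refine ⟨fun e => ⟨by nlinarith, h4 e⟩, fun e => ?_, fun e => ?_⟩
  · have h7 : 2 ≤ ε := by omega
    nlinarith
  · have h7 : j ≤ ε := by omega
    nlinarith

theorem bg_mid {d k : ℕ} (hr : 4 ≤ r) (hd : 2 ≤ d) (h1 : 2 ≤ k) (h2 : k < r) (h : r.choose k * 2 ^ k * d ^ j ≤ 2 * n) :
    Bg r j n := by
  have h3 := (Nat.mul_le_mul (H762.Ppd.Ar.six_mul_le hr h1 h2) (two_mul_le' hd j)).trans h
  refine ⟨fun e => ⟨by subst e; omega, by omega⟩, fun e => by subst e; omega, fun e => by nlinarith⟩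

theorem bg_mid3 {d ε : ℕ} (hd : 2 ≤ d) (h1 : d ^ j ≤ ε + 2) (h2 : 12 + 24 * ε ≤ n) (h3 : 1 ≤ ε) : Bg 3 j n := by
  have h5 := two_mul_le' hd j
  exact ⟨fun _ => by omega, fun _ => by omega, fun _ => by omega⟩

theorem le_pow3 (hr : 3 ≤ r) : r ≤ 3 * 2 ^ (r - 3) ∧ (4 ≤ r → r ≤ 2 * 2 ^ (r - 3)) := by
  obtain ⟨x, rfl⟩ := Nat.exists_eq_add_of_le hr
  rw [Nat.add_sub_cancel_left]
  have h1 := two_mul_le' le_rfl x
  have h2 : x < 2 ^ x := Nat.lt_two_pow_self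
  omega

theorem bg_last {s : ℕ} (hr : 3 ≤ r) (hj : 1 ≤ j) (hs : j ≤ 2 * s) (h : 2 ^ (r - 3) * (2 + 2 * (3 + 3 * (4 ^ s - 2))) ≤ n)
    (h3 : j = 2 → r = 3 → 30 ≤ n) : Bg r j n := by
  obtain ⟨h1, h2⟩ := le_pow3 hr
  have h4 : 4 ^ 1 ≤ 4 ^ s := Nat.pow_le_pow_right (by decide) (by omega)
  have h5 : 2 ^ (r - 3) * 20 ≤ n := le_trans (Nat.mul_le_mul_left _ (by omega)) h
  refine ⟨fun _ => by omega, fun e => by have := h3 e; omega, fun e => ?_⟩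
  have h6 : 8 * s ≤ 4 ^ s := by
    obtain ⟨x, rfl⟩ := Nat.exists_eq_add_of_le (show 2 ≤ s by omega)
    have h7 := two_mul_le' (show 2 ≤ 4 by decide) x
    have h8 : 0 < 4 ^ x := by positivity
    rw [pow_add]
    omega
  have h7 : 2 ^ (r - 3) * (12 * j) ≤ n := le_trans (Nat.mul_le_mul_left _ (by omega)) h
  nlinarith

theorem six_le_pow (hr : 5 ≤ r) : 6 * r ≤ 2 ^ r := by
  induction r, hr using Nat.le_induction with
  | base => norm_num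
  | succ r hr ih => rw [pow_succ]; omega

end Cfsg.Agent.N2C.RD.UM
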