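import Cfsg.Agent.N2.Cl.RD.UCr
import Cfsg.Agent.N2.Cl.RD.UNum
import Cfsg.Agent.H948.Ppd.Pminus
import Cfsg.Agent.H69.Ppd.Psu6Aux
import Cfsg.Agent.H905.MdL

/-!
# N2 (S3519), defining characteristic: the row of the unitary socles `U_m(s)`, `m ≥ 6` (helper64)

**`rowU`**.
-/

set_option autoImplicit false
set_option linter.unusedSectionVars false
set_option linter.style.haveILetI false

namespace Cfsg.Agent.N2C.RD

namespace UM

open CoxeterSystem Cfsg.Agent.ChevalleyStructure.CoxeterGeom Cfsg.Agent.Tits.Roots Cfsg.Agent.Tits.Core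
  Cfsg.Agent.Nodes.Reps Cfsg.Agent.Nodes.BNOf Cfsg.Agent.Nodes.Bruhat Cfsg.Agent.Nodes.RGDLib
open Cfsg.Agent.Nodes Cfsg.Agent.Nodes.WittRoot Cfsg.Agent.Nodes.WittRGD Cfsg.Agent.Nodes.WittAll Cfsg.Agent.Nodes.WittU
open Cfsg.Agent.Nodes.TypeC (isCartan)
open Cfsg.Agent.LieClassical.HermBasic Cfsg.Agent.LieClassical.HermSiegel
open Cfsg.Agent.TitsThree.Siegel Cfsg.Agent.TitsThree.SiegelGen Cfsg.Agent.TitsThree.WittFrame Cfsg.Agent.TitsThree.FrameCN
  Cfsg.Agent.TitsThree.WBridge Cfsg.Agent.TitsThree.KSideU Cfsg.Agent.TitsThree.KSideUDesc Cfsg.Agent.TitsThree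
open Cfsg.Agent.H915.LD Cfsg.Agent.H911 Cfsg.Agent.H905.Md Cfsg.Agent.H925.Nat
open Cfsg.Agent.H156.Ppd (Cov lrep)
open Cfsg.Agent.Omega.CR Cfsg.Agent.Omega.FOne.Lift.Sd
open Cfsg.Agent.H948.Ppd (TB XB NB JB dB finite_GL edge_pow_B bound_first bound_last bound_all bound_mid exists_node identify_B)
open Cfsg.Agent.H61.SUCross
open Cfsg.Agent.H762.Ppd (exists_covSU' comm_SU pow_SU last_bound not_mem_witt span_IU)
open Cfsg Cfsg.Geo
open scoped MatrixGroups Matrix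

/-- the Cartan matrices -/
def m3 : Fin 3 → Fin 3 → ℤ := ![![2, -1, 0], ![-1, 2, -2], ![0, -1, 2]]
/-- the Cartan matrices -/
def m4 : Fin 4 → Fin 4 → ℤ := ![![2, -1, 0, 0], ![-1, 2, -1, 0], ![0, -1, 2, -2], ![0, 0, -1, 2]]

theorem m3_eq : TypeC.A 3 = m3 := by
  funext i j
  rw [TypeC.A_apply]
  revert i j
  decide +kernel

theorem m4_eq : TypeC.A 4 = m4 := by
  funext i j
  rw [TypeC.A_apply]
  revert i j
  decide +kernel

section words

variable {l p n : ℕ} [hp : Fact p.Prime] {F : Type} [Field F] [CharP F p] {P : Subgroup (GL (Fin n) F)} {Y : Type} [Group Y]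
  [Finite Y] {T : Subgroup Y}

theorem w_two {nn : Fin l → Y} {X : (Fin l → ℤ) → Subgroup Y} {φ : Y →* GL (Fin n) F}
    (R : RGD (CoxeterMatrix.B l).toCoxeterSystem (isCartan l) p T nn X) (hC : Core P)
    (hG : GG (CoxeterMatrix.B l).toCoxeterSystem (isCartan l) T X = ⊤) (hT : ∀ s ∈ T, ∀ t ∈ T, s * t = t * s)
    (hφ : φ.range = P) {i k : Fin l} (hi : i ∉ Jx (CoxeterMatrix.B l).toCoxeterSystem (isCartan l) X (lin (acRep φ)))
    (hk : k ∉ Jx (CoxeterMatrix.B l).toCoxeterSystem (isCartan l) X (lin (acRep φ))) (ω : List (Fin l))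
    (L : List (List (Fin l) × ℕ))
    (hV : ((Rg.pts L).map (Rg.orb (TypeC.A l) (fun s => if s = i ∨ s = k then 1 else 0) ω)).Nodup) :
    (L.map Prod.snd).sum ≤ n := by
  have hWf : Finite (CoxeterMatrix.B l).Group := TypeC.finite_W (CoxeterMatrix.B l).toCoxeterSystem
  exact (Rg.exists_dm_le R hC hG hT hφ (c := fun s => if s = i ∨ s = k then 1 else 0)
    (fun s hs => if_neg (by rintro (rfl | rfl); exacts [hi hs, hk hs])) ω L [] [] [] (fun e he => absurd he (by simp))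
    (by rw [List.append_nil]; exact hV) List.nodup_nil (o' := 0) (m' := 0) rfl rfl rfl rfl).1

variable {nn : Fin 3 → Y} {X : (Fin 3 → ℤ) → Subgroup Y} {φ : Y →* GL (Fin n) F}
  (R : RGD (CoxeterMatrix.B 3).toCoxeterSystem (isCartan 3) p T nn X) (hC : Core P)
  (hG : GG (CoxeterMatrix.B 3).toCoxeterSystem (isCartan 3) T X = ⊤) (hT : ∀ s ∈ T, ∀ t ∈ T, s * t = t * s)
  (hφ : φ.range = P)
include R hC hG hT hφ

theorem w_two3 {i k : Fin 3} (hi : i ∉ Jx (CoxeterMatrix.B 3).toCoxeterSystem (isCartan 3) X (lin (acRep φ)))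
    (hk : k ∉ Jx (CoxeterMatrix.B 3).toCoxeterSystem (isCartan 3) X (lin (acRep φ))) (h : i < k) : 24 ≤ n := by
  have h1 : ∀ i k : Fin 3, i < k → (i = 0 ∧ k = 1) ∨ (i = 1 ∧ k = 2) ∨ (i = 0 ∧ k = 2) := by decide
  rcases h1 i k h with ⟨rfl, rfl⟩ | ⟨rfl, rfl⟩ | ⟨rfl, rfl⟩
  · exact w_two R hC hG hT hφ hi hk [0, 1, 2] [([], 6), ([0], 6), ([1], 6), ([0, 1], 6)] (by rw [m3_eq]; decide +kernel)
  · exact w_two R hC hG hT hφ hi hk [0, 1, 2] [([], 6), ([1], 6), ([2], 6), ([2, 1], 6)] (by rw [m3_eq]; decide +kernel)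
  · exact w_two R hC hG hT hφ hi hk [0, 1, 2] [([], 6), ([0], 6), ([0, 1], 6), ([2, 1], 6)] (by rw [m3_eq]; decide +kernel)

theorem w_first (hi : (0 : Fin 3) ∉ Jx (CoxeterMatrix.B 3).toCoxeterSystem (isCartan 3) X (lin (acRep φ)))
    (hd : 3 ≤ Module.finrank (AlgebraicClosure F) (Le (CoxeterMatrix.B 3).toCoxeterSystem (isCartan 3) T X (lin (acRep φ)) {0})) :
    ∃ u : P, dm (u : GL (Fin n) F) ≤ 3 * n + (n - 18) * (3 + 0 + (n - (18 + 0))) := by
  have hWf : Finite (CoxeterMatrix.B 3).Group := TypeC.finite_W (CoxeterMatrix.B 3).toCoxeterSystem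
  exact (Rg.exists_dm_le R hC hG hT hφ (c := fun s => if s = 0 then 1 else 0)
    (fun s hs => if_neg (by rintro rfl; exact hi hs)) [0, 1, 2] [([], 6)] [] [((0, []), 6), ((0, [1]), 6)] []
    (by
      intro e he
      simp only [List.append_nil, List.mem_cons, List.not_mem_nil, or_false] at he
      rcases he with rfl | rfl <;> exact hd)
    (by rw [m3_eq]; decide +kernel) (by rw [m3_eq]; decide +kernel) rfl rfl rfl rfl).2

theorem w_last (hi : (2 : Fin 3) ∉ Jx (CoxeterMatrix.B 3).toCoxeterSystem (isCartan 3) X (lin (acRep φ)))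
    (hd : 3 ≤ Module.finrank (AlgebraicClosure F) (Le (CoxeterMatrix.B 3).toCoxeterSystem (isCartan 3) T X (lin (acRep φ)) {2})) :
    ∃ u : P, dm (u : GL (Fin n) F) ≤ 3 * n + (n - 18) * (3 + 1 + (n - (18 + 2))) := by
  have hWf : Finite (CoxeterMatrix.B 3).Group := TypeC.finite_W (CoxeterMatrix.B 3).toCoxeterSystem
  exact (Rg.exists_dm_le R hC hG hT hφ (c := fun s => if s = 2 then 1 else 0)
    (fun s hs => if_neg (by rintro rfl; exact hi hs)) [0, 1, 2] [([], 6)] [([2, 1], 2)] [((2, []), 6), ((2, [1]), 6)] []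
    (by
      intro e he
      simp only [List.append_nil, List.mem_cons, List.not_mem_nil, or_false] at he
      rcases he with rfl | rfl <;> exact hd)
    (by rw [m3_eq]; decide +kernel) (by rw [m3_eq]; decide +kernel) rfl rfl rfl rfl).2

end words

theorem one_of {d j : ℕ} (hd : 2 ≤ d) (hj : 1 ≤ j) (h : d ^ j ≤ 2) : j = 1 ∧ d ^ j = 2 := by
  have := two_mul_le' hd j
  omega

variable {n : ℕ} {F : Type} [Field F] [Fintype F] {P : Subgroup (GL (Fin n) F)}
  {K : Type} [Field K] [Fintype K] {N q : ℕ} {p : ℕ} [hp : Fact p.Prime] [hFp : CharP F p] [hKp : CharP K p]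

theorem core (hC : Core P) (hN : 6 ≤ N) (hK : Fintype.card K = q ^ 2) (e : Soc P ≃* PSU N K q) {f : ℕ} (hf : 1 ≤ f)
    (hq : q = p ^ f) (hcj : Cj P (p ^ f)) (D : Nd (.U N) p f (Soc P)) (hs : ∃ u : P, dm (u : GL (Fin n) F) ≤ n ^ 2 / 4 + 1) :
    ∃ j, Nat.card F ^ j = q ^ 2 ∧ ((j = 1 ∧ n = N) ∨ ∃ u : P, Ok n N j (dm (u : GL (Fin n) F))) := by
  have hN3 : 3 ≤ N := by omega
  obtain ⟨r, hr⟩ : ∃ r, N = 2 * r ∨ N = 2 * r + 1 := ⟨N / 2, by omega⟩
  have hr3 : 3 ≤ r := by omega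
  obtain ⟨W, hW, hW0, hW'⟩ : ∃ W : WFrame (PU hK N) r, Kind W ∧ (N = 2 * r → W.V0 = ⊥) ∧
      (N = 2 * r + 1 → ∃ d : Fin N → K, hermForm N K q d d = 1 ∧ W.V0 = Submodule.span K {d}) := by
    rcases hr with hr | hr
    · obtain ⟨W, hW⟩ := exists_wframe_even hK hr
      exact ⟨W, Or.inl hW, fun _ => hW, fun h => by omega⟩
    · obtain ⟨W, d, hd, hW⟩ := exists_wframe_odd hK hr
      exact ⟨W, Or.inr ⟨d, hd, hW⟩, fun h => by omega, fun _ => ⟨d, hd, hW⟩⟩
  have hWf : Finite (CoxeterMatrix.B r).Group := TypeC.finite_W (CoxeterMatrix.B r).toCoxeterSystem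
  have := finite_GL (K := K) (ν := Fin N)
  obtain ⟨p0, hp0, -⟩ := exists_adm hK W
  have hA : AmbT (toFrame W) p (modelSU hK hN3 W).I := AmbT.of_amb (amb_U hK W) p
  obtain ⟨φ₀, hφ₀, C⟩ := exists_covSU' (hN := hN3) (W := W) hC (by omega) (by omega) (hA := hA) hp0 e
  have hT : ∀ s ∈ (TB (modelSU hK hN3 W)).comap (MonoidHom.id (modelSU hK hN3 W).I),
      ∀ t ∈ (TB (modelSU hK hN3 W)).comap (MonoidHom.id (modelSU hK hN3 W).I), s * t = t * s :=
    fun s hs t ht => comm_SU hW s hs t ht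
  obtain ⟨c, -, hc⟩ := FiniteField.card K p
  rw [← Nat.card_eq_fintype_card] at hc
  obtain ⟨j, hj, hjK⟩ := C.exists_j hC hT (a := c) c.ne_zero (by rw [← hc]; exact fun t ht => pow_SU hW t ht)
  rw [← hc] at hjK
  have hjq : Nat.card F ^ j = q ^ 2 := by rw [hjK, Nat.card_eq_fintype_card, hK]
  refine ⟨j, hjq, ?_⟩
  have hne := hC.nonempty
  have big : Bg r j n → (j = 1 ∧ n = N) ∨ ∃ u : P, Ok n N j (dm (u : GL (Fin n) F)) := fun h =>
    Or.inr (hs.imp fun u hu => ok_of_bg hr3 (by omega) hj hu h)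
  have hedge : ∀ i : Fin r, (i : ℕ) + 1 < r →
      i ∉ JB (modelSU hK hN3 W) p (MonoidHom.id (modelSU hK hN3 W).I) (φ₀.comp (modelSU hK hN3 W).φ) →
      ∃ m, 2 ≤ m ∧ dB (modelSU hK hN3 W) p (MonoidHom.id (modelSU hK hN3 W).I) (φ₀.comp (modelSU hK hN3 W).φ) i = m ^ j := by
    intro i hi hiJ
    obtain ⟨σ, N₁, -⟩ := nd_long hp0 C hi
    exact edge_pow_B hC C hT hiJ (⟨N₁.up, N₁.lo, N₁.tor⟩ : H948.Ppd.Nd _ _ i σ) hjK.symm
  by_cases hmid : ∃ i : Fin r, i ∉ JB (modelSU hK hN3 W) p (MonoidHom.id (modelSU hK hN3 W).I)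
      (φ₀.comp (modelSU hK hN3 W).φ) ∧ 1 ≤ (i : ℕ) ∧ (i : ℕ) + 1 < r
  · obtain ⟨i, hi, hi1, hi2⟩ := hmid
    obtain ⟨d, hd, hd'⟩ := hedge i hi2 hi
    rcases Nat.lt_or_ge 3 r with hr4 | hr4
    · have hb := bound_all hC C hT hi
      rw [Fintype.card_fin, hd'] at hb
      exact big (bg_mid hr4 hd (by omega) hi2 hb)
    obtain rfl : r = 3 := by omega
    obtain rfl : i = 1 := Fin.ext (by omega)
    obtain ⟨ε, h1, h2⟩ := bound_mid hC C hT hi
    rw [Fintype.card_fin] at h2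
    rw [hd'] at h1
    rcases Nat.eq_zero_or_pos ε with rfl | hε
    swap
    · exact big (bg_mid3 hd h1 h2 hε)
    obtain ⟨rfl, h3⟩ := one_of hd hj h1
    by_cases hJ : ∀ i, i ∉ JB (modelSU hK hN3 W) p (MonoidHom.id (modelSU hK hN3 W).I) (φ₀.comp (modelSU hK hN3 W).φ) → i = 1
    · obtain ⟨σ, N₁, hΔ⟩ := nd_long hp0 C hi2
      rcases hr with rfl | rfl
      · obtain ⟨h4, u, hu⟩ := cr hp0 C hC hT hi hJ (hd'.trans h3) N₁ _ hΔ hf hq hcj D (Or.inl ⟨rfl, rfl, Or.inl rfl⟩)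
        have h5 : 15 * n ≤ n ^ 2 := by rw [sq]; exact Nat.mul_le_mul_right _ (by omega)
        exact Or.inr ⟨u, fun _ => by omega, fun h => absurd rfl h⟩
      · obtain ⟨h4, u, hu⟩ := cr hp0 C hC hT hi hJ (hd'.trans h3) N₁ _ hΔ hf hq hcj D (Or.inr ⟨rfl, rfl, rfl⟩)
        have h5 : 14 * n ≤ n ^ 2 := by rw [sq]; exact Nat.mul_le_mul_right _ (by omega)
        exact Or.inr ⟨u, fun _ => by omega, fun h => absurd rfl h⟩
    · push Not at hJ
      obtain ⟨k, hk, hk1⟩ := hJ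
      have h4 : 24 ≤ n := by
        rcases lt_or_gt_of_ne hk1 with h | h
        exacts [w_two3 C.rgd hC C.hGG hT C.range hk hi h, w_two3 C.rgd hC C.hGG hT C.range hi hk h]
      exact big ⟨fun _ => by omega, fun h => by omega, fun h => by omega⟩
  have hends : ∀ i : Fin r, i ∉ JB (modelSU hK hN3 W) p (MonoidHom.id (modelSU hK hN3 W).I)
      (φ₀.comp (modelSU hK hN3 W).φ) → i = ⟨0, by omega⟩ ∨ i = ⟨r - 1, by omega⟩ := by
    intro i hi
    by_contra hcon
    rw [not_or, Fin.ext_iff, Fin.ext_iff] at hcon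
    have := i.2
    simp only at hcon
    exact hmid ⟨i, hi, by omega, by omega⟩
  by_cases h0 : (⟨0, by omega⟩ : Fin r) ∈ JB (modelSU hK hN3 W) p (MonoidHom.id (modelSU hK hN3 W).I)
      (φ₀.comp (modelSU hK hN3 W).φ)
  · -- the last node
    have hJ : ∀ i, i ∉ JB (modelSU hK hN3 W) p (MonoidHom.id (modelSU hK hN3 W).I)
        (φ₀.comp (modelSU hK hN3 W).φ) → i = ⟨r - 1, by omega⟩ := fun i hi =>
      (hends i hi).resolve_left fun h => hi (h ▸ h0)
    obtain ⟨i, hi⟩ := exists_node hC C hT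
    obtain rfl := hJ i hi
    obtain ⟨a, -, ha⟩ := FiniteField.card F p
    rw [← Nat.card_eq_fintype_card] at ha
    have hs' : f / Nat.gcd a f * Nat.gcd a f = f := Nat.div_mul_cancel (Nat.gcd_dvd_right _ _)
    generalize f / Nat.gcd a f = s at hs'
    have haj : (a : ℕ) * j = 2 * f := by
      have h1 : p ^ ((a : ℕ) * j) = p ^ (2 * f) := by
        rw [pow_mul, ← ha, hjq, hq, ← pow_mul, mul_comm]
      exact Nat.pow_right_injective hp.out.two_le h1
    have hjs : j ≤ 2 * s := by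
      have h1 : Nat.gcd a f ≤ a := Nat.gcd_le_left _ a.pos
      have h2 : (a : ℕ) * j ≤ a * (2 * s) := by
        rw [haj]
        calc 2 * f = 2 * (s * Nat.gcd a f) := by rw [hs']
          _ ≤ 2 * (s * a) := Nat.mul_le_mul_left _ (Nat.mul_le_mul_left _ h1)
          _ = a * (2 * s) := by ring
      exact Nat.le_of_mul_le_mul_left h2 a.pos
    have h5 := last_bound hC hp0 C hT hr3 (by simp only; omega) hi hJ ha hq hs'
    rw [Fintype.card_fin] at h5
    by_cases h6 : j = 2 → r = 3 → 30 ≤ n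
    · exact big (bg_last hr3 hj hjs h5 h6)
    push Not at h6
    obtain ⟨rfl, rfl, h6⟩ := h6
    have h7 : 20 ≤ n := by
      have h4 : 4 ^ 1 ≤ 4 ^ s := Nat.pow_le_pow_right (by decide) (by omega)
      omega
    rcases hr with rfl | rfl
    · rcases Nat.lt_or_ge 27 n with h8 | h8
      · refine Or.inr (hs.imp fun u hu => ⟨fun h => by omega, fun _ => ?_⟩)
        interval_cases n <;> omega
      by_cases h9 : 3 ≤ dB (modelSU hK hN3 W) p (MonoidHom.id (modelSU hK hN3 W).I) (φ₀.comp (modelSU hK hN3 W).φ) 2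
      · refine Or.inr ((w_last C.rgd hC C.hGG hT C.range hi h9).imp fun u hu => ⟨fun h => by omega, fun _ => ?_⟩)
        generalize dm (u : GL (Fin n) F) = x at hu
        clear * - hu h7 h8
        interval_cases n <;> omega
      · obtain ⟨σ, N₁, hΔ⟩ := nd_last hp0 C (hW0 rfl) (i := 2) (by decide)
        have : Fintype (Phan.fixedField hK) := Fintype.ofFinite _
        have hchar : CharP (AlgebraicClosure F) p := charP_of_injective_algebraMap (algebraMap F _).injective p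
        obtain ⟨hirr, hD⟩ := H948.Ppd.irr_B hC C hT
        have h10 := two_le_edge C.rgd hirr hi
        rw [hD] at h10
        obtain ⟨-, u, hu⟩ := cr hp0 C hC hT hi hJ (le_antisymm (Nat.le_of_lt_succ (not_le.1 h9)) h10) N₁ _ hΔ hf hq hcj D
          (Or.inl ⟨rfl, rfl, Or.inr rfl⟩)
        have h5 : 20 * n ≤ n ^ 2 := by rw [sq]; exact Nat.mul_le_mul_right _ h7
        exact Or.inr ⟨u, fun h => by omega, fun _ => by omega⟩
    · obtain ⟨d, hd, hV0⟩ := hW' rfl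
      have h1 := H69.Ppd.seven_last hN3 W hW hφ₀ hC.absIrred (i := 2) (by decide) hd hV0 (not_mem_witt hC hp0 C hT hi) hjq
      rw [Fintype.card_fin] at h1
      omega
  -- the first node
  obtain ⟨ε, hε, h3⟩ := bound_first hC C hT (by omega) rfl h0
  rw [Fintype.card_fin] at h3
  obtain ⟨d, hd, hd'⟩ := hedge _ (by simp only; omega) h0
  rw [hd'] at hε
  by_cases h1 : 3 ≤ d ^ j
  · by_cases h4 : j = 1 → r = 3 → 19 ≤ n
    · exact big (bg_first hr3 hd hε h3 (by omega) h4)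
    push Not at h4
    obtain ⟨rfl, rfl, h4⟩ := h4
    refine Or.inr ((w_first C.rgd hC C.hGG hT C.range h0 (h1.trans_eq hd'.symm)).imp fun u hu => ⟨fun _ => ?_, fun h => absurd rfl h⟩)
    have h5 : N ^ 2 ≤ 7 ^ 2 := Nat.pow_le_pow_left (by omega) 2
    generalize dm (u : GL (Fin n) F) = x at hu
    have h6 : n = 18 := by omega
    clear * - hu h5 h6
    subst h6
    omega
  obtain ⟨rfl, h2⟩ := one_of hd hj (by omega)
  by_cases hl : (⟨r - 1, by omega⟩ : Fin r) ∈ JB (modelSU hK hN3 W) p (MonoidHom.id (modelSU hK hN3 W).I)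
    (φ₀.comp (modelSU hK hN3 W).φ)
  · obtain ⟨τ, θ, -⟩ := identify_B hC hA hp0 (by omega) (span_IU hK hN3) C hT (o := ⟨0, by omega⟩) rfl
      (fun i hi => (hends i hi).resolve_right fun h => hi (h ▸ hl)) (hd'.trans h2).le
    have h4 := θ.finrank_eq
    rw [Module.finrank_fin_fun, Module.finrank_fin_fun] at h4
    exact Or.inl ⟨rfl, h4.symm⟩
  refine big ⟨fun _ => ?_, fun h => by omega, fun h => by omega⟩
  rcases Nat.lt_or_ge 4 r with hr5 | hr5
  · obtain ⟨ε', -, h4⟩ := bound_last hC C hT (i := ⟨r - 1, by omega⟩) (by simp only; omega) hl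
    rw [Fintype.card_fin] at h4
    have h5 := six_le_pow hr5
    omega
  rcases Nat.lt_or_ge 3 r with hr4 | hr4
  · obtain rfl : r = 4 := by omega
    have h5 : 24 ≤ n := w_two C.rgd hC C.hGG hT C.range (i := 0) (k := 3) h0 hl [0, 1, 2, 3] [([], 8), ([0], 8), ([0, 1], 8)]
      (by rw [m4_eq]; decide +kernel)
    omega
  · obtain rfl : r = 3 := by omega
    have h5 := w_two3 C.rgd hC C.hGG hT C.range (i := 0) (k := 2) h0 hl (by decide)
    omega

end UM

open Cfsg Cfsg.Geo Cfsg.Agent.H915.LD Cfsg.Agent.N2C.RX Cfsg.Agent.N2C.Cyc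

/-- **the row `U_m`, `m ≥ 6`** -/
theorem rowU : ∀ m, 6 ≤ m → Row (fU m) := by
  rintro m hm t n q p T b K _ _ P G c f M ⟨E, _, _, _, s, hE, h32, ⟨e⟩⟩
  have hp : Fact p.Prime := ⟨M.prime⟩
  have hc := M.char
  have hC := M.core
  have hne := hC.nonempty
  obtain ⟨a, ha, rfl⟩ := exists_f' E M.prime two_ne_zero hE
  have D : Nd (.U m) p a (Soc P) := nd_U hC.simple hC.nonabelian M.prime ha hE (by omega) h32 e
  have hcj : Cj P (p ^ a) := fun g hg => (H905.Md.psu_both p hC.absIrred hC.perfect (by omega) hE h32 e hg).2.symm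
  obtain ⟨j, hj, h⟩ := UM.core hC hm hE e ha rfl hcj D M.small
  rw [Nat.card_eq_fintype_card] at hj
  have hb : bil t → j ≠ 1 := by
    rintro ht rfl
    have hsd : SD P := by
      have h1 := M.frm
      cases t
      exacts [ht.elim, ht.elim, h1.2.1, h1.2, h1.2, h1.2]
    have h1 := hC.card_le p (by omega) (Fr.of_sd_cj hsd hcj)
    have h2 := D.two_le
    rw [pow_one] at hj
    nlinarith
  rcases h with ⟨rfl, rfl⟩ | ⟨u, hu⟩
  · cases t
    · exact absurd hcj (M.ncj rfl a)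
    · have h1 : q ^ 2 = (p ^ a) ^ 2 := by rw [← hj, pow_one]; exact M.card.symm
      obtain rfl := Nat.pow_left_injective two_ne_zero h1
      exact (M.not_nat D.ord_U).elim
    all_goals exact absurd rfl (hb trivial)
  · exact UM.crit M D (by omega) hj hb u hu

end Cfsg.Agent.N2C.RD
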